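import Cfsg.Agent.Lib.CentralFour.TwoPart
import Cfsg.Agent.Lib.Transfer.Fusion

/-!
# Averages of functions of the 2-part with an abelian Sylow 2-subgroup

For an abelian Sylow 2-subgroup `P` the average over the group of a class function of the 2-part is
its average over the normalizer of `P`.
-/

set_option autoImplicit false
set_option linter.unusedSectionVars false
set_option linter.style.haveILetI false

open Cfsg

namespace CfsgLib.CentralFour

variable {G : Type*} [Group G] [Fintype G]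

local notation "π" => CfsgLib.BlockStar.ppart 2

/-- The number of elements of `H` with 2-part `s`. -/
noncomputable def fib (H : Subgroup G) (s : G) : ℕ := Nat.card {g : H // π (g : G) = s}

/-- The centralizer of `s` in `H`. -/
def centIn (H : Subgroup G) (s : G) : Subgroup G := H ⊓ Subgroup.centralizer {s}

/-- The density of the 2-section of `s` in its centralizer. -/
noncomputable def dens (H : Subgroup G) (s : G) : ℂ :=
  (fib H s : ℂ) / (Nat.card (centIn H s) : ℂ)

theorem mem_centIn {H : Subgroup G} {s g : G} : g ∈ centIn H s ↔ g ∈ H ∧ g * s = s * g := by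
  simp [centIn, Subgroup.mem_centralizer_singleton_iff]

theorem fib_conj {H : Subgroup G} {h : G} (hh : h ∈ H) (s : G) :
    fib H (h * s * h⁻¹) = fib H s := by
  refine (Nat.card_congr
    { toFun := fun g => ⟨⟨h * (g.1 : G) * h⁻¹, mul_mem (mul_mem hh g.1.2) (inv_mem hh)⟩, by
        rw [CfsgLib.BlockStar.ppart_conj, g.2]⟩
      invFun := fun g => ⟨⟨h⁻¹ * (g.1 : G) * h, mul_mem (mul_mem (inv_mem hh) g.1.2) hh⟩, by
        have := CfsgLib.BlockStar.ppart_conj (p := 2) h⁻¹ (g.1 : G)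
        rw [inv_inv, g.2] at this
        rw [this]; group⟩
      left_inv := ?_
      right_inv := ?_ }).symm <;> intro g <;> ext <;> simp [mul_assoc]

theorem card_centIn_conj {H : Subgroup G} {h : G} (hh : h ∈ H) (s : G) :
    Nat.card (centIn H (h * s * h⁻¹)) = Nat.card (centIn H s) := by
  have key : ∀ {a : G} (t : G), a ∈ H → ∀ x ∈ centIn H t, a * x * a⁻¹ ∈ centIn H (a * t * a⁻¹) := by
    intro a t ha x hx
    obtain ⟨h1, h2⟩ := mem_centIn.1 hx
    refine mem_centIn.2 ⟨mul_mem (mul_mem ha h1) (inv_mem ha), ?_⟩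
    calc a * x * a⁻¹ * (a * t * a⁻¹) = a * (x * t) * a⁻¹ := by group
      _ = a * (t * x) * a⁻¹ := by rw [h2]
      _ = _ := by group
  refine Nat.card_congr
    { toFun := fun x => ⟨h⁻¹ * (x : G) * h, by
        have := key _ (inv_mem hh) _ x.2
        rw [inv_inv] at this
        convert this using 2
        group⟩
      invFun := fun x => ⟨h * (x : G) * h⁻¹, key s hh _ x.2⟩
      left_inv := fun x => by ext; simp [mul_assoc]
      right_inv := fun x => by ext; simp [mul_assoc] }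

theorem dens_conj {H : Subgroup G} {h : G} (hh : h ∈ H) (s : G) :
    dens H (h * s * h⁻¹) = dens H s := by
  simp [dens, fib_conj hh, card_centIn_conj hh]

theorem fib_centIn {H : Subgroup G} (s : G) : fib (centIn H s) s = fib H s := by
  refine Nat.card_congr
    { toFun := fun g => ⟨⟨(g.1 : G), (mem_centIn.1 g.1.2).1⟩, g.2⟩
      invFun := fun g => ⟨⟨(g.1 : G), mem_centIn.2 ⟨g.1.2, by
        have := (CfsgLib.Blocks.commute_of_isPPart
          (CfsgLib.BlockStar.ppart_spec (p := 2) (g.1 : G))).eq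
        rw [g.2] at this
        exact this.symm⟩⟩, g.2⟩
      left_inv := fun g => rfl
      right_inv := fun g => rfl }

theorem fib_translate {H : Subgroup G} {s : G} (hs : s ∈ H) (hs2 : ∃ k : ℕ, orderOf s = 2 ^ k)
    (hc : ∀ g ∈ H, g * s = s * g) : fib H s = fib H 1 := by
  refine Nat.card_congr
    { toFun := fun g => ⟨⟨s⁻¹ * (g.1 : G), mul_mem (inv_mem hs) g.1.2⟩, ?_⟩
      invFun := fun g => ⟨⟨s * (g.1 : G), mul_mem hs g.1.2⟩, ?_⟩
      left_inv := fun g => by ext; simp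
      right_inv := fun g => by ext; simp }
  · obtain ⟨y, hxy, -, -, hy⟩ := CfsgLib.BlockStar.ppart_spec (p := 2) (g.1 : G)
    rw [g.2] at hxy
    exact CfsgLib.BlockStar.ppart_eq ⟨y, (one_mul y).trans (eq_inv_mul_iff_mul_eq.2 hxy),
      Commute.one_left y, ⟨0, by simp⟩, hy⟩
  · obtain ⟨y, hxy, -, -, hy⟩ := CfsgLib.BlockStar.ppart_spec (p := 2) (g.1 : G)
    rw [g.2, one_mul] at hxy
    exact CfsgLib.BlockStar.ppart_eq ⟨y, by rw [hxy], (hc y (hxy ▸ g.1.2)).symm, hs2, hy⟩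

variable (P : Sylow 2 G) (hab : IsMulCommutative (P : Subgroup G))

/-- The normalizer of `P` in `H`. -/
def normIn (H : Subgroup G) : Subgroup G := H ⊓ Subgroup.normalizer ((P : Subgroup G) : Set G)

theorem le_normIn {H : Subgroup G} (hPH : (P : Subgroup G) ≤ H) : (P : Subgroup G) ≤ normIn P H :=
  le_inf hPH Subgroup.le_normalizer

theorem normIn_normIn (H : Subgroup G) : normIn P (normIn P H) = normIn P H := by
  simp [normIn, inf_assoc]

theorem normIn_centIn (H : Subgroup G) (s : G) :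
    normIn P (centIn H s) = centIn (normIn P H) s := inf_right_comm _ _ _

theorem exists_conj_mem {H : Subgroup G} (hPH : (P : Subgroup G) ≤ H) {t : G} (ht : t ∈ H)
    (ht2 : ∃ k : ℕ, orderOf t = 2 ^ k) :
    ∃ h ∈ H, ∃ s ∈ (P : Subgroup G), h * s * h⁻¹ = t := by
  haveI : Fact (Nat.Prime 2) := ⟨Nat.prime_two⟩
  obtain ⟨c, hc⟩ := exists_conj_mem_sylow (P.subtype hPH)
    (isPGroup_zpowers' (x := (⟨t, ht⟩ : H)) (by simpa using ht2))
  have := hc _ (Subgroup.mem_zpowers _)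
  rw [Sylow.coe_subtype, Subgroup.mem_subgroupOf] at this
  refine ⟨(c : G)⁻¹, inv_mem c.2, _, this, ?_⟩
  simp [mul_assoc]

include hab in
theorem exists_normIn_conj {H : Subgroup G} (hPH : (P : Subgroup G) ≤ H) {h s : G} (hh : h ∈ H)
    (hs : s ∈ (P : Subgroup G)) (ht : h * s * h⁻¹ ∈ (P : Subgroup G)) :
    ∃ n ∈ normIn P H, n * s * n⁻¹ = h * s * h⁻¹ := by
  haveI : Fact (Nat.Prime 2) := ⟨Nat.prime_two⟩
  have hab' : IsMulCommutative (P.subtype hPH : Subgroup H) := by
    rw [Sylow.coe_subtype]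
    refine ⟨⟨fun a b => Subtype.ext (Subtype.ext ?_)⟩⟩
    exact (congrArg Subtype.val
      (hab.is_comm.comm (⟨_, a.2⟩ : (P : Subgroup G)) ⟨_, b.2⟩) :)
  obtain ⟨n, hn, e⟩ := CfsgLib.Transfer.abelian_sylow_control (P.subtype hPH) hab' ⟨s, hPH hs⟩
    (by rw [Sylow.coe_subtype, Subgroup.mem_subgroupOf]; exact hs) ⟨h, hh⟩
    (by rw [Sylow.coe_subtype, Subgroup.mem_subgroupOf]; exact ht)
  refine ⟨n, Subgroup.mem_inf.2 ⟨n.2, Subgroup.mem_normalizer_iff.2 fun x => ?_⟩,
    congrArg Subtype.val e⟩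
  have hn' := Subgroup.mem_normalizer_iff.1 hn
  constructor
  · intro hx
    exact (hn' ⟨x, hPH hx⟩).1 hx
  · intro hx
    have hxH : x ∈ H := by
      have := mul_mem (mul_mem (inv_mem n.2) (hPH hx)) n.2
      simpa [mul_assoc] using this
    exact (hn' ⟨x, hxH⟩).2 hx

include hab in
/-- The sum over `H` of a function of the 2-part, class by class. -/
theorem sum_twoPart {H : Subgroup G} [Fintype H] [Fintype (P : Subgroup G)]
    (hPH : (P : Subgroup G) ≤ H) (φ : G → ℂ) (hφ : ∀ h ∈ H, ∀ x, φ (h * x * h⁻¹) = φ x) :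
    (Nat.card H : ℂ) * ∑ s : (P : Subgroup G),
        φ s * (Nat.card (centIn (normIn P H) (s : G)) : ℂ) * dens H s
      = (Nat.card (normIn P H) : ℂ) * ∑ g : H, φ (π (g : G)) := by
  classical
  set N := normIn P H with hN
  set ψ : G → ℂ := fun s => φ s * (Nat.card (centIn N s) : ℂ) * dens H s with hψ
  have hR : ∑ g : H, φ (π (g : G)) = ∑ t : G, (fib H t : ℂ) * φ t := by
    rw [← Finset.sum_fiberwise (g := fun g : H => π (g : G))]
    refine Finset.sum_congr rfl fun t _ => ?_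
    rw [Finset.sum_congr rfl (g := fun _ => φ t) (fun g hg => by
      rw [(Finset.mem_filter.1 hg).2]), Finset.sum_const, nsmul_eq_mul, fib,
      Nat.card_eq_fintype_card, Fintype.card_subtype]
  have hL : (Nat.card H : ℂ) * ∑ s : (P : Subgroup G), ψ s
      = ∑ p : H × (P : Subgroup G), ψ (p.2 : G) := by
    rw [Fintype.sum_prod_type]
    simp [Nat.card_eq_fintype_card]
  rw [hR, hL, Finset.mul_sum,
    ← Finset.sum_fiberwise (g := fun p : H × (P : Subgroup G) => (p.1 : G) * p.2 * (p.1 : G)⁻¹)]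
  refine Finset.sum_congr rfl fun t _ => ?_
  by_cases hex : ∃ p : H × (P : Subgroup G), (p.1 : G) * p.2 * (p.1 : G)⁻¹ = t
  swap
  · rw [Finset.filter_false_of_mem (fun p _ hp => hex ⟨p, hp⟩), Finset.sum_empty]
    have h0 : fib H t = 0 := by
      rw [fib, Nat.card_eq_zero]
      refine Or.inl ⟨fun g => hex ?_⟩
      obtain ⟨h, hh, s, hs, e⟩ := exists_conj_mem P hPH (t := t) (g.2 ▸ twoPart_mem g.1.2)
        (g.2 ▸ exists_orderOf_twoPart _)
      exact ⟨(⟨h, hh⟩, ⟨s, hs⟩), e⟩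
    simp [h0]
  obtain ⟨⟨h₀, s₀⟩, e₀⟩ := hex
  simp only at e₀
  -- the elements of `P` conjugate to `t` are conjugate under `N`
  have hchoice : ∀ p : {p : H × (P : Subgroup G) // (p.1 : G) * p.2 * (p.1 : G)⁻¹ = t},
      ∃ n ∈ N, n * (s₀ : G) * n⁻¹ = (p.1.2 : G) := by
    rintro ⟨⟨h, s⟩, hp⟩
    simp only at hp ⊢
    have e : ((h : G)⁻¹ * h₀) * s₀ * ((h : G)⁻¹ * h₀)⁻¹ = s := by
      calc _ = (h : G)⁻¹ * ((h₀ : G) * s₀ * (h₀ : G)⁻¹) * h := by group
        _ = (h : G)⁻¹ * ((h : G) * s * (h : G)⁻¹) * h := by rw [e₀, hp]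
        _ = s := by group
    obtain ⟨n, hn, e'⟩ := exists_normIn_conj P hab hPH (mul_mem (inv_mem h.2) h₀.2) s₀.2
      (e.symm ▸ s.2)
    exact ⟨n, hn, e'.trans e⟩
  choose n hnN hn using hchoice
  have hψc : ∀ p, ψ (p : {p : H × (P : Subgroup G) // (p.1 : G) * p.2 * (p.1 : G)⁻¹ = t}).1.2
      = ψ s₀ := by
    intro p
    have hH := (Subgroup.mem_inf.1 (hnN p)).1
    simp only [hψ]
    rw [← hn p, hφ _ hH, dens_conj hH, card_centIn_conj (hnN p)]
  have hcard : Nat.card {p : H × (P : Subgroup G) // (p.1 : G) * p.2 * (p.1 : G)⁻¹ = t}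
      * Nat.card (centIn N (s₀ : G)) = Nat.card (centIn H (s₀ : G)) * Nat.card N := by
    rw [← Nat.card_prod, ← Nat.card_prod]
    refine Nat.card_congr
      { toFun := fun q => (⟨(h₀ : G)⁻¹ * (q.1.1.1 : G) * (n q.1 * q.2), ?_⟩,
          ⟨n q.1 * q.2, mul_mem (hnN q.1) (mem_centIn.1 q.2.2).1⟩)
        invFun := fun q =>
          let p : {p : H × (P : Subgroup G) // (p.1 : G) * p.2 * (p.1 : G)⁻¹ = t} :=
            ⟨(⟨(h₀ : G) * q.1 * (q.2 : G)⁻¹, ?_⟩, ⟨(q.2 : G) * s₀ * (q.2 : G)⁻¹, ?_⟩), ?_⟩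
          (p, ⟨(n p)⁻¹ * q.2, ?_⟩)
        left_inv := ?_
        right_inv := ?_ }
    · refine mem_centIn.2 ⟨mul_mem (mul_mem (inv_mem h₀.2) q.1.1.1.2)
        (mul_mem (Subgroup.mem_inf.1 (hnN q.1)).1 (Subgroup.mem_inf.1 (mem_centIn.1 q.2.2).1).1), ?_⟩
      have hi := (mem_centIn.1 q.2.2).2
      calc (h₀ : G)⁻¹ * (q.1.1.1 : G) * (n q.1 * q.2) * s₀
          = (h₀ : G)⁻¹ * (q.1.1.1 : G) * (n q.1 * ((q.2 : G) * s₀)) := by group
        _ = (h₀ : G)⁻¹ * (q.1.1.1 : G) * (n q.1 * (s₀ * (q.2 : G))) := by rw [hi]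
        _ = (h₀ : G)⁻¹ * ((q.1.1.1 : G) * (n q.1 * s₀ * (n q.1)⁻¹) * (q.1.1.1 : G)⁻¹) *
              (q.1.1.1 : G) * (n q.1 * q.2) := by group
        _ = (h₀ : G)⁻¹ * ((h₀ : G) * s₀ * (h₀ : G)⁻¹) * (q.1.1.1 : G) * (n q.1 * q.2) := by
              rw [hn q.1, q.1.2, e₀]
        _ = _ := by group
    · exact mul_mem (mul_mem h₀.2 (mem_centIn.1 q.1.2).1) (inv_mem (Subgroup.mem_inf.1 q.2.2).1)
    · exact (Subgroup.mem_normalizer_iff.1 (Subgroup.mem_inf.1 q.2.2).2 _).1 s₀.2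
    · have hi := (mem_centIn.1 q.1.2).2
      calc (h₀ : G) * q.1 * (q.2 : G)⁻¹ * ((q.2 : G) * s₀ * (q.2 : G)⁻¹) *
            ((h₀ : G) * q.1 * (q.2 : G)⁻¹)⁻¹
          = (h₀ : G) * ((q.1 : G) * s₀) * (q.1 : G)⁻¹ * (h₀ : G)⁻¹ := by group
        _ = (h₀ : G) * ((s₀ : G) * q.1) * (q.1 : G)⁻¹ * (h₀ : G)⁻¹ := by rw [hi]
        _ = (h₀ : G) * s₀ * (h₀ : G)⁻¹ := by group
        _ = t := e₀
    · refine mem_centIn.2 ⟨mul_mem (inv_mem (hnN p)) q.2.2, ?_⟩
      have hp : n p * s₀ * (n p)⁻¹ = (q.2 : G) * s₀ * (q.2 : G)⁻¹ := hn p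
      calc (n p)⁻¹ * (q.2 : G) * s₀
          = (n p)⁻¹ * ((q.2 : G) * s₀ * (q.2 : G)⁻¹) * q.2 := by group
        _ = (n p)⁻¹ * (n p * s₀ * (n p)⁻¹) * q.2 := by rw [hp]
        _ = _ := by group
    · rintro ⟨⟨⟨h, s⟩, hp⟩, i⟩
      have hi := (mem_centIn.1 i.2).2
      have hn' := hn ⟨(h, s), hp⟩
      simp only at hn'
      have e : n ⟨(h, s), hp⟩ * (i : G) * s₀ * (n ⟨(h, s), hp⟩ * (i : G))⁻¹ = s := by
        calc _ = n ⟨(h, s), hp⟩ * ((i : G) * s₀) * (i : G)⁻¹ * (n ⟨(h, s), hp⟩)⁻¹ := by group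
          _ = n ⟨(h, s), hp⟩ * ((s₀ : G) * i) * (i : G)⁻¹ * (n ⟨(h, s), hp⟩)⁻¹ := by rw [hi]
          _ = n ⟨(h, s), hp⟩ * s₀ * (n ⟨(h, s), hp⟩)⁻¹ := by group
          _ = s := hn'
      have hp' : ∀ q : {p : H × (P : Subgroup G) // (p.1 : G) * p.2 * (p.1 : G)⁻¹ = t},
          (q.1.1 : G) = h → (q.1.2 : G) = s → q = ⟨(h, s), hp⟩ := fun q h1 h2 =>
        Subtype.ext (Prod.ext (Subtype.ext h1) (Subtype.ext h2))
      refine Prod.ext (hp' _ ?_ e) (Subtype.ext ?_)
      · simp [mul_assoc]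
      · dsimp only
        refine (congrArg (fun q => (n q)⁻¹ * (n ⟨(h, s), hp⟩ * (i : G))) (hp' _ ?_ e)).trans
          (inv_mul_cancel_left _ _)
        simp [mul_assoc]
    · rintro ⟨c, m⟩
      refine Prod.ext (Subtype.ext ?_) (Subtype.ext ?_)
      · simp [mul_assoc]
      · simp
  rw [Finset.sum_congr rfl (g := fun _ => ψ s₀) (fun p hp =>
    hψc ⟨p, (Finset.mem_filter.1 hp).2⟩), Finset.sum_const, nsmul_eq_mul]
  rw [← Fintype.card_subtype, ← Nat.card_eq_fintype_card, ← e₀, fib_conj h₀.2, hφ _ h₀.2]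
  rw [← e₀] at hcard
  have hC : (Nat.card (centIn H (s₀ : G)) : ℂ) ≠ 0 := Nat.cast_ne_zero.2 Nat.card_pos.ne'
  have hcard' := congrArg (Nat.cast (R := ℂ)) hcard
  push_cast at hcard'
  simp only [hψ, dens]
  field_simp
  linear_combination (φ (s₀ : G) * (fib H (s₀ : G) : ℂ)) * hcard'

include hab in
/-- The densities in `H` and in the normalizer of `P` agree. -/
theorem dens_eq_normIn : ∀ (H : Subgroup G), (P : Subgroup G) ≤ H → ∀ s ∈ (P : Subgroup G),
    dens H s = dens (normIn P H) s := by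
  classical
  suffices h : ∀ k, ∀ H : Subgroup G, Nat.card H = k → (P : Subgroup G) ≤ H →
      ∀ s ∈ (P : Subgroup G), dens H s = dens (normIn P H) s from fun H => h _ H rfl
  intro k
  induction k using Nat.strong_induction_on with
  | _ k ih =>
  intro H hk hPH
  haveI := Fintype.ofFinite H
  haveI := Fintype.ofFinite (P : Subgroup G)
  set N := normIn P H
  haveI := Fintype.ofFinite N
  have hN0 : (Nat.card N : ℂ) ≠ 0 := Nat.cast_ne_zero.2 Nat.card_pos.ne'
  have hH0 : (Nat.card H : ℂ) ≠ 0 := Nat.cast_ne_zero.2 Nat.card_pos.ne'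
  -- non-central elements
  have hnc : ∀ s ∈ (P : Subgroup G), centIn H s ≠ H → dens H s = dens N s := by
    intro s hs hne
    have hlt : Nat.card (centIn H s) < k := hk ▸
      lt_of_le_of_ne (Subgroup.card_le_of_le inf_le_left) fun e =>
        hne (Subgroup.eq_of_le_of_card_ge inf_le_left e.ge)
    have hPC : (P : Subgroup G) ≤ centIn H s := fun x hx =>
      mem_centIn.2 ⟨hPH hx, congrArg Subtype.val (hab.is_comm.comm ⟨x, hx⟩ ⟨s, hs⟩)⟩
    have := ih _ hlt (centIn H s) rfl hPC s hs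
    rw [normIn_centIn] at this
    have hid : ∀ K : Subgroup G, centIn (centIn K s) s = centIn K s := fun K => by
      simp [centIn, inf_assoc]
    simp only [dens, fib_centIn, hid] at this ⊢
    exact this
  -- central elements
  have hcen : ∀ (K : Subgroup G), (P : Subgroup G) ≤ K → ∀ s ∈ (P : Subgroup G),
      centIn K s = K → dens K s = dens K 1 := by
    intro K hK s hs he
    have h1 : centIn K 1 = K := le_antisymm inf_le_left fun x hx => mem_centIn.2 ⟨hx, by simp⟩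
    rw [dens, dens, he, h1, fib_translate (hK hs) (exists_twoPow_of_mem P.2 hs)
      (fun g hg => (mem_centIn.1 (he.symm ▸ hg : g ∈ centIn K s)).2)]
  have hcN : ∀ s, centIn H s = H → centIn N s = N := fun s he =>
    le_antisymm inf_le_left fun x hx => mem_centIn.2 ⟨hx,
      (mem_centIn.1 (he.symm ▸ (Subgroup.mem_inf.1 hx).1 : x ∈ centIn H s)).2⟩
  intro s hs
  by_cases he : centIn H s = H
  swap
  · exact hnc s hs he
  rw [hcen H hPH s hs he, hcen N (le_normIn P hPH) s hs (hcN s he)]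
  -- the identity for the constant function
  have eH := sum_twoPart P hab hPH (fun _ => 1) fun _ _ _ => rfl
  have eN := sum_twoPart P hab (le_normIn P hPH) (fun _ => 1) fun _ _ _ => rfl
  simp only [one_mul, normIn_normIn, Finset.sum_const, Finset.card_univ, nsmul_eq_mul, mul_one,
    ← Nat.card_eq_fintype_card] at eH eN
  rw [mul_comm (Nat.card N : ℂ) (Nat.card H : ℂ)] at eH
  have eH' := mul_left_cancel₀ hH0 eH
  have eN' := mul_left_cancel₀ hN0 eN
  have hdiff : ∑ x : (P : Subgroup G),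
      (Nat.card (centIn N (x : G)) : ℂ) * (dens H x - dens N x) = 0 := by
    simp only [mul_sub, Finset.sum_sub_distrib]
    rw [eH', eN', sub_self]
  have hterm : ∀ x : (P : Subgroup G), (Nat.card (centIn N (x : G)) : ℂ) * (dens H x - dens N x)
      = if centIn H (x : G) = H then (Nat.card N : ℂ) * (dens H 1 - dens N 1) else 0 := by
    intro x
    split_ifs with h
    · rw [hcen H hPH x x.2 h, hcen N (le_normIn P hPH) x x.2 (hcN x h), hcN x h]
    · rw [hnc x x.2 h, sub_self, mul_zero]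
  rw [Finset.sum_congr rfl (fun x _ => hterm x), ← Finset.sum_filter, Finset.sum_const,
    nsmul_eq_mul] at hdiff
  rcases mul_eq_zero.1 hdiff with h | h
  · exfalso
    rw [Nat.cast_eq_zero, Finset.card_eq_zero, Finset.filter_eq_empty_iff] at h
    exact h (Finset.mem_univ (1 : (P : Subgroup G))) (le_antisymm inf_le_left fun x hx =>
      mem_centIn.2 ⟨hx, by simp⟩)
  · exact sub_eq_zero.1 ((mul_eq_zero.1 h).resolve_left hN0)

include hab in
/-- The average of a class function of the 2-part is its average over the normalizer of `P`. -/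
theorem average_eq [Fintype (Subgroup.normalizer ((P : Subgroup G) : Set G))] {φ : G → ℂ}
    (hφ : IsClassFunction G φ) :
    (Nat.card G : ℂ)⁻¹ * ∑ g : G, φ (π g)
      = (Nat.card (Subgroup.normalizer ((P : Subgroup G) : Set G)) : ℂ)⁻¹ *
        ∑ n : Subgroup.normalizer ((P : Subgroup G) : Set G), φ (π (n : G)) := by
  classical
  haveI := Fintype.ofFinite (P : Subgroup G)
  haveI : Fintype (⊤ : Subgroup G) := Fintype.ofFinite _
  have hN : normIn P (⊤ : Subgroup G) = Subgroup.normalizer ((P : Subgroup G) : Set G) :=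
    top_inf_eq _
  have eG := sum_twoPart P hab (H := ⊤) le_top φ fun h _ x => hφ x h
  have eN := sum_twoPart P hab (H := Subgroup.normalizer ((P : Subgroup G) : Set G))
    Subgroup.le_normalizer φ fun h _ x => hφ x h
  have hd : ∀ s : (P : Subgroup G), dens (⊤ : Subgroup G) (s : G)
      = dens (Subgroup.normalizer ((P : Subgroup G) : Set G)) (s : G) := fun s => by
    rw [dens_eq_normIn P hab ⊤ le_top s s.2, hN]
  rw [hN] at eG
  rw [show normIn P (Subgroup.normalizer ((P : Subgroup G) : Set G))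
    = Subgroup.normalizer ((P : Subgroup G) : Set G) from inf_idem _] at eN
  simp only [hd] at eG
  rw [Subgroup.card_top, Fintype.sum_equiv Subgroup.topEquiv.toEquiv (fun g => φ (π (g : G)))
    (fun g => φ (π g)) fun g => rfl] at eG
  have hN0 : (Nat.card (Subgroup.normalizer ((P : Subgroup G) : Set G)) : ℂ) ≠ 0 :=
    Nat.cast_ne_zero.2 Nat.card_pos.ne'
  have hG0 : (Nat.card G : ℂ) ≠ 0 := Nat.cast_ne_zero.2 Nat.card_pos.ne'
  rw [← mul_left_cancel₀ hN0 eN]
  field_simp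
  linear_combination -eG

end CfsgLib.CentralFour
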