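import Cfsg.Agent.Lib.CentralFour.Kernel
import Cfsg.Agent.Lib.CentralFour.AbelianAverage
import Mathlib.GroupTheory.FiniteAbelian.Duality

/-!
# An abelian Sylow 2-subgroup with a non-trivial action on a quotient of order four

In a simple group with such a Sylow 2-subgroup there are at most four elements of square one in it.
-/

set_option autoImplicit false
set_option linter.unusedSectionVars false
set_option linter.style.haveILetI false

open scoped ComplexConjugate
open Finset Cfsg CfsgLib.CharTheory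

namespace CfsgLib.CentralFour

section Norm

variable {Q : Type*} [CommGroup Q] [Finite Q] (A : Subgroup (MulAut Q))

/-- The norm map of a group of automorphisms. -/
noncomputable def normMap : Q →* Q :=
  letI := Fintype.ofFinite A
  { toFun := fun x => ∏ a : A, (a : MulAut Q) x
    map_one' := by simp
    map_mul' := fun x y => by simp [Finset.prod_mul_distrib] }

theorem normMap_apply [Fintype A] (x : Q) : normMap A x = ∏ a : A, (a : MulAut Q) x := by
  simp only [normMap, MonoidHom.coe_mk, OneHom.coe_mk]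
  exact Finset.prod_congr (by ext; simp) fun _ _ => rfl

theorem normMap_smul {b : MulAut Q} (hb : b ∈ A) (x : Q) : normMap A (b x) = normMap A x := by
  haveI := Fintype.ofFinite A
  rw [normMap_apply, normMap_apply]
  exact Fintype.prod_equiv (Equiv.mulRight ⟨b, hb⟩) _ _ fun a => rfl

theorem smul_normMap {b : MulAut Q} (hb : b ∈ A) (x : Q) : b (normMap A x) = normMap A x := by
  haveI := Fintype.ofFinite A
  rw [normMap_apply, map_prod]
  exact Fintype.prod_equiv (Equiv.mulLeft ⟨b, hb⟩) _ _ fun a => rfl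

theorem normMap_comm {o : MulAut Q} (ho : ∀ a, a ∈ A ↔ o * a * o⁻¹ ∈ A) (x : Q) :
    o (normMap A x) = normMap A (o x) := by
  haveI := Fintype.ofFinite A
  rw [normMap_apply, normMap_apply, map_prod]
  let e : A ≃ A := ⟨fun a => ⟨o * a * o⁻¹, (ho a).1 a.2⟩,
    fun a => ⟨o⁻¹ * a * o, (ho _).2 (by simp [mul_assoc])⟩,
    fun a => by ext; simp [mul_assoc], fun a => by ext; simp [mul_assoc]⟩
  refine Fintype.prod_equiv e _ _ fun a => ?_
  show o ((a : MulAut Q) x) = (o * a * o⁻¹ : MulAut Q) (o x)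
  simp [MulAut.mul_apply]

theorem normMap_of_fixed {x : Q} (h : ∀ a ∈ A, a x = x) : normMap A x = x ^ Nat.card A := by
  haveI := Fintype.ofFinite A
  rw [normMap_apply, prod_congr rfl (g := fun _ => x) (fun (a : A) _ => h (a : MulAut Q) a.2), prod_const,
    card_univ, Nat.card_eq_fintype_card]

theorem normMap_congr {R : Subgroup Q} {x : Q} (h : ∀ a ∈ A, a x / x ∈ R) :
    normMap A x / x ^ Nat.card A ∈ R := by
  haveI := Fintype.ofFinite A
  rw [normMap_apply, Nat.card_eq_fintype_card, ← card_univ, ← prod_const, ← prod_div_distrib]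
  exact Subgroup.prod_mem _ fun (a : A) _ => h (a : MulAut Q) a.2

end Norm

theorem eq_one_of_pow_odd {M : Type*} [Monoid M] {x : M} {m k : ℕ} (hm : Odd m) (h : x ^ m = 1)
    (h2 : x ^ 2 ^ k = 1) : x = 1 := by
  have h1 : Nat.Coprime m (2 ^ k) :=
    Nat.Coprime.pow_right _ (Nat.coprime_comm.1 ((Nat.Prime.coprime_iff_not_dvd Nat.prime_two).2
      fun hd => (Nat.not_even_iff_odd.2 hm) (even_iff_two_dvd.2 hd)))
  exact orderOf_eq_one_iff.1 (Nat.eq_one_of_dvd_coprimes h1 (orderOf_dvd_of_pow_eq_one h)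
    (orderOf_dvd_of_pow_eq_one h2))

theorem units_eq_or_eq_neg {z : ℂˣ} (h : z * z = 1) : (z : ℂ) = 1 ∨ (z : ℂ) = -1 :=
  mul_self_eq_one_iff.1 (by rw [← Units.val_mul, h, Units.val_one])

theorem eq_one_of_units_cube {z : ℂˣ} {k : ℕ} (h : z * z * z = 1) (h2 : z ^ 2 ^ k = 1) : z = 1 :=
  eq_one_of_pow_odd (m := 3) (by decide) (by rw [pow_succ, pow_two, h]) h2

variable {G : Type*} [Group G] [Fintype G]

local notation "π" => CfsgLib.BlockStar.ppart 2

/-- No simple group has an abelian Sylow 2-subgroup with more than four elements of square one and a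
subgroup of index four invariant, but not centralised modulo it, under the normalizer. -/
theorem false_of_abelian [IsSimpleGroup G] (P : Sylow 2 G)
    (hab : IsMulCommutative (P : Subgroup G)) (K : Subgroup (P : Subgroup G)) (hK : K.index = 4)
    (hKinv : ∀ n (hn : n ∈ Subgroup.normalizer ((P : Subgroup G) : Set G)),
      K.map (Subgroup.normalizerMonoidHom (P : Subgroup G) ⟨n, hn⟩).toMonoidHom = K)
    (hact : ∃ n : Subgroup.normalizer ((P : Subgroup G) : Set G), ∃ x : (P : Subgroup G),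
      Subgroup.normalizerMonoidHom (P : Subgroup G) n x * x⁻¹ ∉ K)
    (hΩ : 8 ≤ Nat.card {x : (P : Subgroup G) // x * x = 1}) : False := by
  classical
  haveI h2F : Fact (Nat.Prime 2) := ⟨Nat.prime_two⟩
  set N := Subgroup.normalizer ((P : Subgroup G) : Set G) with hN
  letI instQ : CommGroup (P : Subgroup G) :=
    { (inferInstance : Group (P : Subgroup G)) with mul_comm := hab.is_comm.comm }
  set Φ := Subgroup.normalizerMonoidHom (P : Subgroup G) with hΦ
  have hΦv : ∀ (n : N) (x : (P : Subgroup G)), ((Φ n x : (P : Subgroup G)) : G)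
      = (n : G) * x * (n : G)⁻¹ := fun n x => rfl
  obtain ⟨ℓ, hℓ⟩ := IsPGroup.iff_card.1 P.2
  have hpow : ∀ x : (P : Subgroup G), x ^ 2 ^ ℓ = 1 := fun x => hℓ ▸ pow_card_eq_one'
  -- the action on the quotient of order four
  have hKinv' : ∀ n : N, K.map
      ((Φ n : (P : Subgroup G) ≃* (P : Subgroup G)) : (P : Subgroup G) →* (P : Subgroup G)) = K :=
    fun n => hKinv n n.2
  let q : N →* MulAut ((P : Subgroup G) ⧸ K) := MonoidHom.mk'
    (fun n => QuotientGroup.congr K K (Φ n) (hKinv' n)) fun m n => by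
      apply MulEquiv.ext
      intro x
      induction x using QuotientGroup.induction_on with
      | H x => simp
  set M := q.ker with hM
  have hMmem : ∀ {n : N}, n ∈ M ↔ ∀ x, Φ n x * x⁻¹ ∈ K := by
    intro n
    rw [hM, MonoidHom.mem_ker]
    constructor
    · intro h x
      have h' := congrArg (fun e : MulAut ((P : Subgroup G) ⧸ K) => e (x : (P : Subgroup G) ⧸ K)) h
      simp [q] at h'
      rw [QuotientGroup.eq] at h'
      simpa [mul_comm] using inv_mem h'
    · intro h
      apply MulEquiv.ext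
      intro x
      induction x using QuotientGroup.induction_on with
      | H x =>
        simp [q]
        rw [QuotientGroup.eq]
        simpa [mul_comm] using inv_mem (h x)
  have hPker : (P : Subgroup G).subgroupOf N ≤ Φ.ker := by
    intro n hn
    rw [MonoidHom.mem_ker]
    apply MulEquiv.ext
    intro x
    refine Subtype.ext ?_
    rw [hΦv]
    have := congrArg Subtype.val (hab.is_comm.comm (⟨(n : G), hn⟩ : (P : Subgroup G)) x)
    simp only [Subgroup.coe_mul] at this
    rw [this]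
    simp
  have hPM : (P : Subgroup G).subgroupOf N ≤ M := fun n hn => hMmem.2 fun x => by
    rw [MonoidHom.mem_ker.1 (hPker hn)]
    simp
  have hPodd : Odd ((P : Subgroup G).subgroupOf N).index := by
    rw [Nat.odd_iff]
    have h := P.not_dvd_index
    rw [← Subgroup.relIndex_mul_index (show (P : Subgroup G) ≤ N from Subgroup.le_normalizer)] at h
    have h' : ¬ 2 ∣ ((P : Subgroup G).subgroupOf N).index := fun hd => h (Dvd.dvd.mul_right hd _)
    omega
  have hoddq : Odd (Nat.card q.range) := by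
    rw [← Subgroup.index_ker]
    exact hPodd.of_dvd_nat (Subgroup.index_dvd_of_le hPM)
  have hrange : Nat.card q.range = 3 := by
    have hne1 : Nat.card q.range ≠ 1 := by
      intro h
      obtain ⟨n, x, hnx⟩ := hact
      have hn : q n = 1 := by
        rw [← Subgroup.mem_bot, ← Subgroup.eq_bot_of_card_eq _ h]
        exact ⟨n, rfl⟩
      exact hnx (hMmem.1 (MonoidHom.mem_ker.2 hn) x)
    have h5 : Nat.card q.range ∣ Nat.card (MulAut ((P : Subgroup G) ⧸ K)) :=
      Subgroup.card_subgroup_dvd_card _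
    rcases hoddq with ⟨j, hj⟩
    have hdvd : Nat.card q.range ∣ 6 := by
      haveI := Fintype.ofFinite ((P : Subgroup G) ⧸ K)
      let f : MulAut ((P : Subgroup G) ⧸ K) →* Equiv.Perm {x : (P : Subgroup G) ⧸ K // ¬ x = 1} :=
        MonoidHom.mk' (fun e => Equiv.subtypeEquiv e.toEquiv
          (fun x => not_congr (map_eq_one_iff e e.injective).symm)) fun a b => by ext; rfl
      have hf : Function.Injective f := by
        intro a b hab'
        apply MulEquiv.ext
        intro x
        by_cases hx : x = 1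
        · simp [hx]
        · exact congrArg Subtype.val (DFunLike.congr_fun hab' ⟨x, hx⟩)
      refine h5.trans ((Subgroup.card_dvd_of_injective f hf).trans ?_)
      rw [Nat.card_perm, Nat.card_eq_fintype_card, Fintype.card_subtype_compl,
        Fintype.card_subtype_eq, ← Nat.card_eq_fintype_card, ← Subgroup.index, hK]
      decide
    obtain ⟨c, hc⟩ : ∃ c, c = Nat.card q.range := ⟨_, rfl⟩
    rw [← hc] at hne1 hj hdvd ⊢
    have := Nat.le_of_dvd (by norm_num) hdvd
    interval_cases c <;> first | rfl | omega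
  have hMindex : M.index = 3 := by rw [hM, Subgroup.index_ker, hrange]
  obtain ⟨o, ho⟩ : ∃ o : N, o ∉ M := by
    by_contra h
    push Not at h
    have htop : M = ⊤ := eq_top_iff.2 fun x _ => h x
    exact absurd (hMindex.symm.trans (Subgroup.index_eq_one.2 htop)) (by norm_num)
  have hcases : ∀ n : N, n ∈ M ∨ o⁻¹ * n ∈ M ∨ (o * o)⁻¹ * n ∈ M := by
    intro n
    haveI : Fact (Nat.Prime 3) := ⟨Nat.prime_three⟩
    have hcard : Nat.card (N ⧸ M) = 3 := hMindex
    have ho' : (QuotientGroup.mk o : N ⧸ M) ≠ 1 := fun e => ho ((QuotientGroup.eq_one_iff o).1 e)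
    have hmem := mem_zpowers_of_prime_card hcard ho' (g' := (QuotientGroup.mk n : N ⧸ M))
    have hord : orderOf (QuotientGroup.mk o : N ⧸ M) = 3 :=
      orderOf_eq_prime (by rw [← hcard]; exact pow_card_eq_one') ho'
    rw [mem_zpowers_iff_mem_range_orderOf] at hmem
    simp only [mem_image, mem_range, hord] at hmem
    obtain ⟨i, hi, e⟩ := hmem
    rw [← QuotientGroup.mk_pow, QuotientGroup.eq] at e
    interval_cases i
    · exact Or.inl (by simpa using e)
    · exact Or.inr (Or.inl (by simpa using e))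
    · exact Or.inr (Or.inr (by simpa [pow_two] using e))
  have ho3 : o * o * o ∈ M := by
    have h3 : (QuotientGroup.mk o : N ⧸ M) ^ 3 = 1 := by
      rw [← (hMindex : Nat.card (N ⧸ M) = 3)]; exact pow_card_eq_one'
    rw [← QuotientGroup.eq_one_iff, QuotientGroup.mk_mul, QuotientGroup.mk_mul]
    rw [pow_succ, pow_two] at h3
    exact h3
  -- the group of automorphisms induced by `M`
  set A := M.map Φ with hA
  have hAmem : ∀ n : N, n ∈ M → Φ n ∈ A := fun n h => Subgroup.mem_map_of_mem _ h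
  have hAnorm : ∀ a, a ∈ A ↔ Φ o * a * (Φ o)⁻¹ ∈ A := by
    intro a
    constructor
    · rintro ⟨m, hm, rfl⟩
      refine ⟨o * m * o⁻¹, MonoidHom.normal_ker q |>.conj_mem m hm o, by simp⟩
    · rintro ⟨m, hm, e⟩
      refine ⟨o⁻¹ * m * o, ?_, ?_⟩
      · have h := (MonoidHom.normal_ker q).conj_mem m hm o⁻¹
        rwa [inv_inv] at h
      rw [map_mul, map_mul, map_inv, e]
      group
  have hAodd : Odd (Nat.card A) := by
    refine Odd.of_dvd_nat ?_ (Subgroup.card_dvd_of_le (Subgroup.map_le_range Φ M))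
    rw [← Subgroup.index_ker]
    exact hPodd.of_dvd_nat (Subgroup.index_dvd_of_le hPker)
  set D : (P : Subgroup G) →* (P : Subgroup G) := normMap A with hD
  have hoD : ∀ x, Φ o (D x) = D (Φ o x) := normMap_comm A hAnorm
  let E : (P : Subgroup G) →* (P : Subgroup G) := MonoidHom.mk'
    (fun x => Φ o (D x) / D x) fun x y => by
      rw [map_mul, map_mul, mul_div_mul_comm]
  have hE : ∀ x, E x = Φ o (D x) / D x := fun x => rfl
  have hEM : ∀ m ∈ M, ∀ x, E (Φ m x) = E x := fun m hm x => by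
    rw [hE, hE, hD, normMap_smul A (hAmem m hm)]
  have hEfix : ∀ m ∈ M, ∀ x, Φ m (E x) = E x := fun m hm x => by
    rw [hE, map_div, hoD, hD, smul_normMap A (hAmem m hm), smul_normMap A (hAmem m hm)]
  have hEo : ∀ x, Φ o (E x) = E (Φ o x) := fun x => by
    rw [hE, hE, map_div, ← hoD]
  have h3fix : ∀ x, Φ o (Φ o (Φ o (D x))) = D x := fun x => by
    have h := smul_normMap A (hAmem _ ho3) x
    rw [map_mul, map_mul] at h
    simpa [MulAut.mul_apply] using h
  have hprodE : ∀ x, E x * E (Φ o x) * E (Φ o (Φ o x)) = 1 := fun x => by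
    rw [← hEo, ← hEo, ← hEo, hE, map_div, map_div, h3fix, mul_comm (Φ o (D x) / D x),
      div_mul_div_cancel, div_mul_div_cancel, div_self']
  -- an involution in the image
  obtain ⟨n, x, hnx⟩ := hact
  have hox : ∃ x, Φ o x * x⁻¹ ∉ K := by
    by_contra h
    push Not at h
    exact ho (hMmem.2 h)
  obtain ⟨x₀, hx₀⟩ := hox
  have hEx₀ : E x₀ ≠ 1 := by
    intro h
    have hc : ∀ y, D y / y ^ Nat.card A ∈ K := fun y => normMap_congr A (by
      rintro _ ⟨m, hm, rfl⟩
      rw [div_eq_mul_inv]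
      exact hMmem.1 hm y)
    rw [hE, hoD, div_eq_one] at h
    have h1 := K.div_mem (hc x₀) (hc (Φ o x₀))
    rw [← h, div_div_div_cancel_left, ← div_pow] at h1
    refine hx₀ ?_
    have h2 : ((Φ o x₀ / x₀ : (P : Subgroup G)) : (P : Subgroup G) ⧸ K) = 1 :=
      eq_one_of_pow_odd hAodd (by rw [← QuotientGroup.mk_pow, QuotientGroup.eq_one_iff]; exact h1)
        (k := ℓ) (by rw [← QuotientGroup.mk_pow, hpow, QuotientGroup.mk_one])
    rw [← div_eq_mul_inv]
    exact (QuotientGroup.eq_one_iff _).1 h2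
  obtain ⟨c, u, rfl, hc1, hc2⟩ : ∃ c u : (P : Subgroup G), c = E u ∧ c ≠ 1 ∧ c * c = 1 := by
    obtain ⟨j, hj⟩ := IsPGroup.iff_orderOf.1 P.2 (E x₀)
    have hj0 : j ≠ 0 := fun e => hEx₀ (orderOf_eq_one_iff.1 (by rw [hj, e, pow_zero]))
    obtain ⟨i, rfl⟩ := Nat.exists_eq_succ_of_ne_zero hj0
    refine ⟨E x₀ ^ 2 ^ i, x₀ ^ 2 ^ i, (map_pow E _ _).symm, ?_, ?_⟩
    · intro e
      have := Nat.le_of_dvd (by positivity) (orderOf_dvd_of_pow_eq_one e)
      rw [hj, pow_succ] at this
      have : 0 < 2 ^ i := by positivity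
      omega
    · rw [← pow_add, show 2 ^ i + 2 ^ i = 2 ^ (i + 1) by ring, ← hj, pow_orderOf_eq_one]
  have hEc : E (E u) ≠ 1 := by
    intro h
    have hD' : D (E u) = E u := by
      rw [hD, normMap_of_fixed A (by rintro _ ⟨m, hm, rfl⟩; exact hEfix m hm u)]
      obtain ⟨j, hj⟩ := hAodd
      rw [hj, pow_succ, pow_mul, pow_two, hc2, one_pow, one_mul]
    rw [hE, hD', div_eq_one] at h
    have hp := hprodE u
    rw [← hEo, ← hEo, ← hEo, h, h, hc2, one_mul] at hp
    exact hc1 hp
  obtain ⟨μ, hμ⟩ := CommGroup.exists_apply_ne_one_of_hasEnoughRootsOfUnity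
    (P : Subgroup G) ℂ hEc
  let lam : Fin 3 → ((P : Subgroup G) →* ℂˣ) := fun i =>
    (μ.comp E).comp ((Φ o ^ (i : ℕ)).toMonoidHom)
  have hl0 : ∀ x, lam 0 x = μ (E x) := fun x => rfl
  have hl1 : ∀ x, lam 1 x = μ (E (Φ o x)) := fun x => rfl
  have hl2 : ∀ x, lam 2 x = μ (E (Φ o (Φ o x))) := fun x => rfl
  have hlpow : ∀ i x, lam i x ^ 2 ^ ℓ = 1 := fun i x => by rw [← map_pow, hpow, map_one]
  have hlprod : ∀ x, lam 0 x * lam 1 x * lam 2 x = 1 := fun x => by
    rw [hl0, hl1, hl2, ← map_mul, ← map_mul, hprodE, map_one]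
  have hlM : ∀ i, ∀ m ∈ M, ∀ x, lam i (Φ m x) = lam i x := by
    intro i m hm x
    have h0 : ∀ m ∈ M, ∀ x, μ (E (Φ m x)) = μ (E x) := fun m hm x => by rw [hEM m hm]
    have hc : ∀ m ∈ M, ∀ x, Φ o (Φ m x) = Φ (o * m * o⁻¹) (Φ o x) := fun m hm x => by
      simp [MulAut.mul_apply]
    have hm1 := (MonoidHom.normal_ker q).conj_mem m hm o
    fin_cases i
    · exact h0 m hm x
    · show lam 1 (Φ m x) = lam 1 x
      rw [hl1, hl1, hc m hm, h0 _ hm1]
    · show lam 2 (Φ m x) = lam 2 x
      rw [hl2, hl2, hc m hm, hc _ hm1, h0 _ ((MonoidHom.normal_ker q).conj_mem _ hm1 o)]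
  have hshift : ∀ x, lam 0 (Φ o x) = lam 1 x ∧ lam 1 (Φ o x) = lam 2 x ∧
      lam 2 (Φ o x) = lam 0 x := fun x => by
    refine ⟨rfl, rfl, ?_⟩
    rw [hl2, hl0, show Φ o (Φ o (Φ o x)) = Φ (o * o * o) x by simp [MulAut.mul_apply], hEM _ ho3]
  have hdist : ∀ i j, i ≠ j → lam i ≠ lam j := by
    have key : lam 0 ≠ lam 1 := by
      intro e
      have e1 : lam 1 = lam 2 := MonoidHom.ext fun x => by
        have := congrArg (fun f : (P : Subgroup G) →* ℂˣ => f (Φ o x)) e
        rwa [(hshift x).1, (hshift x).2.1] at this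
      have h1 := hlprod (E u)
      rw [← e1, ← e] at h1
      exact hμ (by rw [← hl0]; exact eq_one_of_units_cube h1 (hlpow 0 _))
    have k12 : lam 1 ≠ lam 2 := fun e => key (MonoidHom.ext fun x => by
      obtain ⟨y, rfl⟩ := (Φ o).surjective x
      obtain ⟨z, rfl⟩ := (Φ o).surjective y
      have e' := DFunLike.congr_fun e (Φ o z)
      rw [(hshift (Φ o z)).1, (hshift (Φ o z)).2.1, (hshift z).2.1, (hshift z).2.2]
      rw [(hshift z).2.1, (hshift z).2.2] at e'
      exact e')
    have k20 : lam 2 ≠ lam 0 := fun e => k12 (MonoidHom.ext fun x => by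
      obtain ⟨y, rfl⟩ := (Φ o).surjective x
      have e' := DFunLike.congr_fun e y
      rw [(hshift _).2.1, (hshift _).2.2]
      exact e')
    intro i j hij
    fin_cases i <;> fin_cases j <;> first
      | exact absurd rfl hij | exact key | exact key.symm | exact k12 | exact k12.symm
      | exact k20 | exact k20.symm
  have hne1 : ∀ i, lam i ≠ 1 := by
    intro i e
    have h : ∀ x, μ (E x) = 1 := fun x => by
      obtain ⟨y, hy⟩ := (Φ o ^ (i : ℕ)).surjective x
      rw [← hy]
      exact DFunLike.congr_fun e y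
    exact hμ (h _)
  -- the function on `P`
  set f : ↥(P : Subgroup G) → ℂ := fun x => (∑ i, (lam i x : ℂ)) - 3 with hf
  have hfo : ∀ x, f (Φ o x) = f x := fun x => by
    simp only [hf, Fin.sum_univ_three, (hshift x).1, (hshift x).2.1, (hshift x).2.2]
    ring
  have hfM : ∀ m ∈ M, ∀ x, f (Φ m x) = f x := fun m hm x => by simp only [hf, hlM _ m hm]
  have hfN : ∀ (n : N) x, f (Φ n x) = f x := by
    intro n x
    rcases hcases n with h | h | h
    · exact hfM n h x
    · rw [show n = o * (o⁻¹ * n) by group, map_mul, MulAut.mul_apply, hfo, hfM _ h]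
    · rw [show n = o * (o * ((o * o)⁻¹ * n)) by group, map_mul, map_mul, MulAut.mul_apply,
        MulAut.mul_apply, hfo, hfo, hfM _ h]
  have hfinv : ∀ {a : G} {s s' : (P : Subgroup G)}, a * s * a⁻¹ = s' → f s' = f s := by
    intro a s s' e
    obtain ⟨n, hn, e'⟩ := CfsgLib.Transfer.abelian_sylow_control P hab (s : G) s.2 a (e ▸ s'.2)
    rw [show s' = Φ ⟨n, hn⟩ s from Subtype.ext (by rw [hΦv]; exact (e'.trans e).symm), hfN]
  have hexc : ∀ g : G, ∃ a : G, a * π g * a⁻¹ ∈ (P : Subgroup G) := fun g => by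
    obtain ⟨a, ha⟩ := exists_conj_mem_sylow P (isPGroup_zpowers' (exists_orderOf_twoPart g))
    exact ⟨a, ha _ (Subgroup.mem_zpowers _)⟩
  choose a haP using hexc
  set θ : G → ℂ := fun g => f ⟨a g * π g * (a g)⁻¹, haP g⟩ with hθdef
  have hθeq : ∀ (g b : G) (s : (P : Subgroup G)), b * π g * b⁻¹ = s → θ g = f s := by
    intro g b s e
    refine hfinv (a := a g * b⁻¹) ?_
    rw [← e]
    group
  have hθc : IsClassFunction G θ := fun g b => by
    refine hθeq _ (a g * b⁻¹) _ ?_
    rw [CfsgLib.BlockStar.ppart_conj]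
    group
  have hθπ : ∀ g, θ g = θ (π g) := fun g => by
    refine (hθeq (π g) (a g) _ ?_).symm
    rw [twoPart_twoPart]
  have hθP : ∀ s : (P : Subgroup G), θ (s : G) = f s := fun s => by
    refine hθeq _ 1 s ?_
    rw [twoPart_of_twoElement (exists_twoPow_of_mem P.2 s.2)]
    simp
  have hθgen : IsGeneralizedCharacter G θ := by
    refine isGeneralizedCharacter_of_twoPart P hθc hθπ ?_
    rw [show (fun x : (P : Subgroup G) => θ x) = f from funext hθP]
    refine ⟨fun x => ∑ i, (lam i x : ℂ), fun _ => 3, ?_, ?_, rfl⟩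
    · have h := CfsgLib.Brauer.isCharacter_sum Finset.univ
        (fun i => fun x : (P : Subgroup G) => (lam i x : ℂ))
        (fun i _ => CfsgLib.Brauer.isCharacter_monoidHom (lam i))
      convert h using 1
      funext x
      simp [Finset.sum_apply]
    · have h := CfsgLib.Brauer.isCharacter_nsmul
        (CfsgLib.Brauer.isCharacter_one (G := (P : Subgroup G))) 3
      convert h using 1
      funext x
      simp
  -- values at elements of square one
  have hf01 : ∀ x, x * x = 1 →
      ((lam 0 x = 1 ∧ lam 1 x = 1) ∧ f x = 0) ∨ (¬ (lam 0 x = 1 ∧ lam 1 x = 1) ∧ f x = -4) := by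
    intro x hx
    have hp := congrArg Units.val (hlprod x)
    simp only [Units.val_mul, Units.val_one] at hp
    simp only [hf, Fin.sum_univ_three]
    rcases units_eq_or_eq_neg (z := lam 0 x) (by rw [← map_mul, hx, map_one]) with h0 | h0 <;>
      rcases units_eq_or_eq_neg (z := lam 1 x) (by rw [← map_mul, hx, map_one]) with h1 | h1 <;>
      rw [h0, h1] at hp <;> norm_num at hp <;>
      simp only [← Units.val_eq_one, h0, h1, hp] <;> norm_num <;> first | linear_combination hp | linear_combination -hp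
  obtain ⟨r, hr1, hr2, hrK⟩ : ∃ r : (P : Subgroup G), r ≠ 1 ∧ r * r = 1 ∧
      (lam 0 r = 1 ∧ lam 1 r = 1) := by
    obtain ⟨x, y, e, hxy⟩ := Function.not_injective_iff.1 fun h : Function.Injective
      (fun x : {x : (P : Subgroup G) // x * x = 1} =>
        (decide (lam 0 x.1 = 1), decide (lam 1 x.1 = 1))) => by
      have := Nat.card_le_card_of_injective _ h
      rw [Nat.card_eq_fintype_card (α := Bool × Bool), Fintype.card_prod, Fintype.card_bool] at this
      omega
    refine ⟨x.1 * y.1, fun h => hxy (Subtype.ext ?_), ?_, ?_⟩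
    · calc x.1 = x.1 * y.1 * y.1 := by rw [mul_assoc, y.2, mul_one]
        _ = y.1 := by rw [h, one_mul]
    · rw [mul_mul_mul_comm, x.2, y.2, one_mul]
    · simp only [Prod.mk.injEq, decide_eq_decide] at e
      have key : ∀ i, (lam i x.1 = 1 ↔ lam i y.1 = 1) → lam i (x.1 * y.1) = 1 := by
        intro i hi
        rw [map_mul]
        have hx' : lam i x.1 * lam i x.1 = 1 := by rw [← map_mul, x.2, map_one]
        have hy' : lam i y.1 * lam i y.1 = 1 := by rw [← map_mul, y.2, map_one]
        refine Units.ext ?_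
        rcases units_eq_or_eq_neg hx' with h | h <;> rcases units_eq_or_eq_neg hy' with h' | h' <;>
          simp only [← Units.val_eq_one] at hi <;> simp [h, h'] at hi ⊢ <;> norm_num at hi
      exact ⟨key 0 e.1, key 1 e.2⟩
  have hfr : f r = 0 := by
    rcases hf01 r hr2 with ⟨-, h⟩ | ⟨h, -⟩
    · exact h
    · exact absurd hrK h
  have hfc : f (E u) = -4 := by
    rcases hf01 (E u) hc2 with ⟨h, -⟩ | ⟨-, h⟩
    · exact absurd h.1 hμ
    · exact h
  -- products of conjugates
  have hcen : ∀ (s : G) (Q : Subgroup G), IsPGroup 2 Q → s ∈ Q → ∀ y ∈ Q, Commute y s := by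
    intro s Q hQ hs y hy
    obtain ⟨b, hb⟩ := exists_conj_mem_sylow P hQ
    have h := congrArg Subtype.val (mul_comm (⟨_, hb y hy⟩ : (P : Subgroup G)) ⟨_, hb s hs⟩)
    simp only [Subgroup.coe_mul] at h
    calc y * s = b⁻¹ * (b * y * b⁻¹ * (b * s * b⁻¹)) * b := by group
      _ = b⁻¹ * (b * s * b⁻¹ * (b * y * b⁻¹)) * b := by rw [h]
      _ = s * y := by group
  have hprod : ∀ (s : (P : Subgroup G)), s * s = 1 → ∀ (d : G), d * d = 1 →
      ∃ t s' : (P : Subgroup G), t * t = 1 ∧ f s' = f s ∧ s' * s' = 1 ∧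
        θ (d * (s : G)) = f t ∧ θ d = f (t * s') := by
    intro s hs d hd
    obtain ⟨ht2, hts, hconj⟩ := twoPart_mul_involution (r := (s : G)) (d := d)
      (congrArg Subtype.val hs) hd (hcen _)
    set t₀ := π (d * (s : G))
    have hQ : IsPGroup 2 (Subgroup.zpowers t₀ ⊔ Subgroup.zpowers (s : G) : Subgroup G) :=
      IsPGroup.to_sup_of_normal_left' (isPGroup_zpowers' (exists_orderOf_twoPart _))
        (isPGroup_zpowers' (exists_twoPow_of_mem P.2 s.2)) (Subgroup.zpowers_le.2
          (Subgroup.centralizer_le_normalizer _ (Subgroup.mem_centralizer_iff.2 (by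
            rintro _ ⟨i, rfl⟩
            exact (hts.zpow_left i).eq))))
    obtain ⟨b, hb⟩ := exists_conj_mem_sylow P hQ
    refine ⟨⟨_, hb t₀ (Subgroup.mem_sup_left (Subgroup.mem_zpowers _))⟩,
      ⟨_, hb (s : G) (Subgroup.mem_sup_right (Subgroup.mem_zpowers _))⟩, ?_, hfinv rfl, ?_, ?_, ?_⟩
    · refine Subtype.ext ?_
      show b * t₀ * b⁻¹ * (b * t₀ * b⁻¹) = 1
      calc _ = b * (t₀ * t₀) * b⁻¹ := by group
        _ = 1 := by rw [ht2]; group
    · refine Subtype.ext ?_
      show b * (s : G) * b⁻¹ * (b * (s : G) * b⁻¹) = 1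
      calc _ = b * ((s : G) * s) * b⁻¹ := by group
        _ = 1 := by rw [show (s : G) * s = 1 from congrArg Subtype.val hs]; group
    · exact hθeq _ b _ rfl
    · obtain ⟨z, hz⟩ := isConj_iff.1 hconj
      rw [← hz, hθc]
      refine hθeq _ b _ ?_
      rw [twoPart_of_twoElement (exists_twoPow_of_mem hQ (mul_mem
        (Subgroup.mem_sup_left (Subgroup.mem_zpowers _))
        (Subgroup.mem_sup_right (Subgroup.mem_zpowers _))))]
      show b * (t₀ * (s : G)) * b⁻¹ = b * t₀ * b⁻¹ * (b * (s : G) * b⁻¹)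
      group
  have hK0 : ∀ {t s' : (P : Subgroup G)}, t * t = 1 → f s' = 0 → s' * s' = 1 →
      f (t * s') = f t := by
    intro t s' ht hs' hs2
    rcases hf01 s' hs2 with ⟨⟨h0, h1⟩, -⟩ | ⟨-, h⟩
    · have hiff : ∀ j, lam j s' = 1 → lam j (t * s') = lam j t := fun j e => by
        rw [map_mul, e, mul_one]
      rcases hf01 (t * s') (by rw [mul_mul_mul_comm, ht, hs2, one_mul]) with ⟨hp, h'⟩ | ⟨hp, h'⟩ <;>
        rw [hiff 0 h0, hiff 1 h1] at hp
      · rcases hf01 t ht with ⟨-, h⟩ | ⟨hn, -⟩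
        · rw [h, h']
        · exact absurd hp hn
      · rcases hf01 t ht with ⟨hn, -⟩ | ⟨-, h⟩
        · exact absurd hn hp
        · rw [h, h']
    · rw [hs'] at h
      norm_num at h
  have hsq : ∀ (s : (P : Subgroup G)) (x : G), s * s = 1 →
      x * (s : G) * x⁻¹ * (x * (s : G) * x⁻¹) = 1 := fun s x hs => by
    calc _ = x * ((s : G) * s) * x⁻¹ := by group
      _ = 1 := by rw [show (s : G) * s = 1 from congrArg Subtype.val hs]; group
  have hrr : ∀ x, θ (x * (r : G) * x⁻¹ * r) = 0 := by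
    intro x
    obtain ⟨t, s', ht, hs', hs2, e1, e2⟩ := hprod r hr2 _ (hsq r x hr2)
    rw [hθc, hθP, hfr, hK0 ht (hs'.trans hfr) hs2] at e2
    rw [e1, ← e2]
  have hcr : ∀ x, θ (x * (E u : G) * x⁻¹ * r) = -4 := by
    intro x
    obtain ⟨t, s', ht, hs', hs2, e1, e2⟩ := hprod r hr2 _ (hsq (E u) x hc2)
    rw [hθc, hθP, hfc, hK0 ht (hs'.trans hfr) hs2] at e2
    rw [e1, ← e2]
  have hcc : ∀ x, (θ (x * (E u : G) * x⁻¹ * (E u : G))).re ≤ 0 := by
    intro x
    obtain ⟨t, s', ht, -, -, e1, -⟩ := hprod (E u) hc2 _ (hsq (E u) x hc2)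
    rw [e1]
    rcases hf01 t ht with ⟨-, h⟩ | ⟨-, h⟩ <;> rw [h] <;> norm_num
  -- the averages
  haveI : Fintype N := Fintype.ofFinite _
  haveI : Fintype M := Fintype.ofFinite _
  have hπP : ∀ n : N, π (n : G) ∈ (P : Subgroup G) := fun n => by
    have hQ : IsPGroup 2 (Subgroup.zpowers (π (n : G))) :=
      isPGroup_zpowers' (exists_orderOf_twoPart _)
    have h := IsPGroup.to_sup_of_normal_left' P.2 hQ (Subgroup.zpowers_le.2 (twoPart_mem n.2))
    have := P.3 h le_sup_left
    rw [← this]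
    exact Subgroup.mem_sup_right (Subgroup.mem_zpowers _)
  let pn : N → (P : Subgroup G) := fun n => ⟨π (n : G), hπP n⟩
  have hfix : ∀ n, Φ n (pn n) = pn n := fun n => Subtype.ext (by
    rw [hΦv]
    show (n : G) * π (n : G) * (n : G)⁻¹ = π (n : G)
    rw [← (CfsgLib.Blocks.commute_of_isPPart (CfsgLib.BlockStar.ppart_spec (p := 2) (n : G))).eq]
    group)
  have hout : ∀ n : N, n ∉ M → ∀ i, lam i (pn n) = 1 := by
    intro n hn
    have hshift2 : ∀ x, lam 0 (Φ o (Φ o x)) = lam 2 x ∧ lam 1 (Φ o (Φ o x)) = lam 0 x ∧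
        lam 2 (Φ o (Φ o x)) = lam 1 x := fun x =>
      ⟨((hshift _).1).trans (hshift x).2.1, ((hshift _).2.1).trans (hshift x).2.2,
        ((hshift _).2.2).trans (hshift x).1⟩
    have heq : lam 0 (pn n) = lam 1 (pn n) ∧ lam 1 (pn n) = lam 2 (pn n) := by
      rcases hcases n with h | h | h
      · exact absurd h hn
      · have e := hfix n
        rw [show n = o * (o⁻¹ * n) by group, map_mul, MulAut.mul_apply,
          show o * (o⁻¹ * n) = n by group] at e
        have h0 := congrArg (lam 0) e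
        have h1 := congrArg (lam 1) e
        rw [(hshift _).1, hlM _ _ h] at h0
        rw [(hshift _).2.1, hlM _ _ h] at h1
        exact ⟨h0.symm, h1.symm⟩
      · have e := hfix n
        rw [show n = o * (o * ((o * o)⁻¹ * n)) by group, map_mul, map_mul, MulAut.mul_apply,
          MulAut.mul_apply, show o * (o * ((o * o)⁻¹ * n)) = n by group] at e
        have h0 := congrArg (lam 0) e
        have h1 := congrArg (lam 1) e
        rw [(hshift2 _).1, hlM _ _ h] at h0
        rw [(hshift2 _).2.1, hlM _ _ h] at h1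
        exact ⟨h1, h1.symm.trans h0.symm⟩
    have hp := hlprod (pn n)
    rw [← heq.2, ← heq.1] at hp
    have h := eq_one_of_units_cube hp (hlpow 0 _)
    intro i
    fin_cases i
    · exact h
    · exact heq.1.symm.trans h
    · exact (heq.2.symm.trans heq.1.symm).trans h
  have hsum0 : ∀ l : (P : Subgroup G) →* ℂˣ, l ≠ 1 → (∀ m ∈ M, ∀ x, l (Φ m x) = l x) →
      ∑ m : M, (l (pn (m : N)) : ℂ) = 0 := by
    intro l hl hlinv
    obtain ⟨x, hx⟩ : ∃ x, l x ≠ 1 := by
      by_contra h
      push Not at h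
      exact hl (MonoidHom.ext h)
    haveI := Fintype.ofFinite A
    have hz : l (D x) ≠ 1 := by
      intro h
      refine hx (eq_one_of_pow_odd hAodd (k := ℓ) ?_ (by rw [← map_pow, hpow, map_one]))
      rw [← h, hD, normMap_apply, map_prod, prod_congr rfl (g := fun _ => l x) (fun b _ => by
        obtain ⟨m, hm, e⟩ := b.2
        rw [← e]
        exact hlinv m hm x), prod_const, card_univ, Nat.card_eq_fintype_card]
    let zN : N := ⟨(D x : G), Subgroup.le_normalizer (D x).2⟩
    have hzM : zN ∈ M := hPM (D x).2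
    have htr : ∀ m : M, pn (zN * (m : N)) = D x * pn (m : N) := by
      intro m
      refine Subtype.ext ?_
      have hfx : (m : N) ∈ M := m.2
      have hcm : Commute (D x : G) ((m : N) : G) := by
        have h := congrArg Subtype.val (smul_normMap A (hAmem _ m.2) x)
        rw [hΦv, mul_inv_eq_iff_eq_mul] at h
        exact h.symm
      obtain ⟨y, hy, hc, hk, hyo⟩ := CfsgLib.BlockStar.ppart_spec (p := 2) ((m : N) : G)
      show π ((D x : G) * ((m : N) : G)) = (D x : G) * π ((m : N) : G)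
      have hcy : Commute (D x : G) y := by
        rw [show y = (π ((m : N) : G))⁻¹ * ((m : N) : G) from eq_inv_mul_iff_mul_eq.2 hy]
        exact (CfsgLib.Blocks.commute_of_isPPart_of_commute
          (CfsgLib.BlockStar.ppart_spec (p := 2) _) hcm).inv_right.mul_right hcm
      refine CfsgLib.BlockStar.ppart_eq ⟨y, by rw [mul_assoc, hy], hcy.mul_left hc, ?_, hyo⟩
      exact exists_twoPow_of_mem P.2 (mul_mem (D x).2 (hπP (m : N)))
    have h := Fintype.sum_equiv (Equiv.mulLeft (⟨zN, hzM⟩ : M))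
      (fun m : M => (l (pn (zN * (m : N))) : ℂ)) (fun m : M => (l (pn (m : N)) : ℂ)) fun m => rfl
    simp only [htr, map_mul, Units.val_mul, ← Finset.mul_sum] at h
    have h' : ((l (D x) : ℂ) - 1) * ∑ m : M, (l (pn (m : N)) : ℂ) = 0 := by
      rw [sub_mul, one_mul, h, sub_self]
    exact (mul_eq_zero.1 h').resolve_left (sub_ne_zero.2 fun e => hz (Units.ext e))
  have hcardN : (Nat.card N : ℂ) = 3 * (Nat.card M : ℂ) := by
    rw [← M.card_mul_index, hMindex]
    push_cast
    ring
  have hM0 : (Nat.card M : ℂ) ≠ 0 := Nat.cast_ne_zero.2 Nat.card_pos.ne'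
  have havg : ∀ φ : ℂ → ℂ, φ 0 = 0 →
      (Nat.card G : ℂ)⁻¹ * ∑ g : G, φ (θ g)
        = (3 * (Nat.card M : ℂ))⁻¹ * ∑ m : M, φ (f (pn (m : N))) := by
    intro φ hφ0
    have h := average_eq P hab (φ := fun g => φ (θ g)) fun g b => congrArg φ (hθc g b)
    simp only [← hθπ] at h
    rw [h, hcardN]
    congr 1
    have hn : ∀ n : N, φ (θ (n : G)) = φ (f (pn n)) := fun n => by
      rw [hθπ]
      exact congrArg φ (hθP (pn n))
    rw [Finset.sum_congr rfl fun n _ => hn n,
      ← Finset.sum_subset (Finset.subset_univ (univ.filter fun n : N => n ∈ M)) fun n _ hn' => by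
        rw [mem_filter] at hn'
        simp [hf, hout n (fun h => hn' ⟨mem_univ _, h⟩), hφ0],
      Finset.sum_subtype (univ.filter fun n : N => n ∈ M) (p := fun n => n ∈ M) fun n => by simp]
  have hm : classInner θ (fun _ => 1) = -1 := by
    simp only [classInner, map_one, mul_one]
    rw [havg (fun z => z) rfl]
    simp only [hf, sum_sub_distrib, sum_comm (s := (univ : Finset M)),
      hsum0 _ (hne1 _) (hlM _), sum_const_zero, sum_const, card_univ, nsmul_eq_mul,
      ← Nat.card_eq_fintype_card]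
    field_simp
    ring
  have hnorm : classInner θ θ = 4 := by
    simp only [classInner]
    rw [havg (fun z => z * conj z) (by simp)]
    have hconj : ∀ i x, conj ((lam i x : ℂˣ) : ℂ) = (((lam i)⁻¹ x : ℂˣ) : ℂ) := fun i x => by
      rw [MonoidHom.inv_apply, Units.val_inv_eq_inv_val, Complex.inv_eq_conj
        (CfsgLib.CharTheory.norm_eq_one_of_pow_eq_one' (m := 2 ^ ℓ) (by positivity)
          (by rw [← Units.val_pow_eq_pow_val, hlpow, Units.val_one]))]
    have h1 : ∀ i, ∑ m : M, ((((lam i)⁻¹) (pn (m : N)) : ℂˣ) : ℂ) = 0 := fun i =>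
      hsum0 _ (fun h => hne1 i (MonoidHom.ext fun x => inv_eq_one.1 (DFunLike.congr_fun h x))) fun m hm x => by
        rw [MonoidHom.inv_apply, MonoidHom.inv_apply, hlM i m hm]
    have h2 : ∀ i j, ∑ m : M, ((lam i (pn (m : N)) : ℂˣ) : ℂ) * (((lam j)⁻¹ (pn (m : N)) : ℂˣ) : ℂ)
        = if i = j then (Nat.card M : ℂ) else 0 := by
      intro i j
      split_ifs with e
      · subst e
        simp [MonoidHom.inv_apply, Nat.card_eq_fintype_card]
      · simp only [← Units.val_mul, ← MonoidHom.mul_apply]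
        refine hsum0 _ (fun h => hdist i j e ?_) fun m hm x => by
          simp [MonoidHom.mul_apply, hlM _ m hm]
        exact MonoidHom.ext fun x => mul_inv_eq_one.1 (DFunLike.congr_fun h x)
    have hexp : ∀ x, f x * conj (f x) = (∑ i, ∑ j, (lam i x : ℂ) * (((lam j)⁻¹ x : ℂˣ) : ℂ))
        - 3 * (∑ i, (lam i x : ℂ)) - 3 * (∑ j, (((lam j)⁻¹ x : ℂˣ) : ℂ)) + 9 := fun x => by
      simp only [hf, map_sub, map_sum, hconj, Complex.conj_ofNat]
      rw [← Finset.sum_mul_sum]
      ring
    have h3 : ∑ m : M, (∑ i, ∑ j, (lam i (pn (m : N)) : ℂ) * (((lam j)⁻¹ (pn (m : N)) : ℂˣ) : ℂ))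
        = 3 * (Nat.card M : ℂ) := by
      rw [sum_comm]
      simp only [sum_comm (s := (univ : Finset M)), h2, sum_ite_eq, mem_univ, if_true, sum_const,
        card_univ, Fintype.card_fin, nsmul_eq_mul]
      norm_num
    simp only [hexp]
    rw [sum_add_distrib, sum_sub_distrib,
      sum_sub_distrib, h3, ← Finset.mul_sum, ← Finset.mul_sum]
    simp only [sum_comm (s := (univ : Finset M)), h1, hsum0 _ (hne1 _) (hlM _), sum_const_zero,
      sum_const, card_univ, nsmul_eq_mul, ← Nat.card_eq_fintype_card]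
    field_simp
    ring
  exact false_of_norm_four hθgen hm hnorm (fun e => hr1 (Subtype.ext e))
    (by rw [show (1 : G) = ((1 : (P : Subgroup G)) : G) from rfl, hθP]; simp [hf, Fin.sum_univ_three]; norm_num)
    ((hθP r).trans hfr) hrr (E u : G) ((hθP _).trans hfc) hcr hcc

end CfsgLib.CentralFour
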