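import Cfsg.Agent.Lib.CentralFour.TwoPart
import Mathlib.GroupTheory.SpecificGroups.Cyclic

/-!
# Sylow 2-subgroups whose centre has index four

The basic structure of a non-abelian 2-group with centre of index four, and the way the Sylow
2-subgroups over one of their abelian maximal subgroups lie.
-/

set_option autoImplicit false
set_option linter.unusedSectionVars false
set_option linter.style.haveILetI false

namespace CfsgLib.CentralFour

variable {G : Type*} [Group G]

/-- The centre of a subgroup, as a subgroup of the ambient group. -/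
def zc (R : Subgroup G) : Subgroup G := R ⊓ Subgroup.centralizer (R : Set G)

theorem mem_zc {R : Subgroup G} {z : G} : z ∈ zc R ↔ z ∈ R ∧ ∀ r ∈ R, r * z = z * r := by
  simp [zc, Subgroup.mem_centralizer_iff]

/-- The centralizer of `x` in `R`. -/
def cx (R : Subgroup G) (x : G) : Subgroup G := R ⊓ Subgroup.centralizer {x}

theorem mem_cx {R : Subgroup G} {x w : G} : w ∈ cx R x ↔ w ∈ R ∧ w * x = x * w := by
  simp [cx, Subgroup.mem_centralizer_singleton_iff]

theorem zc_le_cx {R : Subgroup G} {x : G} (hx : x ∈ R) : zc R ≤ cx R x := fun z hz =>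
  mem_cx.2 ⟨(mem_zc.1 hz).1, ((mem_zc.1 hz).2 x hx).symm⟩

/-- `R` is non-abelian with centre of index four and derived subgroup generated by `c`. -/
structure Core (R : Subgroup G) (c : G) : Prop where
  ne : c ≠ 1
  sq : c * c = 1
  mem : c ∈ zc R
  comm : ∀ a ∈ R, ∀ b ∈ R, a * b = b * a ∨ a * b = c * (b * a)
  nonab : ∃ a ∈ R, ∃ b ∈ R, a * b ≠ b * a
  sqr : ∀ x ∈ R, x * x ∈ zc R
  cov : ∀ x ∈ R, ∀ y ∈ R, x ∉ zc R → y ∉ zc R → x⁻¹ * y ∉ zc R →
    ∀ w ∈ R, w ∈ zc R ∨ x⁻¹ * w ∈ zc R ∨ y⁻¹ * w ∈ zc R ∨ (x * y)⁻¹ * w ∈ zc R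
  card : Nat.card R = 4 * Nat.card (zc R)

theorem center_map (R : Subgroup G) : (Subgroup.center R).map R.subtype = zc R := by
  ext z
  simp only [Subgroup.mem_map, Subgroup.mem_center_iff, mem_zc, Subgroup.coe_subtype]
  constructor
  · rintro ⟨w, hw, rfl⟩
    exact ⟨w.2, fun r hr => congrArg Subtype.val (hw ⟨r, hr⟩)⟩
  · exact fun h => ⟨⟨z, h.1⟩, fun r => Subtype.ext (h.2 r r.2), rfl⟩

theorem exists_core [Finite G] {R : Subgroup G} (hna : ¬ IsMulCommutative R)
    (hZ : (Subgroup.center R).index = 4) : ∃ c, Core R c := by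
  classical
  set Z := Subgroup.center R with hZdef
  have hmem : ∀ {z : R}, z ∈ Z ↔ (z : G) ∈ zc R := by
    intro z
    rw [← center_map, Subgroup.mem_map]
    exact ⟨fun h => ⟨z, h, rfl⟩, fun ⟨w, hw, e⟩ => (R.subtype_injective e) ▸ hw⟩
  have hcard : Nat.card (R ⧸ Z) = 4 := hZ
  haveI : Finite (R ⧸ Z) := inferInstance
  haveI := Fintype.ofFinite (R ⧸ Z)
  have hnc : ¬ IsCyclic (R ⧸ Z) := by
    intro h
    exact hna ⟨⟨commutative_of_cyclic_center_quotient (QuotientGroup.mk' Z)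
      (by rw [QuotientGroup.ker_mk'])⟩⟩
  have hsq : ∀ q : R ⧸ Z, q * q = 1 := by
    intro q
    have hd : orderOf q ∣ 4 := hcard ▸ orderOf_dvd_natCard q
    have hne : orderOf q ≠ 4 := fun e => hnc (isCyclic_of_orderOf_eq_card q (e.trans hcard.symm))
    have h2 : orderOf q ∣ 2 := by
      have := Nat.le_of_dvd (by norm_num) hd
      interval_cases orderOf q <;> simp_all
    rw [← pow_two]
    exact orderOf_dvd_iff_pow_eq_one.1 h2
  have hcov : ∀ a b : R ⧸ Z, a ≠ 1 → b ≠ 1 → a ≠ b → ∀ q, q = 1 ∨ q = a ∨ q = b ∨ q = a * b := by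
    intro a b ha hb hab q
    have h1 : a * b ≠ 1 := fun e => hab (mul_left_cancel ((hsq a).trans e.symm))
    have h2 : a * b ≠ a := fun e => hb (mul_eq_left.1 e)
    have h3 : a * b ≠ b := fun e => ha (mul_eq_right.1 e)
    have h : ({1, a, b, a * b} : Finset (R ⧸ Z)) = Finset.univ := by
      refine Finset.eq_univ_of_card _ ?_
      rw [← Nat.card_eq_fintype_card, hcard]
      simp [Finset.card_insert_of_notMem, ha.symm, hb.symm, hab, h1.symm, h2.symm, h3.symm]
    have hq := Finset.mem_univ q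
    rw [← h] at hq
    simpa using hq
  have hsqr : ∀ x ∈ R, x * x ∈ zc R := fun x hx =>
    hmem.1 ((QuotientGroup.eq_one_iff _).1 (hsq (QuotientGroup.mk (⟨x, hx⟩ : R))))
  have hcov' : ∀ x ∈ R, ∀ y ∈ R, x ∉ zc R → y ∉ zc R → x⁻¹ * y ∉ zc R →
      ∀ w ∈ R, w ∈ zc R ∨ x⁻¹ * w ∈ zc R ∨ y⁻¹ * w ∈ zc R ∨ (x * y)⁻¹ * w ∈ zc R := by
    intro x hx y hy hxn hyn hxyn w hw
    rcases hcov (QuotientGroup.mk (⟨x, hx⟩ : R)) (QuotientGroup.mk (⟨y, hy⟩ : R))
      (fun e => hxn (hmem.1 ((QuotientGroup.eq_one_iff _).1 e)))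
      (fun e => hyn (hmem.1 ((QuotientGroup.eq_one_iff _).1 e)))
      (fun e => hxyn (hmem.1 (QuotientGroup.eq.1 e))) (QuotientGroup.mk (⟨w, hw⟩ : R))
      with h | h | h | h
    · exact Or.inl (hmem.1 ((QuotientGroup.eq_one_iff _).1 h))
    · exact Or.inr (Or.inl (hmem.1 (QuotientGroup.eq.1 h.symm)))
    · exact Or.inr (Or.inr (Or.inl (hmem.1 (QuotientGroup.eq.1 h.symm))))
    · exact Or.inr (Or.inr (Or.inr (hmem.1 (QuotientGroup.eq.1 h.symm))))
  obtain ⟨a, b, hab⟩ : ∃ a b : R, a * b ≠ b * a := by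
    by_contra h
    push Not at h
    exact hna ⟨⟨h⟩⟩
  set c : R := a * b * a⁻¹ * b⁻¹ with hc
  have hcZ : c ∈ Z := by
    rw [← QuotientGroup.eq_one_iff, hc]
    have key : ∀ q r : R ⧸ Z, q * r * q⁻¹ * r⁻¹ = 1 := fun q r => by
      have hi : ∀ s : R ⧸ Z, s⁻¹ = s := fun s => inv_eq_of_mul_eq_one_right (hsq s)
      rw [hi q, hi r]
      simpa [mul_assoc] using hsq (q * r)
    simpa using key (QuotientGroup.mk a) (QuotientGroup.mk b)
  have hcc : ∀ w : R, w * c = c * w := Subgroup.mem_center_iff.1 hcZ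
  clear_value c
  have hab' : a * b = c * (b * a) := by rw [hc]; group
  have hc2 : c * c = 1 := by
    have h1 : a * a * b = b * (a * a) := (Subgroup.mem_center_iff.1 (hmem.2 (hsqr a a.2)) b).symm
    have h2 : a * a * b = c * c * (b * (a * a)) := by
      calc a * a * b = a * (c * (b * a)) := by rw [mul_assoc, hab']
        _ = a * c * (b * a) := by group
        _ = c * (a * b) * a := by rw [hcc a]; group
        _ = c * (c * (b * a)) * a := by rw [hab']
        _ = _ := by group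
    rw [h1] at h2
    exact right_eq_mul.1 h2
  have hstep : ∀ x w w' : R, (x * w = w * x ∨ x * w = c * (w * x)) →
      (x * w' = w' * x ∨ x * w' = c * (w' * x)) →
      (x * (w * w') = w * w' * x ∨ x * (w * w') = c * (w * w' * x)) := by
    rintro x w w' (h | h) (h' | h')
    · left; rw [← mul_assoc, h, mul_assoc, h']; group
    · right; rw [← mul_assoc, h, mul_assoc, h', ← mul_assoc w, hcc w]; group
    · right; rw [← mul_assoc, h, mul_assoc, mul_assoc, h']; group
    · left
      calc x * (w * w') = c * (w * x) * w' := by rw [← mul_assoc, h]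
        _ = c * w * (x * w') := by group
        _ = c * w * (c * (w' * x)) := by rw [h']
        _ = c * (w * c) * (w' * x) := by group
        _ = (c * c) * (w * w' * x) := by rw [hcc w]; group
        _ = _ := by rw [hc2, one_mul]
  have hswap : ∀ x w : R, (x * w = w * x ∨ x * w = c * (w * x)) →
      (w * x = x * w ∨ w * x = c * (x * w)) := by
    rintro x w (h | h)
    · exact Or.inl h.symm
    · right; rw [h, ← mul_assoc, hc2, one_mul]
  have haux : ∀ x : R, (x * a = a * x ∨ x * a = c * (a * x)) →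
      (x * b = b * x ∨ x * b = c * (b * x)) → ∀ w, x * w = w * x ∨ x * w = c * (w * x) := by
    intro x hxa hxb w
    have hz : ∀ z ∈ Z, x * z = z * x ∨ x * z = c * (z * x) := fun z hz =>
      Or.inl (Subgroup.mem_center_iff.1 hz x)
    have han : (a : G) ∉ zc R := fun h => hab (Subgroup.mem_center_iff.1 (hmem.2 h) b).symm
    have hbn : (b : G) ∉ zc R := fun h => hab (Subgroup.mem_center_iff.1 (hmem.2 h) a)
    have habn : (a : G)⁻¹ * b ∉ zc R := fun h => hab (by
      have e := Subgroup.mem_center_iff.1 (hmem.2 (show ((a⁻¹ * b : R) : G) ∈ zc R from h)) a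
      rw [mul_inv_cancel_left] at e
      calc a * b = a * ((a⁻¹ * b) * a) := by rw [← e]
        _ = b * a := by group)
    have split : ∀ v : R, v⁻¹ * w ∈ Z → (x * v = v * x ∨ x * v = c * (v * x)) →
        (x * w = w * x ∨ x * w = c * (w * x)) := fun v hv hxv => by
      have := hstep x v (v⁻¹ * w) hxv (hz _ hv)
      rwa [mul_inv_cancel_left] at this
    rcases hcov' a a.2 b b.2 han hbn habn w w.2 with h | h | h | h
    · exact hz w (hmem.2 h)
    · exact split a (hmem.2 h) hxa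
    · exact split b (hmem.2 h) hxb
    · exact split (a * b) (hmem.2 h) (hstep x a b hxa hxb)
  have hA : ∀ w, a * w = w * a ∨ a * w = c * (w * a) := haux a (Or.inl rfl) (Or.inr hab')
  have hB : ∀ w, b * w = w * b ∨ b * w = c * (w * b) :=
    haux b (hswap a b (Or.inr hab')) (Or.inl rfl)
  refine ⟨c, ?_, congrArg Subtype.val hc2, hmem.1 hcZ, ?_, ⟨a, a.2, b, b.2, fun e => hab (Subtype.ext e)⟩,
    hsqr, hcov', ?_⟩
  · intro e
    rw [show c = 1 from Subtype.ext e, one_mul] at hab'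
    exact hab hab'
  · intro x hx y hy
    rcases haux ⟨x, hx⟩ (hswap a _ (hA _)) (hswap b _ (hB _)) ⟨y, hy⟩ with h | h
    · exact Or.inl (congrArg Subtype.val h)
    · exact Or.inr (congrArg Subtype.val h)
  · rw [← center_map, Subgroup.card_map_of_injective R.subtype_injective,
      ← Subgroup.card_mul_index Z, hZ, mul_comm]

namespace Core

variable {R : Subgroup G} {c x w : G}

theorem comm' (h : Core R c) {a b : G} (ha : a ∈ R) (hb : b ∈ R) :
    a * b * a⁻¹ = b ∨ a * b * a⁻¹ = c * b := by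
  rcases h.comm a ha b hb with e | e <;> rw [e]
  · exact Or.inl (by group)
  · exact Or.inr (by group)

theorem eq_of_ne (h : Core R c) {a b : G} (ha : a ∈ R) (hb : b ∈ R) (hne : a * b ≠ b * a) :
    a * b * a⁻¹ * b⁻¹ = c := by
  rcases h.comm a ha b hb with e | e
  · exact absurd e hne
  · rw [e]; group

theorem unique (h : Core R c) {d : G} (h' : Core R d) : c = d := by
  obtain ⟨a, ha, b, hb, hne⟩ := h.nonab
  rw [← h.eq_of_ne ha hb hne, h'.eq_of_ne ha hb hne]

theorem mem_R (h : Core R c) : c ∈ R := (mem_zc.1 h.mem).1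

theorem inv_eq (h : Core R c) : c⁻¹ = c := inv_eq_of_mul_eq_one_right h.sq

/-- The centralizer of an element outside the centre is the centre and its coset. -/
theorem mem_cx_iff (h : Core R c) (hx : x ∈ R) (hxn : x ∉ zc R) :
    w ∈ cx R x ↔ w ∈ R ∧ (w ∈ zc R ∨ x⁻¹ * w ∈ zc R) := by
  rw [mem_cx]
  refine ⟨fun ⟨hw, he⟩ => ⟨hw, ?_⟩, fun ⟨hw, he⟩ => ⟨hw, ?_⟩⟩
  · by_contra hcon
    push Not at hcon
    refine hxn (mem_zc.2 ⟨hx, fun r hr => ?_⟩)
    have hz : ∀ z ∈ zc R, z * x = x * z := fun z hz => ((mem_zc.1 hz).2 x hx).symm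
    have hsplit : ∀ v, v * x = x * v → v⁻¹ * r ∈ zc R → r * x = x * r := fun v hv hvr => by
      calc r * x = v * ((v⁻¹ * r) * x) := by group
        _ = v * (x * (v⁻¹ * r)) := by rw [hz _ hvr]
        _ = (v * x) * (v⁻¹ * r) := by group
        _ = (x * v) * (v⁻¹ * r) := by rw [hv]
        _ = x * r := by group
    rcases h.cov x hx w hw hxn hcon.1 hcon.2 r hr with e | e | e | e
    · exact hz r e
    · exact hsplit x rfl e
    · exact hsplit w he e
    · exact hsplit (x * w) (by rw [mul_assoc, he]) e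
  · rcases he with he | he
    · exact ((mem_zc.1 he).2 x hx).symm
    · calc w * x = x * ((x⁻¹ * w) * x) := by group
        _ = x * (x * (x⁻¹ * w)) := by rw [((mem_zc.1 he).2 x hx).symm]
        _ = x * w := by group

theorem cx_abelian (h : Core R c) (hx : x ∈ R) (hxn : x ∉ zc R) {a b : G} (ha : a ∈ cx R x)
    (hb : b ∈ cx R x) : a * b = b * a := by
  obtain ⟨haR, hax⟩ := mem_cx.1 ha
  obtain ⟨hbR, hb'⟩ := (h.mem_cx_iff hx hxn).1 hb
  rcases hb' with hb' | hb'
  · exact (mem_zc.1 hb').2 a haR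
  · calc a * b = (a * x) * (x⁻¹ * b) := by group
      _ = (x * a) * (x⁻¹ * b) := by rw [hax]
      _ = x * (a * (x⁻¹ * b)) := by group
      _ = x * ((x⁻¹ * b) * a) := by rw [(mem_zc.1 hb').2 a haR]
      _ = b * a := by group

theorem card_cx [Finite G] (h : Core R c) (hx : x ∈ R) (hxn : x ∉ zc R) :
    Nat.card (cx R x) = 2 * Nat.card (zc R) := by
  have hf : ∀ (i : Bool) (z : zc R), (cond i x 1) * (z : G) ∈ cx R x := fun i z => by
    cases i
    · simpa using zc_le_cx hx z.2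
    · exact mul_mem (mem_cx.2 ⟨hx, rfl⟩) (zc_le_cx hx z.2)
  rw [← Nat.card_eq_of_bijective (fun p : Bool × zc R => (⟨_, hf p.1 p.2⟩ : cx R x)) ⟨?_, ?_⟩]
  · simp [Nat.card_prod]
  · rintro ⟨i, z⟩ ⟨j, z'⟩ e
    have e' : cond i x 1 * (z : G) = cond j x 1 * z' := congrArg Subtype.val e
    rcases i <;> rcases j <;> simp only [cond_true, cond_false, one_mul] at e'
    · exact Prod.ext rfl (Subtype.ext e')
    · exact absurd (eq_mul_inv_iff_mul_eq.2 e'.symm ▸ mul_mem z.2 (inv_mem z'.2)) hxn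
    · exact absurd (eq_mul_inv_iff_mul_eq.2 e' ▸ mul_mem z'.2 (inv_mem z.2)) hxn
    · exact Prod.ext rfl (Subtype.ext (mul_left_cancel e'))
  · rintro ⟨w, hw⟩
    rcases ((h.mem_cx_iff hx hxn).1 hw).2 with e | e
    · exact ⟨(false, ⟨w, e⟩), Subtype.ext (one_mul w)⟩
    · exact ⟨(true, ⟨_, e⟩), Subtype.ext (mul_inv_cancel_left x w)⟩

/-- The subgroup `R` normalises the centralizers of its elements. -/
theorem cx_conj (h : Core R c) (hx : x ∈ R) {r a : G} (hr : r ∈ R) (ha : a ∈ cx R x) :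
    r * a * r⁻¹ ∈ cx R x := by
  rcases h.comm' hr (mem_cx.1 ha).1 with e | e <;> rw [e]
  · exact ha
  · exact mul_mem (zc_le_cx hx h.mem) ha

theorem eq_or_ne (h : Core R c) {a b : G} (ha : a ∈ R) (hb : b ∈ R) (hne : b * a ≠ a * b) :
    b * a * b⁻¹ = c * a := by
  rcases h.comm' hb ha with e | e
  · exact absurd (by conv_rhs => rw [← e]; rw [inv_mul_cancel_right]) hne
  · exact e

end Core

end CfsgLib.CentralFour
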