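import Cfsg.Agent.Lib.CentralFour.Sections

/-!
# The sizes of the two families of sections
-/

set_option autoImplicit false
set_option linter.unusedSectionVars false
set_option linter.style.haveILetI false

open Cfsg

namespace CfsgLib.CentralFour

variable {G : Type*} [Group G] [Fintype G] (hG : Good G) (P : Sylow 2 G) {x y : G} {U : Subgroup G}
  (H : Shape (P : Subgroup G) (cgen hG P) x y U)

local notation "π" => CfsgLib.BlockStar.ppart 2

include hG H

/-- In the centralizer of `p` the sections at `p U` and at `x y U` make up an eighth and a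
quarter. -/
theorem Shape.card_centralizer :
    8 * Nat.card {g : Subgroup.centralizer ({cgen hG P} : Set G) //
        π (g : G) ∈ classes (Subgroup.centralizer {cgen hG P}) (pSet (cgen hG P) U)}
      = Nat.card (Subgroup.centralizer ({cgen hG P} : Set G)) ∧
    4 * Nat.card {g : Subgroup.centralizer ({cgen hG P} : Set G) //
        π (g : G) ∈ classes (Subgroup.centralizer {cgen hG P}) (qSet x y U)}
      = Nat.card (Subgroup.centralizer ({cgen hG P} : Set G)) := by
  classical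
  haveI : Fact (Nat.Prime 2) := ⟨Nat.prime_two⟩
  have hP := H.core
  set p := cgen hG P with hp
  set X := Subgroup.centralizer ({p} : Set G) with hX
  have hPX : (P : Subgroup G) ≤ X := fun w hw =>
    Subgroup.mem_centralizer_singleton_iff.2 ((mem_zc.1 hP.mem).2 w hw)
  set Z' := (zc (P : Subgroup G)).subgroupOf (P : Subgroup G) with hZ'
  haveI : Z'.Normal := ⟨fun z hz r => by
    rw [hZ', Subgroup.mem_subgroupOf] at hz ⊢
    rw [Subgroup.coe_mul, Subgroup.coe_mul, Subgroup.coe_inv, (mem_zc.1 hz).2 r r.2,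
      mul_inv_cancel_right]
    exact hz⟩
  set Q := (P : Subgroup G) ⧸ Z' with hQ
  have hQcard : Nat.card Q = 4 := by
    have h1 := Subgroup.card_mul_index Z'
    rw [hZ', Nat.card_congr (Subgroup.subgroupOfEquivOfLe
      (show zc (P : Subgroup G) ≤ (P : Subgroup G) from inf_le_left)).toEquiv, hP.card,
      mul_comm 4] at h1
    exact Nat.eq_of_mul_eq_mul_left Nat.card_pos h1
  have hsq : ∀ q : Q, q * q = 1 := by
    intro q
    obtain ⟨w, rfl⟩ := QuotientGroup.mk_surjective q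
    rw [← QuotientGroup.mk_mul, QuotientGroup.eq_one_iff, hZ', Subgroup.mem_subgroupOf]
    exact hP.sqr w w.2
  have hinvQ : ∀ q : Q, q⁻¹ = q := fun q => inv_eq_of_mul_eq_one_right (hsq q)
  have hcommQ : ∀ q r : Q, q * r = r * q := fun q r => by
    calc q * r = (q * r)⁻¹ := (hinvQ _).symm
      _ = r * q := by rw [mul_inv_rev, hinvQ, hinvQ]
  set HX := (P : Subgroup G).subgroupOf X with hHX
  let τ : HX →* Q := (QuotientGroup.mk' Z').comp (Subgroup.subgroupOfEquivOfLe hPX).toMonoidHom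
  have hτ : Subgroup.focalSubgroupOf HX ≤ τ.ker := by
    rw [Subgroup.focalSubgroupOf_eq_closure, Subgroup.closure_le]
    rintro w ⟨v, hv, u, e⟩
    rw [SetLike.mem_coe, MonoidHom.mem_ker]
    refine (QuotientGroup.eq_one_iff _).2 ?_
    rw [hZ', Subgroup.mem_subgroupOf]
    show ((w : X) : G) ∈ zc (P : Subgroup G)
    have hv' : (v : G) ∈ (P : Subgroup G) := Subgroup.mem_subgroupOf.1 hv
    have hw' : ((w : X) : G) ∈ (P : Subgroup G) := Subgroup.mem_subgroupOf.1 w.2
    have he : ((w : X) : G) = (v : G) * ((u : G) * (v : G)⁻¹ * (u : G)⁻¹) := by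
      rw [e, commutatorElement_def]
      simp [mul_assoc]
    have h := H.fusion hG P u.2 (inv_mem hv') (by
      have := mul_mem (inv_mem hv') hw'
      rwa [he, inv_mul_cancel_left] at this)
    rwa [inv_inv, ← he] at h
  let ψ : X →* Q :=
    (QuotientGroup.lift (Subgroup.focalSubgroupOf HX) τ hτ).comp (Subgroup.transferFocal HX)
  have hm : Odd HX.index := by
    have h : (HX.index) * X.index = (P : Subgroup G).index := Subgroup.relIndex_mul_index hPX
    rw [Nat.odd_iff]
    have := P.not_dvd_index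
    rw [← h] at this
    have h' : ¬ 2 ∣ HX.index := fun hd => this (hd.mul_right _)
    omega
  have hψP : ∀ w : HX, ψ (w : X) = τ w := by
    intro w
    simp only [ψ, MonoidHom.comp_apply, Subgroup.transferFocal_eq_pow, map_pow,
      QuotientGroup.lift_mk]
    obtain ⟨k, hk⟩ := hm
    rw [hk, pow_succ, pow_mul, pow_two, hsq, one_pow, one_mul]
  have hψodd : ∀ g : X, Odd (orderOf g) → ψ g = 1 := by
    intro g ⟨k, hk⟩
    have h := congrArg ψ (pow_orderOf_eq_one g)
    rwa [hk, map_pow, map_one, pow_succ, pow_mul, pow_two, hsq, one_pow, one_mul] at h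
  have hψπ : ∀ g : X, ψ g = ψ (π g) := by
    intro g
    obtain ⟨r, hr, -, -, ho⟩ := CfsgLib.BlockStar.ppart_spec (p := 2) g
    conv_lhs => rw [← hr]
    rw [map_mul, hψodd r (Nat.not_even_iff_odd.1 fun h => ho (even_iff_two_dvd.1 h)), mul_one]
  have hπ : ∀ g : X, π (g : G) = ((π g : X) : G) := fun g => (map_twoPart X.subtype g).symm
  -- the value of `ψ` at an element of a class
  have hval : ∀ {g : X} {h w : G}, h ∈ X → (hw : w ∈ (P : Subgroup G)) → h * w * h⁻¹ = π (g : G) →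
      ψ g = QuotientGroup.mk ⟨w, hw⟩ := by
    intro g h w hh hw e
    have e' : π g = (⟨h, hh⟩ : X) * ⟨w, hPX hw⟩ * (⟨h, hh⟩ : X)⁻¹ :=
      Subtype.ext ((hπ g).symm.trans e.symm)
    rw [hψπ g, e', map_mul, map_mul, hcommQ (ψ ⟨h, hh⟩), map_inv, mul_inv_cancel_right]
    exact (hψP ⟨⟨w, hPX hw⟩, Subgroup.mem_subgroupOf.2 hw⟩).trans rfl
  have hex : ∀ g : X, ∃ h ∈ X, ∃ w ∈ (P : Subgroup G), h * w * h⁻¹ = π (g : G) := by
    intro g
    obtain ⟨c, hc⟩ := exists_conj_mem_sylow (P.subtype hPX)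
      (isPGroup_zpowers' (exists_orderOf_twoPart g))
    have h := hc _ (Subgroup.mem_zpowers _)
    rw [Sylow.coe_subtype, Subgroup.mem_subgroupOf] at h
    refine ⟨(c : G)⁻¹, inv_mem c.2, _, h, ?_⟩
    rw [hπ]
    simp [mul_assoc]
  have hfib : ∀ q : Q, 4 * Nat.card {g : X // ψ g = q} = Nat.card X := by
    intro q
    obtain ⟨w, rfl⟩ := QuotientGroup.mk_surjective q
    set g₀ : X := ⟨(w : G), hPX w.2⟩
    have hg₀ : ψ g₀ = (QuotientGroup.mk w : Q) :=
      (hψP ⟨g₀, Subgroup.mem_subgroupOf.2 w.2⟩).trans rfl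
    have hsurj : ψ.range = ⊤ := MonoidHom.range_eq_top.2 fun r => by
      obtain ⟨v, rfl⟩ := QuotientGroup.mk_surjective r
      exact ⟨⟨(v : G), hPX v.2⟩, (hψP ⟨⟨(v : G), hPX v.2⟩, Subgroup.mem_subgroupOf.2 v.2⟩).trans rfl⟩
    rw [← ψ.ker.card_mul_index, Subgroup.index_ker, hsurj, Subgroup.card_top, hQcard,
      mul_comm (Nat.card ψ.ker)]
    congr 1
    refine Nat.card_congr (Equiv.subtypeEquiv (Equiv.mulLeft g₀⁻¹) fun g => ?_)
    rw [MonoidHom.mem_ker, Equiv.coe_mulLeft, map_mul, map_inv, hg₀, inv_mul_eq_one]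
    exact eq_comm
  have hq : ∀ g : X, π (g : G) ∈ classes X (qSet x y U) ↔
      ψ g = QuotientGroup.mk (⟨x * y, mul_mem H.memx H.memy⟩ : (P : Subgroup G)) := by
    intro g
    constructor
    · rintro ⟨h, hh, _, ⟨u, hu, rfl⟩, e⟩
      rw [hval hh (mul_mem (mul_mem H.memx H.memy) (H.u_mem hG P hu)) e, QuotientGroup.eq, hZ',
        Subgroup.mem_subgroupOf]
      simpa [mul_assoc] using inv_mem (H.U_le hu)
    · intro hgq
      obtain ⟨h, hh, w, hw, e⟩ := hex g
      rw [hval hh hw e, eq_comm, QuotientGroup.eq, hZ', Subgroup.mem_subgroupOf] at hgq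
      obtain ⟨r, hr, t, ht, e'⟩ := H.mem_classes_q hG P hw hgq
      exact ⟨h * r, mul_mem hh (hPX hr), t, ht, by rw [← e, ← e']; group⟩
  refine ⟨?_, ?_⟩
  swap
  · rw [Nat.card_congr (Equiv.subtypeEquivRight hq)]
    exact hfib _
  have h1 : ∀ g : X, (π (g : G) ∈ classes X (U : Set G) ∨ π (g : G) ∈ classes X (pSet p U)) ↔
      ψ g = 1 := by
    intro g
    constructor
    · rintro (⟨h, hh, u, hu, e⟩ | ⟨h, hh, _, ⟨u, hu, rfl⟩, e⟩)
      · rw [hval hh (H.u_mem hG P hu) e]
        exact (QuotientGroup.eq_one_iff _).2 (Subgroup.mem_subgroupOf.2 (H.U_le hu))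
      · rw [hval hh (mul_mem hP.mem_R (H.u_mem hG P hu)) e]
        exact (QuotientGroup.eq_one_iff _).2
          (Subgroup.mem_subgroupOf.2 (mul_mem hP.mem (H.U_le hu)))
    · intro hg
      obtain ⟨h, hh, w, hw, e⟩ := hex g
      rw [hval hh hw e, QuotientGroup.eq_one_iff, hZ', Subgroup.mem_subgroupOf] at hg
      rcases H.split w hg with h' | h'
      · exact Or.inl ⟨h, hh, w, h', e⟩
      · refine Or.inr ⟨h, hh, p * (p * w), ⟨_, h', rfl⟩, ?_⟩
        rw [← e, ← mul_assoc p, hP.sq, one_mul]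
  have hdisj : ∀ g : X,
      ¬ (π (g : G) ∈ classes X (U : Set G) ∧ π (g : G) ∈ classes X (pSet p U)) := by
    rintro g ⟨⟨h, -, u, hu, e⟩, ⟨h', -, _, ⟨u', hu', rfl⟩, e'⟩⟩
    refine H.pU_not_conj hG P (g := h⁻¹ * h') hu' ?_
    rw [show h⁻¹ * h' * (cgen hG P * u') * (h⁻¹ * h')⁻¹
      = h⁻¹ * (h' * (cgen hG P * u') * h'⁻¹) * h by group, ← hp, e', ← e,
      show h⁻¹ * (h * u * h⁻¹) * h = u by group]
    exact hu
  -- translation by `p`
  let p' : X := ⟨p, hPX hP.mem_R⟩
  have hpc : ∀ g : X, Commute p' g := fun g =>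
    Subtype.ext (Subgroup.mem_centralizer_singleton_iff.1 g.2).symm
  have htr : ∀ g : X, π ((p' * g : X) : G) = p * π (g : G) := by
    intro g
    rw [hπ, hπ]
    show ((π (p' * g) : X) : G) = ((p' * π g : X) : G)
    obtain ⟨r, hr, hc, ⟨k, hk⟩, ho⟩ := CfsgLib.BlockStar.ppart_spec (p := 2) g
    refine congrArg Subtype.val (CfsgLib.BlockStar.ppart_eq
      ⟨r, by rw [mul_assoc, hr], (hpc r).mul_left hc, ?_, ho⟩)
    have hd : orderOf (p' * π g) ∣ 2 ^ (k + 1) := by
      have h2 : orderOf p' ∣ 2 := orderOf_dvd_of_pow_eq_one (Subtype.ext (by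
        simp [pow_two, p', hP.sq]))
      refine (Commute.orderOf_mul_dvd_lcm (hpc _)).trans (Nat.lcm_dvd ?_ ?_)
      · exact h2.trans (dvd_pow_self 2 (Nat.succ_ne_zero k))
      · rw [hk]; exact Nat.pow_dvd_pow 2 (Nat.le_succ k)
    obtain ⟨j, -, hj⟩ := (Nat.dvd_prime_pow Nat.prime_two).1 hd
    exact ⟨j, hj⟩
  have hswap : Nat.card {g : X // π (g : G) ∈ classes X (U : Set G)}
      = Nat.card {g : X // π (g : G) ∈ classes X (pSet p U)} := by
    refine Nat.card_congr (Equiv.subtypeEquiv (Equiv.mulLeft p') fun g => ?_)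
    rw [Equiv.coe_mulLeft, htr]
    constructor
    · rintro ⟨h, hh, u, hu, e⟩
      refine ⟨h, hh, p * u, ⟨u, hu, rfl⟩, ?_⟩
      rw [← e, show h * (p * u) * h⁻¹ = (h * p) * (u * h⁻¹) by group,
        Subgroup.mem_centralizer_singleton_iff.1 hh]
      group
    · rintro ⟨h, hh, _, ⟨u, hu, rfl⟩, e⟩
      refine ⟨h, hh, u, hu, mul_left_cancel (a := p) ?_⟩
      rw [← e, show h * (p * u) * h⁻¹ = (h * p) * (u * h⁻¹) by group,
        Subgroup.mem_centralizer_singleton_iff.1 hh]
      group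
  have hfour := hfib 1
  rw [← Nat.card_congr (Equiv.subtypeEquivRight h1)] at hfour
  rw [← hfour, Nat.card_congr (subtypeOrEquiv (fun g : X => π (g : G) ∈ classes X (U : Set G))
    (fun g : X => π (g : G) ∈ classes X (pSet p U))
    (Pi.disjoint_iff.2 fun g => Prop.disjoint_iff.2 (hdisj g))), Nat.card_sum, hswap]
  ring

/-- In the group the sections at `p U` and at `x y U` make up an eighth and a quarter. -/
theorem Shape.card_sections :
    8 * Nat.card {g : G // π g ∈ classes ⊤ (pSet (cgen hG P) U)} = Nat.card G ∧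
    4 * Nat.card {g : G // π g ∈ classes ⊤ (qSet x y U)} = Nat.card G := by
  obtain ⟨h8, h4⟩ := H.card_centralizer hG P
  have e8 := (H.isolated_p hG P).card_mul
  have e4 := (H.isolated_q hG P).card_mul
  have hX : 0 < Nat.card (Subgroup.centralizer ({cgen hG P} : Set G)) := Nat.card_pos
  constructor
  · refine Nat.eq_of_mul_eq_mul_left hX ?_
    rw [mul_left_comm, ← e8, mul_left_comm, h8, mul_comm]
  · refine Nat.eq_of_mul_eq_mul_left hX ?_
    rw [mul_left_comm, ← e4, mul_left_comm, h4, mul_comm]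

end CfsgLib.CentralFour
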