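import Cfsg.Agent.Lib.CharTheory.Convolution
import Cfsg.Agent.Lib.BrauerCharacters.SectionCount

/-!
# Generalized characters of small norm and a null vector

If a generalized character `θ` has few constituents and the averages of `θ` over products of
conjugates of an element `r` behave as for the neutral element, a non-principal constituent takes
its degree at `r`.
-/

set_option autoImplicit false
set_option linter.unusedSectionVars false
set_option linter.style.haveILetI false

open scoped ComplexConjugate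
open Finset Cfsg CfsgLib.CharTheory

namespace CfsgLib.CentralFour

/-- Pairwise orthogonal vectors for a non-degenerate diagonal form, as many as the dimension, the
first isotropic and the others not: the first vanishes. -/
theorem eq_zero_of_isotropic {ι : Type*} [Fintype ι] {k : ℕ} (hcard : Fintype.card ι ≤ k + 1)
    (w : ι → ℂ) (hw : ∀ i, w i ≠ 0) (v : Fin (k + 1) → ι → ℂ)
    (horth : ∀ a b, a ≠ b → ∑ i, w i * v a i * v b i = 0)
    (hnull : ∑ i, w i * v 0 i * v 0 i = 0)
    (hne : ∀ a, a ≠ 0 → ∑ i, w i * v a i * v a i ≠ 0) : v 0 = 0 := by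
  classical
  by_contra h0
  have hswap : ∀ (g : Fin (k + 1) → ℂ) b, ∑ i, w i * (∑ a, g a • v a) i * v b i
      = ∑ a, g a * ∑ i, w i * v a i * v b i := by
    intro g b
    simp only [Finset.sum_apply, Pi.smul_apply, smul_eq_mul, Finset.mul_sum, Finset.sum_mul]
    rw [Finset.sum_comm]
    exact sum_congr rfl fun a _ => sum_congr rfl fun i _ => by ring
  have hli : LinearIndependent ℂ v := by
    refine Fintype.linearIndependent_iff.2 fun g hg => ?_
    have hz : ∀ b, b ≠ 0 → g b = 0 := by
      intro b hb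
      have h := hswap g b
      rw [hg, Finset.sum_eq_single b (fun a _ hab => by rw [horth a b hab, mul_zero])
        (fun h => absurd (mem_univ b) h)] at h
      simp only [Pi.zero_apply, mul_zero, zero_mul, sum_const_zero] at h
      exact (mul_eq_zero.1 h.symm).resolve_right (hne b hb)
    intro a
    by_cases ha : a = 0
    · subst ha
      rw [Finset.sum_eq_single (0 : Fin (k + 1)) (fun b _ hb => by rw [hz b hb, zero_smul])
        (fun h => absurd (mem_univ _) h)] at hg
      exact (smul_eq_zero.1 hg).resolve_right h0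
    · exact hz a ha
  have hspan : Submodule.span ℂ (Set.range v) = ⊤ := by
    refine hli.span_eq_top_of_card_eq_finrank' ?_
    have := hli.fintype_card_le_finrank
    simp only [Module.finrank_pi, Fintype.card_fin] at this ⊢
    omega
  refine h0 (funext fun j => ?_)
  have hj : (Pi.single j (1 : ℂ)) ∈ Submodule.span ℂ (Set.range v) := hspan ▸ Submodule.mem_top
  obtain ⟨g, hg⟩ := (Submodule.mem_span_range_iff_exists_fun ℂ).1 hj
  have h := hswap g 0
  rw [hg, Finset.sum_eq_single (0 : Fin (k + 1)) (fun a _ ha => by rw [horth a 0 ha, mul_zero])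
    (fun h => absurd (mem_univ _) h), hnull, mul_zero,
    Finset.sum_eq_single j (fun i _ hi => by simp [Pi.single_eq_of_ne hi])
    (fun h => absurd (mem_univ _) h)] at h
  simpa [hw j] using h

universe u

variable {G : Type u} [Group G] [Fintype G]

/-- The average of `θ` over `x y x⁻¹ z`. -/
noncomputable def avgProd (θ : G → ℂ) (y z : G) : ℂ :=
  (Nat.card G : ℂ)⁻¹ * ∑ x : G, θ (x * y * x⁻¹ * z)

theorem avgProd_eq [Fintype (IrrCharacter G)] (c : IrrCharacter G → ℤ) (y z : G) :
    avgProd (∑ χ : IrrCharacter G, (c χ : ℂ) • (χ : G → ℂ)) y z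
      = ∑ χ : IrrCharacter G, (c χ : ℂ) * (χ : G → ℂ) y * (χ : G → ℂ) z / (χ : G → ℂ) 1 := by
  have hG : (Nat.card G : ℂ) ≠ 0 := Nat.cast_ne_zero.2 Nat.card_pos.ne'
  simp only [avgProd, Finset.sum_apply, Pi.smul_apply, smul_eq_mul]
  rw [Finset.sum_comm, Finset.mul_sum]
  refine sum_congr rfl fun χ _ => ?_
  rw [← Finset.mul_sum, IsIrrCharacter.sum_conj_mul χ.2]
  field_simp

theorem avgProd_one_left {θ : G → ℂ} (z : G) : avgProd θ 1 z = θ z := by
  simp [avgProd, Nat.card_eq_fintype_card]

theorem avgProd_of_const {θ : G → ℂ} {y z : G} {a : ℂ} (h : ∀ x, θ (x * y * x⁻¹ * z) = a) :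
    avgProd θ y z = a := by
  simp [avgProd, h, Nat.card_eq_fintype_card]

section Decomposition

variable {θ : G → ℂ}

/-- The constituents of `θ` other than the principal character, and the coefficient of the
latter. -/
theorem exists_constituents (hθ : IsGeneralizedCharacter G θ) {m : ℤ} {N : ℕ}
    (hm : classInner θ (fun _ => 1) = (m : ℂ)) (hN : classInner θ θ = (N : ℂ)) :
    ∃ (ι : Type u) (_ : Fintype ι) (χ : ι → IrrCharacter G) (a : ι → ℂ),
      (Fintype.card ι : ℤ) + m ^ 2 ≤ N ∧ (∀ i, a i ≠ 0) ∧ (∀ i, χ i ≠ trivIrr G) ∧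
      ∀ y z, avgProd θ y z
        = m + ∑ i, a i * (χ i : G → ℂ) y * (χ i : G → ℂ) z / (χ i : G → ℂ) 1 := by
  classical
  haveI := Fintype.ofFinite (IrrCharacter G)
  obtain ⟨c, rfl⟩ := isGeneralizedCharacter_iff_exists_sum.1 hθ
  have hct : c (trivIrr G) = m := by
    have h := classInner_sum_irr (fun χ => (c χ : ℂ)) (trivIrr G)
    rw [show ((trivIrr G : IrrCharacter G) : G → ℂ) = fun _ => 1 from funext trivIrr_apply] at h
    exact_mod_cast h.symm.trans hm
  have hsum : ∑ χ : IrrCharacter G, c χ * c χ = N := by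
    have h := (classInner_generalized_sum c c).symm.trans hN
    exact_mod_cast h
  refine ⟨{χ : IrrCharacter G // χ ≠ trivIrr G ∧ c χ ≠ 0}, inferInstance, fun i => i.1,
    fun i => (c i.1 : ℂ), ?_, fun i => Int.cast_ne_zero.2 i.2.2, fun i => i.2.1, fun y z => ?_⟩
  · rw [← hsum, ← Finset.add_sum_erase _ _ (mem_univ (trivIrr G)), hct, add_comm, ← pow_two,
      Fintype.card_subtype]
    refine add_le_add le_rfl ?_
    have hsub : (univ.filter fun χ : IrrCharacter G => χ ≠ trivIrr G ∧ c χ ≠ 0)
        ⊆ univ.erase (trivIrr G) := fun χ hχ => by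
      simp only [mem_filter] at hχ
      exact mem_erase.2 ⟨hχ.2.1, mem_univ _⟩
    refine le_trans ?_ (sum_le_sum_of_subset_of_nonneg hsub fun χ _ _ => mul_self_nonneg _)
    rw [Finset.card_eq_sum_ones, Nat.cast_sum, Nat.cast_one]
    refine sum_le_sum fun χ hχ => ?_
    have := mul_self_pos.2 (mem_filter.1 hχ).2.2
    omega
  · rw [avgProd_eq, ← Finset.add_sum_erase _ _ (mem_univ (trivIrr G)), hct]
    congr 1
    · simp [trivIrr_apply]
    · rw [← Finset.sum_subtype (univ.filter fun χ : IrrCharacter G => χ ≠ trivIrr G ∧ c χ ≠ 0)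
        (p := fun χ : IrrCharacter G => χ ≠ trivIrr G ∧ c χ ≠ 0) (fun χ => by simp) fun χ => (c χ : ℂ) * (χ : G → ℂ) y * (χ : G → ℂ) z / (χ : G → ℂ) 1]
      refine (sum_subset (fun χ hχ => ?_) fun χ hχ hn => ?_).symm
      · simp only [mem_filter] at hχ
        exact mem_erase.2 ⟨hχ.2.1, mem_univ _⟩
      · have : c χ = 0 := by
          by_contra hc
          exact hn (mem_filter.2 ⟨mem_univ _, (mem_erase.1 hχ).1, hc⟩)
        simp [this]

end Decomposition

/-- A simple group has no non-trivial element at which a non-principal irreducible character takes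
its degree. -/
theorem eq_one_of_apply_eq_degree [IsSimpleGroup G] {r : G} {χ : IrrCharacter G}
    (hne : χ ≠ trivIrr G) (h : (χ : G → ℂ) r = (χ : G → ℂ) 1) : r = 1 := by
  by_contra hr
  refine hne (CfsgLib.BrauerCharacters.eq_trivIrr_of_apply_eq_degree (fun K hK hrK => ?_) h)
  rcases hK.eq_bot_or_eq_top with e | e
  · exact absurd (Subgroup.mem_bot.1 (e ▸ hrK)) hr
  · exact e

variable [IsSimpleGroup G] {θ : G → ℂ} {r : G}

/-- The norm three case. -/
theorem false_of_norm_three (hθ : IsGeneralizedCharacter G θ)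
    (hm : classInner θ (fun _ => 1) = 1) (hN : classInner θ θ = 3) (hr : r ≠ 1)
    (h1 : θ 1 = 0) (hθr : θ r = 0) (hrr : ∀ x, θ (x * r * x⁻¹ * r) = 0) : False := by
  obtain ⟨ι, _, χ, a, hcard, ha, hne, hav⟩ := exists_constituents hθ (m := 1) (N := 3)
    (by exact_mod_cast hm) (by exact_mod_cast hN)
  have hw : ∀ i, a i / (χ i : G → ℂ) 1 ≠ 0 := fun i =>
    div_ne_zero (ha i) (apply_one_ne_zero_of_isIrr (χ i).2)
  have hB : ∀ y z, ∑ i, a i / (χ i : G → ℂ) 1 * (χ i : G → ℂ) y * (χ i : G → ℂ) z
      = avgProd θ y z - 1 := fun y z => by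
    rw [hav y z, Int.cast_one, add_sub_cancel_left]
    exact sum_congr rfl fun i _ => by ring
  have e11 := hB 1 1
  have e1r := hB 1 r
  have err := hB r r
  rw [avgProd_one_left, h1] at e11
  rw [avgProd_one_left, hθr] at e1r
  rw [avgProd_of_const hrr] at err
  set x : ι → ℂ := fun i => (χ i : G → ℂ) 1
  set n : ι → ℂ := fun i => (χ i : G → ℂ) r - (χ i : G → ℂ) 1
  let B : (ι → ℂ) → (ι → ℂ) → ℂ := fun u v => ∑ i, a i / (χ i : G → ℂ) 1 * u i * v i
  have hsymm : ∀ u v, B u v = B v u := fun u v => sum_congr rfl fun i _ => by ring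
  have hsub : ∀ u u' v, B (fun i => u i - u' i) v = B u v - B u' v := fun u u' v => by
    simp only [B, ← sum_sub_distrib]
    exact sum_congr rfl fun i _ => by ring
  set y : ι → ℂ := fun i => (χ i : G → ℂ) r
  have bxx : B x x = -1 := e11.trans (by norm_num)
  have bxy : B x y = -1 := e1r.trans (by norm_num)
  have byy : B y y = -1 := err.trans (by norm_num)
  have bnx : B n x = 0 := by rw [hsub y x x, hsymm y x, bxy, bxx, sub_self]
  have bnn : B n n = 0 := by
    rw [hsub y x n, hsymm y n, hsymm x n, hsub y x y, hsub y x x, byy, bxy, hsymm y x, bxy, bxx]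
    ring
  have h0 := eq_zero_of_isotropic (k := 1) (by omega) _ hw ![n, x]
    (fun s t hst => by
      change B _ _ = 0
      fin_cases s <;> fin_cases t <;>
        first | exact absurd rfl hst | exact bnx | exact (hsymm _ _).trans bnx)
    bnn
    (fun s hs => by
      change B _ _ ≠ 0
      fin_cases s
      · exact absurd rfl hs
      · intro h
        exact neg_ne_zero.2 one_ne_zero (bxx.symm.trans h))
  obtain ⟨i⟩ : Nonempty ι := by
    by_contra hc
    rw [not_nonempty_iff] at hc
    simp at e11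
  exact hr (eq_one_of_apply_eq_degree (hne i) (sub_eq_zero.1 (congrFun h0 i)))

/-- The norm four case, with an element `c` pairing with `r` as with the neutral element. -/
theorem false_of_norm_four (hθ : IsGeneralizedCharacter G θ)
    (hm : classInner θ (fun _ => 1) = -1) (hN : classInner θ θ = 4) (hr : r ≠ 1)
    (h1 : θ 1 = 0) (hθr : θ r = 0) (hrr : ∀ x, θ (x * r * x⁻¹ * r) = 0) (c : G)
    (hθc : θ c = -4) (hcr : ∀ x, θ (x * c * x⁻¹ * r) = -4)
    (hcc : ∀ x, (θ (x * c * x⁻¹ * c)).re ≤ 0) : False := by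
  obtain ⟨ι, _, χ, a, hcard, ha, hne, hav⟩ := exists_constituents hθ (m := -1) (N := 4)
    (by exact_mod_cast hm) (by exact_mod_cast hN)
  have hw : ∀ i, a i / (χ i : G → ℂ) 1 ≠ 0 := fun i =>
    div_ne_zero (ha i) (apply_one_ne_zero_of_isIrr (χ i).2)
  have hB : ∀ y z, ∑ i, a i / (χ i : G → ℂ) 1 * (χ i : G → ℂ) y * (χ i : G → ℂ) z
      = avgProd θ y z + 1 := fun y z => by
    rw [hav y z]
    push_cast
    rw [neg_add_eq_sub, sub_add_cancel]
    exact sum_congr rfl fun i _ => by ring
  have e11 := hB 1 1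
  have e1r := hB 1 r
  have err := hB r r
  have e1c := hB 1 c
  have ecr := hB c r
  have ecc := hB c c
  rw [avgProd_one_left, h1] at e11
  rw [avgProd_one_left, hθr] at e1r
  rw [avgProd_one_left, hθc] at e1c
  rw [avgProd_of_const hrr] at err
  rw [avgProd_of_const hcr] at ecr
  have hW : avgProd θ c c - 8 ≠ 0 := by
    intro h
    have h2 : (avgProd θ c c).re ≤ 0 := by
      simp only [avgProd]
      rw [show ((Nat.card G : ℂ))⁻¹ = ((Nat.card G : ℝ)⁻¹ : ℝ) by simp, Complex.re_ofReal_mul,
        Complex.re_sum]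
      exact mul_nonpos_of_nonneg_of_nonpos (by positivity) (sum_nonpos fun x _ => hcc x)
    rw [sub_eq_zero] at h
    rw [h] at h2
    norm_num at h2
  set x : ι → ℂ := fun i => (χ i : G → ℂ) 1
  set n : ι → ℂ := fun i => (χ i : G → ℂ) r - (χ i : G → ℂ) 1
  set w : ι → ℂ := fun i => (χ i : G → ℂ) c + 3 * (χ i : G → ℂ) 1
  let B : (ι → ℂ) → (ι → ℂ) → ℂ := fun u v => ∑ i, a i / (χ i : G → ℂ) 1 * u i * v i
  have hsymm : ∀ u v, B u v = B v u := fun u v => sum_congr rfl fun i _ => by ring
  have hsub : ∀ u u' v, B (fun i => u i - u' i) v = B u v - B u' v := fun u u' v => by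
    simp only [B, ← sum_sub_distrib]
    exact sum_congr rfl fun i _ => by ring
  have hadd : ∀ u u' v, B (fun i => u i + 3 * u' i) v = B u v + 3 * B u' v := fun u u' v => by
    simp only [B, mul_sum, ← sum_add_distrib]
    exact sum_congr rfl fun i _ => by ring
  set y : ι → ℂ := fun i => (χ i : G → ℂ) r
  set z : ι → ℂ := fun i => (χ i : G → ℂ) c
  have bxx : B x x = 1 := e11.trans (by norm_num)
  have bxy : B x y = 1 := e1r.trans (by norm_num)
  have byy : B y y = 1 := err.trans (by norm_num)
  have bxz : B x z = -3 := e1c.trans (by norm_num)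
  have bzy : B z y = -3 := ecr.trans (by norm_num)
  have bnx : B n x = 0 := by rw [hsub y x x, hsymm y x, bxy, bxx, sub_self]
  have bnn : B n n = 0 := by
    rw [hsub y x n, hsymm y n, hsymm x n, hsub y x y, hsub y x x, byy, bxy, hsymm y x, bxy, bxx]
    ring
  have bwx : B w x = 0 := by rw [hadd z x x, hsymm z x, bxz, bxx]; norm_num
  have bwn : B w n = 0 := by
    rw [hsymm w n, hsub y x w, hsymm y w, hsymm x w, hadd z x y, bwx, bzy, bxy]
    norm_num
  have bww : B w w = avgProd θ c c - 8 := by
    rw [hadd z x w, hsymm x w, bwx, hsymm z w, hadd z x z, bxz, show B z z = _ from ecc]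
    ring
  have h0 := eq_zero_of_isotropic (k := 2) (by omega) _ hw ![n, x, w]
    (fun s t hst => by
      change B _ _ = 0
      fin_cases s <;> fin_cases t <;>
        first
          | exact absurd rfl hst
          | exact bnx | exact bwn | exact bwx
          | exact (hsymm _ _).trans bnx | exact (hsymm _ _).trans bwn
          | exact (hsymm _ _).trans bwx)
    bnn
    (fun s hs => by
      change B _ _ ≠ 0
      fin_cases s
      · exact absurd rfl hs
      · intro h
        exact one_ne_zero (bxx.symm.trans h)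
      · intro h
        exact hW (bww.symm.trans h))
  obtain ⟨i⟩ : Nonempty ι := by
    by_contra hc
    rw [not_nonempty_iff] at hc
    simp at e11
  exact hr (eq_one_of_apply_eq_degree (hne i) (sub_eq_zero.1 (congrFun h0 i)))

end CfsgLib.CentralFour
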