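import Cfsg.Agent.Lib.CentralFour.Count
import Cfsg.Agent.Lib.CentralFour.Kernel
import Cfsg.Agent.Lib.CharTheory.PermChar
import Cfsg.Agent.Lib.Coherence.Virtual
import Cfsg.Agent.Lib.ReflectionsSpinor.POmegaQuotThms

/-!
# Non-abelian Sylow 2-subgroups with centre of index four in simple groups are dihedral
-/

set_option autoImplicit false
set_option linter.unusedSectionVars false
set_option linter.style.haveILetI false

open scoped ComplexConjugate
open Finset Cfsg CfsgLib.CharTheory

namespace CfsgLib.CentralFour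

variable {G : Type*} [Group G] [Fintype G] (hG : Good G) (P : Sylow 2 G) {x y : G} {U : Subgroup G}
  (H : Shape (P : Subgroup G) (cgen hG P) x y U)

local notation "π" => CfsgLib.BlockStar.ppart 2

open scoped Classical in
/-- The class function of the 2-part. -/
noncomputable def theta (A B : Set G) (g : G) : ℂ :=
  if π g ∈ classes ⊤ A then 4 else if π g ∈ classes ⊤ B then 2 else 0

theorem classes_conj {A : Set G} {t b : G} :
    b * t * b⁻¹ ∈ classes ⊤ A ↔ t ∈ classes ⊤ A := by
  constructor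
  · rintro ⟨h, -, s, hs, e⟩
    refine ⟨b⁻¹ * h, Subgroup.mem_top _, s, hs, ?_⟩
    rw [show b⁻¹ * h * s * (b⁻¹ * h)⁻¹ = b⁻¹ * (h * s * h⁻¹) * b by group, e]
    group
  · rintro ⟨h, -, s, hs, e⟩
    exact ⟨b * h, Subgroup.mem_top _, s, hs, by rw [← e]; group⟩

include hG H

theorem Shape.not_p_of_mem {s : G} (hs : s ∈ U) : s ∉ classes ⊤ (pSet (cgen hG P) U) := by
  rintro ⟨h, -, _, ⟨u, hu, rfl⟩, e⟩
  exact H.pU_not_conj hG P (g := h) hu (e.symm ▸ hs)

theorem Shape.not_q_of_sq_mem {s : G} (hs : s * s ∈ U) : s ∉ classes ⊤ (qSet x y U) := by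
  rintro ⟨h, -, _, ⟨u, hu, rfl⟩, e⟩
  refine H.xyU_sq_not_conj hG P (g := h) hu ?_
  rwa [show h * (x * y * u * (x * y * u)) * h⁻¹
    = h * (x * y * u) * h⁻¹ * (h * (x * y * u) * h⁻¹) by group, e]

theorem Shape.theta_u {s : G} (hs : s ∈ U) :
    theta (pSet (cgen hG P) U) (qSet x y U) s = 0 := by
  have hπ : π s = s := twoPart_of_twoElement (exists_twoPow_of_mem P.2 (H.u_mem hG P hs))
  rw [theta, hπ, if_neg (H.not_p_of_mem hG P hs), if_neg (H.not_q_of_sq_mem hG P (mul_mem hs hs))]

theorem Shape.index_cx {a : G} (ha : a ∈ (P : Subgroup G)) (han : a ∉ zc (P : Subgroup G)) :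
    ((cx (P : Subgroup G) a).subgroupOf (P : Subgroup G)).index = 2 := by
  have h1 := Subgroup.card_mul_index ((cx (P : Subgroup G) a).subgroupOf (P : Subgroup G))
  rw [Nat.card_congr (Subgroup.subgroupOfEquivOfLe
      (show cx (P : Subgroup G) a ≤ (P : Subgroup G) from inf_le_left)).toEquiv,
    H.core.card_cx ha han, H.core.card] at h1
  have h0 : 0 < Nat.card (zc (P : Subgroup G)) := Nat.card_pos
  refine Nat.eq_of_mul_eq_mul_left (show 0 < 2 * Nat.card (zc (P : Subgroup G)) by omega) ?_
  rw [h1]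
  ring

theorem Shape.exists_sign {a : G} (ha : a ∈ (P : Subgroup G)) (han : a ∉ zc (P : Subgroup G)) :
    ∃ l : (P : Subgroup G) →* ℂˣ, ∀ s : (P : Subgroup G),
      ((s : G) ∈ cx (P : Subgroup G) a → (l s : ℂ) = 1) ∧
      ((s : G) ∉ cx (P : Subgroup G) a → (l s : ℂ) = -1) := by
  classical
  refine ⟨MonoidHom.mk' (fun s => if (s : G) ∈ cx (P : Subgroup G) a then 1 else -1)
    (fun s t => ?_), fun s => ⟨fun h => by simp [h], fun h => by simp [h]⟩⟩
  have h : ((s : G) * t ∈ cx (P : Subgroup G) a) ↔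
      ((s : G) ∈ cx (P : Subgroup G) a ↔ (t : G) ∈ cx (P : Subgroup G) a) :=
    Subgroup.mul_mem_iff_of_index_two (H.index_cx hG P ha han) (a := s) (b := t)
  simp only [Subgroup.coe_mul]
  by_cases hs : (s : G) ∈ cx (P : Subgroup G) a <;> by_cases ht : (t : G) ∈ cx (P : Subgroup G) a <;>
    simp [h, hs, ht]

/-- On `P` the function is a generalized character. -/
theorem Shape.theta_isGeneralizedCharacter :
    IsGeneralizedCharacter (P : Subgroup G)
      (fun s : (P : Subgroup G) => theta (pSet (cgen hG P) U) (qSet x y U) (s : G)) := by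
  classical
  have hP := H.core
  set p := cgen hG P with hp
  have hpi : p⁻¹ = p := hP.inv_eq
  have hxi : x⁻¹ = x := inv_eq_of_mul_eq_one_right H.sqx
  have hyi : y⁻¹ = y := inv_eq_of_mul_eq_one_right H.sqy
  have hpc : ∀ w, w ∈ (P : Subgroup G) → w * p = p * w := (mem_zc.1 hP.mem).2
  -- the subgroup generated by `x` and `U`
  let Hs : Subgroup (P : Subgroup G) :=
    { carrier := {s | (s : G) ∈ U ∨ x * (s : G) ∈ U}
      mul_mem' := by
        intro s t hs ht
        simp only [Set.mem_ofPred_eq, Subgroup.coe_mul] at hs ht ⊢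
        rcases hs with hs | hs <;> rcases ht with ht | ht
        · exact Or.inl (mul_mem hs ht)
        · right
          rw [← mul_assoc, H.u_comm hG P hs H.memx, mul_assoc]
          exact mul_mem hs ht
        · right
          rw [← mul_assoc]
          exact mul_mem hs ht
        · left
          have := mul_mem hs ht
          rwa [← mul_assoc, ← H.u_comm hG P hs H.memx, ← mul_assoc, H.sqx, one_mul] at this
      one_mem' := Or.inl (one_mem _)
      inv_mem' := by
        intro s hs
        simp only [Set.mem_ofPred_eq, Subgroup.coe_inv] at hs ⊢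
        rcases hs with hs | hs
        · exact Or.inl (inv_mem hs)
        · right
          have e : (s : G) * x = x * (s : G) := by
            have h := H.u_comm hG P hs H.memx
            rw [← mul_assoc, H.sqx, one_mul] at h
            calc (s : G) * x = x * (s : G) * x * x := by rw [← h]
              _ = x * (s : G) * (x * x) := by group
              _ = x * (s : G) := by rw [H.sqx, mul_one]
          rw [show x * (s : G)⁻¹ = ((s : G) * x)⁻¹ by rw [mul_inv_rev, hxi], e]
          exact inv_mem hs }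
  have hHs : ∀ s : (P : Subgroup G), s ∈ Hs ↔ (s : G) ∈ U ∨ x * (s : G) ∈ U := fun s => Iff.rfl
  -- four representatives
  let pP : (P : Subgroup G) := ⟨p, hP.mem_R⟩
  let xP : (P : Subgroup G) := ⟨x, H.memx⟩
  let yP : (P : Subgroup G) := ⟨y, H.memy⟩
  let rep : Bool × Bool → (P : Subgroup G) := fun jk => cond jk.1 yP 1 * cond jk.2 pP 1
  have hZHs : ∀ s : (P : Subgroup G), s ∈ Hs →
      (s : G) ∈ zc (P : Subgroup G) ∨ x⁻¹ * (s : G) ∈ zc (P : Subgroup G) := fun s hs =>
    ((hHs s).1 hs).imp (fun h => H.U_le h) fun h => by rw [hxi]; exact H.U_le h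
  have hpHs : pP ∉ Hs := by
    intro h
    rcases (hHs _).1 h with h | h
    · exact H.np h
    · refine H.nx ?_
      have := mul_mem (H.U_le h) (inv_mem hP.mem)
      rwa [mul_inv_cancel_right] at this
  have hyHs : ∀ z : (P : Subgroup G), (z : G) ∈ zc (P : Subgroup G) → yP * z ∉ Hs := by
    intro z hz h
    rcases hZHs _ h with h | h
    · have := mul_mem h (inv_mem hz)
      rw [Subgroup.coe_mul, mul_inv_cancel_right] at this
      exact H.ny this
    · have := mul_mem h (inv_mem hz)
      rw [Subgroup.coe_mul, ← mul_assoc, mul_inv_cancel_right] at this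
      exact H.nxy this
  have hbij : Function.Bijective (fun jk => (QuotientGroup.mk (rep jk) : (P : Subgroup G) ⧸ Hs)) := by
    constructor
    · have hd : ∀ jk jk', jk.1 = jk'.1 →
          (rep jk)⁻¹ * rep jk' ∈ Hs → jk = jk' := by
        rintro ⟨j, k⟩ ⟨j', k'⟩ rfl h
        simp only [rep, mul_inv_rev, mul_assoc, inv_mul_cancel_left] at h
        rcases k <;> rcases k' <;> simp only [cond_true, cond_false, inv_one, one_mul, mul_one] at h
        · rfl
        · exact absurd h hpHs
        · exact absurd (inv_mem_iff.1 h) hpHs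
        · rfl
      rintro ⟨j, k⟩ ⟨j', k'⟩ e
      rw [QuotientGroup.eq] at e
      rcases j <;> rcases j'
      · exact hd _ _ rfl e
      · exfalso
        simp only [rep, cond_true, cond_false, one_mul] at e
        refine hyHs ((cond k pP 1)⁻¹ * cond k' pP 1) ?_ ?_
        · rcases k <;> rcases k' <;> simp [pP, hP.mem, one_mem]
        · have hc : (cond k pP 1)⁻¹ * yP = yP * (cond k pP 1)⁻¹ := by
            rcases k
            · simp
            · exact Subtype.ext (by simp [pP, yP, hpi, hpc y H.memy])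
          rwa [← mul_assoc, ← hc, mul_assoc]
      · exfalso
        have e' := inv_mem e
        simp only [rep, mul_inv_rev, inv_inv, cond_true, cond_false, one_mul] at e'
        refine hyHs ((cond k' pP 1)⁻¹ * cond k pP 1) ?_ ?_
        · rcases k <;> rcases k' <;> simp [pP, hP.mem, one_mem]
        · have hc : (cond k' pP 1)⁻¹ * yP = yP * (cond k' pP 1)⁻¹ := by
            rcases k'
            · simp
            · exact Subtype.ext (by simp [pP, yP, hpi, hpc y H.memy])
          rwa [← mul_assoc, ← hc, mul_assoc]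
      · exact hd _ _ rfl e
    · intro q
      obtain ⟨w, rfl⟩ := QuotientGroup.mk_surjective q
      have hz : ∀ v : (P : Subgroup G), (v : G) ∈ zc (P : Subgroup G) →
          ∃ k : Bool, (cond k pP 1)⁻¹ * v ∈ Hs := by
        intro v hv
        rcases H.split _ hv with h | h
        · exact ⟨false, by simpa [hHs] using Or.inl h⟩
        · exact ⟨true, (hHs _).2 (Or.inl (by simpa [pP, hpi] using h))⟩
      have hxHs : xP ∈ Hs := (hHs _).2 (Or.inr (by simp [xP, H.sqx, one_mem]))
      have hxz : ∀ v : (P : Subgroup G), (v : G) ∈ zc (P : Subgroup G) → ∀ k : Bool,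
          (cond k pP 1)⁻¹ * v ∈ Hs → (cond k pP 1)⁻¹ * (xP * v) ∈ Hs := by
        intro v _ k h
        have hc : (cond k pP 1)⁻¹ * xP = xP * (cond k pP 1)⁻¹ := by
          rcases k
          · simp
          · exact Subtype.ext (by simp [pP, xP, hpi, hpc x H.memx])
        rw [← mul_assoc, hc, mul_assoc]
        exact mul_mem hxHs h
      rcases hP.cov x H.memx y H.memy H.nx H.ny H.nxy w w.2 with h | h | h | h
      · obtain ⟨k, hk⟩ := hz w h
        exact ⟨(false, k), QuotientGroup.eq.2 (by simpa [rep] using hk)⟩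
      · obtain ⟨k, hk⟩ := hz (xP⁻¹ * w) h
        refine ⟨(false, k), QuotientGroup.eq.2 ?_⟩
        have := hxz _ h k hk
        rw [mul_inv_cancel_left] at this
        simpa [rep] using this
      · obtain ⟨k, hk⟩ := hz (yP⁻¹ * w) h
        exact ⟨(true, k), QuotientGroup.eq.2 (by simpa [rep, mul_assoc] using hk)⟩
      · -- `x y z = y x p z`
        set z : (P : Subgroup G) := pP * ((xP * yP)⁻¹ * w) with hzdef
        have hzZ : (z : G) ∈ zc (P : Subgroup G) := mul_mem hP.mem h
        obtain ⟨k, hk⟩ := hz z hzZ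
        refine ⟨(true, k), QuotientGroup.eq.2 ?_⟩
        have := hxz z hzZ k hk
        have e : w = yP * (xP * z) := by
          refine Subtype.ext ?_
          simp only [hzdef, xP, yP, pP, Subgroup.coe_mul, Subgroup.coe_inv]
          calc (w : G) = (p * p) * ((x * y) * ((x * y)⁻¹ * w)) := by rw [hP.sq]; group
            _ = p * ((p * (x * y)) * ((x * y)⁻¹ * w)) := by group
            _ = p * (y * x) * ((x * y)⁻¹ * w) := by rw [← H.yx]; group
            _ = y * x * p * ((x * y)⁻¹ * w) := by rw [hpc _ (mul_mem H.memy H.memx)]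
            _ = _ := by group
        simpa [rep, e, mul_assoc] using this
  haveI : Finite ((P : Subgroup G) ⧸ Hs) := inferInstance
  set perm : ↥(P : Subgroup G) → ℂ :=
    fun s => (Nat.card (MulAction.fixedBy ((P : Subgroup G) ⧸ Hs) s) : ℂ) with hperm
  have hpermc : IsCharacter (P : Subgroup G) perm :=
    isCharacter_card_fixedBy (G := (P : Subgroup G)) ((P : Subgroup G) ⧸ Hs)
  have hfix : ∀ s : (P : Subgroup G), perm s
      = (if s ∈ Hs then 2 else 0) + (if yP * s * yP⁻¹ ∈ Hs then 2 else 0) := by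
    intro s
    have e : Nat.card (MulAction.fixedBy ((P : Subgroup G) ⧸ Hs) s)
        = (univ.filter fun jk : Bool × Bool => (rep jk)⁻¹ * s * rep jk ∈ Hs).card := by
      rw [← Fintype.card_subtype, ← Nat.card_eq_fintype_card]
      refine (Nat.card_congr (Equiv.subtypeEquiv (Equiv.ofBijective _ hbij) fun jk => ?_)).symm
      show _ ↔ s • (QuotientGroup.mk (rep jk) : (P : Subgroup G) ⧸ Hs) = _
      rw [Equiv.ofBijective_apply, MulAction.Quotient.smul_mk, smul_eq_mul, eq_comm, QuotientGroup.eq, mul_assoc]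
    have hc : ∀ jk, ((rep jk)⁻¹ * s * rep jk ∈ Hs) ↔
        (cond jk.1 (yP * s * yP⁻¹) s ∈ Hs) := by
      rintro ⟨j, k⟩
      have hcen : ∀ v : (P : Subgroup G), (cond k pP 1)⁻¹ * v * cond k pP 1 = v := by
        intro v
        rcases k
        · simp
        · exact Subtype.ext (by simp [pP, mul_assoc, hpc v v.2, hpi, ← mul_assoc p, hP.sq])
      rcases j
      · simp only [rep, cond_false, one_mul, hcen]
      · simp only [rep, cond_true, mul_inv_rev]
        rw [show (cond k pP 1)⁻¹ * yP⁻¹ * s * (yP * cond k pP 1)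
          = (cond k pP 1)⁻¹ * (yP⁻¹ * s * yP) * cond k pP 1 by group, hcen]
        have hy' : yP⁻¹ = yP := Subtype.ext hyi
        rw [hy']
    simp only [hperm]
    rw [e, Finset.card_filter, Fintype.sum_prod_type]
    simp only [hc, Fintype.sum_bool, cond_true, cond_false]
    split_ifs <;> norm_num
  obtain ⟨a, ha⟩ := H.exists_sign hG P (mul_mem H.memx H.memy)
    (by simpa using (H.xy_not_mem hG P (one_mem U)).1)
  obtain ⟨b, hb⟩ := H.exists_sign hG P H.memx H.nx
  refine ⟨fun s => ((4 : ℕ) • (1 : ↥(P : Subgroup G) → ℂ)) s + (b s : ℂ),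
    fun s => (a s : ℂ) + perm s,
    CfsgLib.Coherence.isCharacter_add (CfsgLib.Brauer.isCharacter_nsmul
      CfsgLib.Brauer.isCharacter_one 4) (CfsgLib.Brauer.isCharacter_monoidHom b),
    CfsgLib.Coherence.isCharacter_add (CfsgLib.Brauer.isCharacter_monoidHom a) hpermc, ?_⟩
  funext s
  simp only [Pi.sub_apply, Pi.smul_apply, Pi.one_apply, nsmul_eq_mul, mul_one]
  push_cast
  rw [hfix]
  have hπ : π (s : G) = (s : G) := twoPart_of_twoElement (exists_twoPow_of_mem P.2 s.2)
  have hys : ((yP * s * yP⁻¹ : (P : Subgroup G)) : G) = y * (s : G) * y⁻¹ := rfl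
  have hmemA : ∀ c : G, c ∈ (P : Subgroup G) → c ∉ zc (P : Subgroup G) →
      ((s : G) ∈ cx (P : Subgroup G) c ↔ (s : G) ∈ zc (P : Subgroup G) ∨
        c⁻¹ * (s : G) ∈ zc (P : Subgroup G)) := fun c hc hcn =>
    (hP.mem_cx_iff hc hcn).trans (and_iff_right s.2)
  have hxyn : x * y ∉ zc (P : Subgroup G) := by
    simpa using (H.xy_not_mem hG P (one_mem U)).1
  -- the three cosets outside the centre exclude one another
  have hex1 : x⁻¹ * (s : G) ∈ zc (P : Subgroup G) →
      (s : G) ∉ zc (P : Subgroup G) ∧ (x * y)⁻¹ * (s : G) ∉ zc (P : Subgroup G) := fun h =>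
    ⟨fun h' => H.nx (by
      have := mul_mem h' (inv_mem h)
      rwa [mul_inv_rev, inv_inv, mul_inv_cancel_left] at this),
    fun h' => H.ny (by
      have := mul_mem h (inv_mem h')
      rwa [show x⁻¹ * (s : G) * ((x * y)⁻¹ * (s : G))⁻¹ = y by group] at this)⟩
  have hyz : ∀ {w : G}, w ∈ zc (P : Subgroup G) → y * w * y⁻¹ = w := fun hw => by
    rw [(mem_zc.1 hw).2 y H.memy, mul_inv_cancel_right]
  rcases hP.cov x H.memx y H.memy H.nx H.ny H.nxy s s.2 with h | h | h | h
  · -- the centre
    rw [(ha s).1 ((hmemA _ (mul_mem H.memx H.memy) hxyn).2 (Or.inl h)),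
      (hb s).1 ((hmemA _ H.memx H.nx).2 (Or.inl h)),
      show yP * s * yP⁻¹ = s from Subtype.ext (hys.trans (hyz h))]
    rcases H.split _ h with h' | h'
    · rw [H.theta_u hG P h', if_pos ((hHs s).2 (Or.inl h'))]
      norm_num
    · have hcls : (s : G) ∈ classes ⊤ (pSet p U) :=
        ⟨1, one_mem _, _, ⟨_, h', rfl⟩, by rw [← mul_assoc p, hP.sq]; group⟩
      rw [theta, hπ, if_pos hcls, if_neg]
      · norm_num
      · intro hs
        rcases (hHs s).1 hs with h'' | h''
        · refine H.np ?_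
          have := mul_mem h' (inv_mem h'')
          rwa [mul_inv_cancel_right] at this
        · refine H.nx ?_
          have := mul_mem (H.U_le h'') (inv_mem h)
          rwa [mul_inv_cancel_right] at this
  · -- the coset of `x`
    obtain ⟨hsn, hsxy⟩ := hex1 h
    rw [theta, hπ, if_pos (H.mem_classes_p hG P s.2 (Or.inl h)),
      (hb s).1 ((hmemA _ H.memx H.nx).2 (Or.inr h)),
      (ha s).2 (fun hA => ((hmemA _ (mul_mem H.memx H.memy) hxyn).1 hA).elim hsn hsxy)]
    have hy : x⁻¹ * ((yP * s * yP⁻¹ : (P : Subgroup G)) : G) = p * (x⁻¹ * (s : G)) := by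
      rw [hys]
      calc x⁻¹ * (y * (s : G) * y⁻¹) = x⁻¹ * ((y * x) * (x⁻¹ * (s : G)) * y⁻¹) := by group
        _ = x⁻¹ * (p * x) * (y * (x⁻¹ * (s : G)) * y⁻¹) := by rw [H.yx]; group
        _ = x⁻¹ * (x * p) * (x⁻¹ * (s : G)) := by rw [hyz h, hpc x H.memx]
        _ = _ := by group
    rcases H.split _ h with h' | h'
    · rw [if_pos ((hHs s).2 (Or.inr (by rwa [hxi] at h'))), if_neg]
      · norm_num
      · intro hs
        rcases (hHs _).1 hs with h'' | h''
        · refine H.nx ?_
          have := mul_mem (H.U_le h'') (inv_mem (mul_mem hP.mem h))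
          rwa [← hy, show ((yP * s * yP⁻¹ : (P : Subgroup G)) : G) *
            (x⁻¹ * ((yP * s * yP⁻¹ : (P : Subgroup G)) : G))⁻¹ = x by group] at this
        · rw [← hxi, hy] at h''
          refine H.np ?_
          have := mul_mem h'' (inv_mem h')
          rwa [mul_inv_cancel_right] at this
    · rw [if_neg, if_pos]
      · norm_num
      · refine (hHs _).2 (Or.inr ?_)
        rw [← hxi, hy]
        exact h'
      · intro hs
        rcases (hHs _).1 hs with h'' | h''
        · exact hsn (H.U_le h'')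
        · rw [← hxi] at h''
          refine H.np ?_
          have := mul_mem h' (inv_mem h'')
          rwa [mul_inv_cancel_right] at this
  · -- the coset of `y`
    have hsn : (s : G) ∉ zc (P : Subgroup G) := fun h' => H.ny (by
      have := mul_mem h' (inv_mem h)
      rwa [mul_inv_rev, inv_inv, mul_inv_cancel_left] at this)
    have hsx : x⁻¹ * (s : G) ∉ zc (P : Subgroup G) := fun h' => H.nxy (by
      have := mul_mem h' (inv_mem h)
      rwa [show x⁻¹ * (s : G) * (y⁻¹ * (s : G))⁻¹ = x⁻¹ * y by group] at this)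
    have hsxy : (x * y)⁻¹ * (s : G) ∉ zc (P : Subgroup G) := fun h' => by
      have hz := mul_mem h' (inv_mem h)
      rw [show (x * y)⁻¹ * (s : G) * (y⁻¹ * (s : G))⁻¹ = y⁻¹ * x⁻¹ * y by group] at hz
      refine H.nx ?_
      have e := hyz hz
      rw [show y * (y⁻¹ * x⁻¹ * y) * y⁻¹ = x⁻¹ by group] at e
      exact inv_mem_iff.1 (e ▸ hz)
    have e1 : s ∉ Hs := fun hs => (hZHs s hs).elim hsn hsx
    have e2 : yP * s * yP⁻¹ ∉ Hs := by
      intro hs
      have e : yP * s * yP⁻¹ = s := by
        refine Subtype.ext (hys.trans ?_)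
        calc y * (s : G) * y⁻¹ = y * (y * (y⁻¹ * (s : G)) * y⁻¹) := by group
          _ = y * (y⁻¹ * (s : G)) := by rw [hyz h]
          _ = (s : G) := by group
      exact e1 (e ▸ hs)
    rw [theta, hπ, if_pos (H.mem_classes_p hG P s.2 (Or.inr h)), if_neg e1, if_neg e2,
      (hb s).2 (fun hA => ((hmemA _ H.memx H.nx).1 hA).elim hsn hsx),
      (ha s).2 (fun hA => ((hmemA _ (mul_mem H.memx H.memy) hxyn).1 hA).elim hsn hsxy)]
    norm_num
  · -- the coset of `x y`
    have hsn : (s : G) ∉ zc (P : Subgroup G) := fun h' => hxyn (by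
      have := mul_mem h' (inv_mem h)
      rwa [mul_inv_rev, inv_inv, mul_inv_cancel_left] at this)
    have hsx : x⁻¹ * (s : G) ∉ zc (P : Subgroup G) := fun h' => (hex1 h').2 h
    obtain ⟨r, hr, t, ⟨u, hu, rfl⟩, er⟩ := H.mem_classes_q hG P s.2 h
    have hq : (s : G) ∈ classes ⊤ (qSet x y U) :=
      ⟨r, Subgroup.mem_top r, _, ⟨u, hu, rfl⟩, er⟩
    have hnp : (s : G) ∉ classes ⊤ (pSet p U) := by
      rintro ⟨g, -, _, ⟨u', hu', rfl⟩, e⟩
      refine H.not_q_of_sq_mem hG P ?_ hq
      have := H.pU_sq_conj hG P hu' (g := g) (e.symm ▸ s.2)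
      rwa [show g * (p * u' * (p * u')) * g⁻¹ = g * (p * u') * g⁻¹ * (g * (p * u') * g⁻¹) by group,
        e] at this
    have e1 : s ∉ Hs := fun hs => (hZHs s hs).elim hsn hsx
    have e2 : yP * s * yP⁻¹ ∉ Hs := by
      intro hs
      rcases hP.comm' H.memy s.2 with e | e
      · exact e1 (by rwa [show yP * s * yP⁻¹ = s from Subtype.ext (hys.trans e)] at hs)
      · rcases hZHs _ hs with h' | h' <;> rw [hys, e] at h'
        · refine hsn ?_
          have := mul_mem hP.mem h'
          rwa [← mul_assoc, hP.sq, one_mul] at this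
        · refine hsx ?_
          have := mul_mem h' hP.mem
          rwa [show x⁻¹ * (p * (s : G)) * p = x⁻¹ * (p * ((s : G) * p)) by group, hpc _ s.2,
            ← mul_assoc p, hP.sq, one_mul] at this
    rw [theta, hπ, if_neg hnp, if_pos hq, if_neg e1, if_neg e2,
      (hb s).2 (fun hA => ((hmemA _ H.memx H.nx).1 hA).elim hsn hsx),
      (ha s).1 ((hmemA _ (mul_mem H.memx H.memy) hxyn).2 (Or.inr h))]
    norm_num

theorem Shape.u_eq_bot [IsSimpleGroup G] : U = ⊥ := by
  classical
  haveI : Fact (Nat.Prime 2) := ⟨Nat.prime_two⟩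
  by_contra hU
  obtain ⟨r, hrU, hr1, hr2⟩ : ∃ r ∈ U, r ≠ 1 ∧ r * r = 1 := by
    have hUP : U ≤ (P : Subgroup G) := fun u hu => H.u_mem hG P hu
    obtain ⟨k, hk⟩ := IsPGroup.iff_card.1 (P.2.to_le hUP)
    have hk0 : k ≠ 0 := fun e => hU (Subgroup.eq_bot_of_card_eq U (by rw [hk, e, pow_zero]))
    obtain ⟨r, hr⟩ := exists_prime_orderOf_dvd_card' (G := U) 2 (hk ▸ dvd_pow_self 2 hk0)
    refine ⟨r, r.2, fun e => ?_, ?_⟩
    · rw [show r = 1 from Subtype.ext e, orderOf_one] at hr
      omega
    · rw [← Subgroup.coe_mul, ← pow_two, ← hr, pow_orderOf_eq_one, Subgroup.coe_one]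
  set θ := theta (pSet (cgen hG P) U) (qSet x y U) with hθ
  have hθc : IsClassFunction G θ := fun g b => by
    simp only [hθ, theta, CfsgLib.BlockStar.ppart_conj, classes_conj]
  have hθπ : ∀ g, θ g = θ (π g) := fun g => by simp only [hθ, theta, twoPart_twoPart]
  have hθgen : IsGeneralizedCharacter G θ :=
    isGeneralizedCharacter_of_twoPart P hθc hθπ (H.theta_isGeneralizedCharacter hG P)
  -- conjugates of `r` in `P` lie in `U`
  have hconjU : ∀ b : G, b * r * b⁻¹ ∈ (P : Subgroup G) → b * r * b⁻¹ ∈ U := fun b hb =>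
    H.closed hG P hrU hb
  have hcen : ∀ Q : Subgroup G, IsPGroup 2 Q → r ∈ Q → ∀ w ∈ Q, Commute w r := by
    intro Q hQ hrQ w hw
    obtain ⟨b, hb⟩ := exists_conj_mem_sylow P hQ
    have e := H.u_comm hG P (hconjU b (hb r hrQ)) (hb w hw)
    calc w * r = b⁻¹ * ((b * w * b⁻¹) * (b * r * b⁻¹)) * b := by group
      _ = b⁻¹ * ((b * r * b⁻¹) * (b * w * b⁻¹)) * b := by rw [e]
      _ = r * w := by group
  have hrr : ∀ a, θ (a * r * a⁻¹ * r) = 0 := by
    intro a
    have hd : a * r * a⁻¹ * (a * r * a⁻¹) = 1 := by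
      calc _ = a * (r * r) * a⁻¹ := by group
        _ = 1 := by rw [hr2]; group
    obtain ⟨-, htr, hconj⟩ := twoPart_mul_involution (r := r) (d := a * r * a⁻¹) hr2 hd hcen
    set t := π (a * r * a⁻¹ * r) with ht
    have hQ : IsPGroup 2 (Subgroup.zpowers t ⊔ Subgroup.zpowers r : Subgroup G) :=
      IsPGroup.to_sup_of_normal_left' (isPGroup_zpowers' (exists_orderOf_twoPart _))
        (isPGroup_zpowers' (exists_twoPow_of_mem P.2 (H.u_mem hG P hrU))) (Subgroup.zpowers_le.2
          (Subgroup.centralizer_le_normalizer _ (Subgroup.mem_centralizer_iff.2 (by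
            rintro _ ⟨i, rfl⟩
            exact (htr.zpow_left i).eq))))
    obtain ⟨b, hb⟩ := exists_conj_mem_sylow P hQ
    have hbt := hb t (Subgroup.mem_sup_left (Subgroup.mem_zpowers _))
    have hbr := hb r (Subgroup.mem_sup_right (Subgroup.mem_zpowers _))
    obtain ⟨c, hc⟩ := isConj_iff.1 hconj
    have h1 : b * t * b⁻¹ * (b * r * b⁻¹) ∈ U := by
      have he : b * t * b⁻¹ * (b * r * b⁻¹) = (b * c⁻¹ * a) * r * (b * c⁻¹ * a)⁻¹ := by
        calc _ = b * (t * r) * b⁻¹ := by group
          _ = b * (c⁻¹ * (c * (t * r) * c⁻¹) * c) * b⁻¹ := by group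
          _ = _ := by rw [hc]; group
      rw [he]
      exact hconjU _ (he ▸ mul_mem hbt hbr)
    have h2 : b * t * b⁻¹ ∈ U := by
      have := mul_mem h1 (inv_mem (hconjU b hbr))
      rwa [mul_inv_cancel_right] at this
    rw [hθπ, ← ht, ← hθc t b]
    exact H.theta_u hG P h2
  -- the averages
  obtain ⟨e8, e4⟩ := H.card_sections hG P
  have hsum : ∀ c₁ c₂ : ℂ, ∑ g : G, (if π g ∈ classes ⊤ (pSet (cgen hG P) U) then c₁ else
      if π g ∈ classes ⊤ (qSet x y U) then c₂ else 0)
      = (Nat.card G : ℂ) * (c₁ / 8 + c₂ / 4) := by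
    intro c₁ c₂
    have hd : ∀ g : G, π g ∈ classes ⊤ (qSet x y U) →
        π g ∉ classes ⊤ (pSet (cgen hG P) U) := by
      intro g hgq hgp
      obtain ⟨b, hb⟩ := exists_conj_mem_sylow P (isPGroup_zpowers' (exists_orderOf_twoPart g))
      have hbP := hb _ (Subgroup.mem_zpowers _)
      obtain ⟨h, -, _, ⟨u, hu, rfl⟩, e⟩ := hgp
      refine H.not_q_of_sq_mem hG P ?_ (classes_conj.2 hgq : b * π g * b⁻¹ ∈ _)
      have := H.pU_sq_conj hG P hu (g := b * h) (by
        rwa [show b * h * (cgen hG P * u) * (b * h)⁻¹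
          = b * (h * (cgen hG P * u) * h⁻¹) * b⁻¹ by group, e])
      rwa [show b * h * (cgen hG P * u * (cgen hG P * u)) * (b * h)⁻¹
        = b * (h * (cgen hG P * u) * h⁻¹) * b⁻¹ * (b * (h * (cgen hG P * u) * h⁻¹) * b⁻¹) by group,
        e] at this
    have hsplit : ∀ g : G, (if π g ∈ classes ⊤ (pSet (cgen hG P) U) then c₁ else
        if π g ∈ classes ⊤ (qSet x y U) then c₂ else 0)
        = (if π g ∈ classes ⊤ (pSet (cgen hG P) U) then c₁ else 0) +
          (if π g ∈ classes ⊤ (qSet x y U) then c₂ else 0) := fun g => by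
      by_cases h : π g ∈ classes ⊤ (qSet x y U)
      · simp [h, hd g h]
      · simp [h]
    rw [sum_congr rfl fun g _ => hsplit g, sum_add_distrib, ← sum_filter, ← sum_filter, sum_const,
      sum_const, ← Fintype.card_subtype, ← Fintype.card_subtype, ← Nat.card_eq_fintype_card,
      ← Nat.card_eq_fintype_card, nsmul_eq_mul, nsmul_eq_mul]
    have h8 := congrArg (Nat.cast (R := ℂ)) e8
    have h4 := congrArg (Nat.cast (R := ℂ)) e4
    push_cast at h8 h4
    linear_combination (c₁ / 8) * h8 + (c₂ / 4) * h4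
  have hG0 : (Nat.card G : ℂ) ≠ 0 := Nat.cast_ne_zero.2 Nat.card_pos.ne'
  have hm : classInner θ (fun _ => 1) = 1 := by
    simp only [classInner, map_one, mul_one, hθ, theta]
    rw [hsum 4 2]
    field_simp
    ring
  have hN : classInner θ θ = 3 := by
    simp only [classInner, hθ, theta]
    rw [sum_congr rfl (g := fun g : G => if π g ∈ classes ⊤ (pSet (cgen hG P) U) then (16 : ℂ) else
        if π g ∈ classes ⊤ (qSet x y U) then 4 else 0) fun g _ => by
      split_ifs <;> simp [Complex.conj_ofNat] <;> norm_num, hsum 16 4]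
    field_simp
    ring
  exact false_of_norm_three hθgen hm hN hr1 (H.theta_u hG P (one_mem U)) (H.theta_u hG P hrU) hrr

omit H in
/-- A non-abelian Sylow 2-subgroup with centre of index four of a simple group is dihedral of order
eight. -/
theorem dihedral_of_simple [IsSimpleGroup G] :
    Nat.card (P : Subgroup G) = 8 ∧ Nonempty ((P : Subgroup G) ≃* DihedralGroup 4) := by
  obtain ⟨x, y, U, H⟩ := exists_shape hG P
  have hU := H.u_eq_bot hG P
  have hle : zc (P : Subgroup G) ≤ Subgroup.zpowers (cgen hG P) := by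
    intro z hz
    rcases H.split z hz with h | h <;> rw [hU, Subgroup.mem_bot] at h
    · exact h ▸ one_mem _
    · rw [eq_inv_of_mul_eq_one_right h]
      exact inv_mem (Subgroup.mem_zpowers _)
  have hzc : zc (P : Subgroup G) = Subgroup.zpowers (cgen hG P) :=
    le_antisymm hle (Subgroup.zpowers_le.2 H.core.mem)
  have hcard : Nat.card (P : Subgroup G) = 8 := by
    rw [H.core.card, hzc, Nat.card_zpowers,
      orderOf_eq_prime (by rw [pow_two, H.core.sq]) H.core.ne]
  refine ⟨hcard, CfsgLib.ReflectionsSpinor.POmegaQuot.nonempty_dihedral hcard (a := ⟨x, H.memx⟩)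
    (s := ⟨y, H.memy⟩) (Subtype.ext H.sqx) fun e => ?_⟩
  have e' : y * x = x * y := congrArg Subtype.val e
  rw [H.yx] at e'
  exact H.core.ne (mul_eq_right.1 e')

end CfsgLib.CentralFour
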