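import Cfsg.Agent.Lib.CentralFour.Core

/-!
# The Sylow 2-subgroups over an abelian maximal subgroup

For a group all of whose Sylow 2-subgroups are non-abelian with centre of index four: the centres
and derived subgroups of the Sylow 2-subgroups containing a given abelian maximal subgroup `A` of
one of them.
-/

set_option autoImplicit false
set_option linter.unusedSectionVars false
set_option linter.style.haveILetI false

open scoped Pointwise

namespace CfsgLib.CentralFour

variable {G : Type*} [Group G]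

/-- Each Sylow 2-subgroup is non-abelian with centre of index four. -/
def Good (G : Type*) [Group G] : Prop := ∀ R : Sylow 2 G, ∃ c, Core (R : Subgroup G) c

/-- The generator of the derived subgroup of a Sylow 2-subgroup. -/
noncomputable def cgen (hG : Good G) (R : Sylow 2 G) : G := (hG R).choose

theorem core_cgen (hG : Good G) (R : Sylow 2 G) : Core (R : Subgroup G) (cgen hG R) :=
  (hG R).choose_spec

theorem mem_smul_sylow {R : Sylow 2 G} {g x : G} :
    x ∈ ((g • R : Sylow 2 G) : Subgroup G) ↔ g⁻¹ * x * g ∈ (R : Subgroup G) := by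
  rw [Sylow.coe_subgroup_smul, Subgroup.mem_smul_pointwise_iff_exists]
  constructor
  · rintro ⟨s, hs, rfl⟩
    simpa [MulAut.smul_def, mul_assoc] using hs
  · intro h
    exact ⟨_, h, by simp [MulAut.smul_def, mul_assoc]⟩

theorem conj_mem_smul {R : Sylow 2 G} {g x : G} :
    g * x * g⁻¹ ∈ ((g • R : Sylow 2 G) : Subgroup G) ↔ x ∈ (R : Subgroup G) := by
  rw [mem_smul_sylow]
  simp [mul_assoc]

theorem zc_smul {R : Sylow 2 G} {g x : G} :
    g * x * g⁻¹ ∈ zc ((g • R : Sylow 2 G) : Subgroup G) ↔ x ∈ zc (R : Subgroup G) := by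
  simp only [mem_zc, conj_mem_smul]
  refine and_congr_right fun _ => ⟨fun h r hr => ?_, fun h r hr => ?_⟩
  · have e := h (g * r * g⁻¹) (conj_mem_smul.2 hr)
    calc r * x = g⁻¹ * ((g * r * g⁻¹) * (g * x * g⁻¹)) * g := by group
      _ = g⁻¹ * ((g * x * g⁻¹) * (g * r * g⁻¹)) * g := by rw [e]
      _ = x * r := by group
  · have e := h _ (mem_smul_sylow.1 hr)
    calc r * (g * x * g⁻¹) = g * ((g⁻¹ * r * g) * x) * g⁻¹ := by group
      _ = g * (x * (g⁻¹ * r * g)) * g⁻¹ := by rw [e]
      _ = g * x * g⁻¹ * r := by group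

theorem cgen_smul (hG : Good G) (R : Sylow 2 G) (g : G) :
    cgen hG (g • R) = g * cgen hG R * g⁻¹ := by
  obtain ⟨a, ha, b, hb, hne⟩ := (core_cgen hG R).nonab
  have h' := (core_cgen hG (g • R)).eq_of_ne (conj_mem_smul.2 ha) (conj_mem_smul.2 hb) (fun e => hne (by
    calc a * b = g⁻¹ * ((g * a * g⁻¹) * (g * b * g⁻¹)) * g := by group
      _ = g⁻¹ * ((g * b * g⁻¹) * (g * a * g⁻¹)) * g := by rw [e]
      _ = b * a := by group))
  rw [← h', ← (core_cgen hG R).eq_of_ne ha hb hne]
  group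

theorem smul_eq_of_mem_normalizer {R : Sylow 2 G} {n : G} :
    n ∈ Subgroup.normalizer ((R : Subgroup G) : Set G) ↔ n • R = R :=
  Sylow.smul_eq_iff_mem_normalizer.symm

variable [Finite G]

theorem good_of_sylow (P : Sylow 2 G) (hna : ¬ IsMulCommutative (P : Subgroup G))
    (hZ : (Subgroup.center (P : Subgroup G)).index = 4) : Good G := by
  haveI : Fact (Nat.Prime 2) := ⟨Nat.prime_two⟩
  intro R
  let e : (P : Subgroup G) ≃* (R : Subgroup G) := Sylow.equiv P R
  refine exists_core (fun h => hna ⟨⟨fun a b => e.injective ?_⟩⟩) ?_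
  · rw [map_mul, map_mul]
    exact h.is_comm.comm _ _
  · have h1 := Subgroup.card_mul_index (Subgroup.center (P : Subgroup G))
    have h2 := Subgroup.card_mul_index (Subgroup.center (R : Subgroup G))
    rw [← Nat.card_congr (Subgroup.centerCongr e).toEquiv, ← Nat.card_congr e.toEquiv, ← h1,
      hZ] at h2
    exact Nat.eq_of_mul_eq_mul_left Nat.card_pos h2

/-- A 2-subgroup of `K` lies in a `K`-conjugate of a maximal one. -/
theorem exists_conj_le {K B Q : Subgroup G} (hB : IsPGroup 2 B) (hBK : B ≤ K)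
    (hmax : ∀ S : Subgroup G, IsPGroup 2 S → B ≤ S → S ≤ K → S ≤ B) (hQ : IsPGroup 2 Q)
    (hQK : Q ≤ K) : ∃ k ∈ K, ∀ x ∈ Q, k * x * k⁻¹ ∈ B := by
  haveI : Fact (Nat.Prime 2) := ⟨Nat.prime_two⟩
  obtain ⟨S, hS⟩ := (hB.of_equiv (Subgroup.subgroupOfEquivOfLe hBK).symm).exists_le_sylow
  obtain ⟨k, hk⟩ := exists_conj_mem_sylow S
    (hQ.of_equiv (Subgroup.subgroupOfEquivOfLe hQK).symm)
  refine ⟨k, k.2, fun x hx => ?_⟩
  refine hmax ((S : Subgroup K).map K.subtype) (S.2.map _) ?_ (Subgroup.map_subtype_le _) ?_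
  · intro b hb
    exact ⟨⟨b, hBK hb⟩, hS (Subgroup.mem_subgroupOf.2 hb), rfl⟩
  · exact ⟨_, hk ⟨x, hQK hx⟩ (Subgroup.mem_subgroupOf.2 hx), rfl⟩

/-- A 2-subgroup of a subgroup containing a Sylow 2-subgroup of the group lies in such a one. -/
theorem exists_sylow_le {K Q : Subgroup G} (R : Sylow 2 G) (hR : (R : Subgroup G) ≤ K)
    (hQ : IsPGroup 2 Q) (hQK : Q ≤ K) : ∃ S : Sylow 2 G, Q ≤ S ∧ (S : Subgroup G) ≤ K := by
  obtain ⟨k, hk, h⟩ := exists_conj_le R.2 hR (fun S hS hRS _ => (R.3 hS hRS).le) hQ hQK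
  refine ⟨k⁻¹ • R, fun x hx => mem_smul_sylow.2 (by simpa using h x hx), fun x hx => ?_⟩
  have := mem_smul_sylow.1 hx
  rw [inv_inv] at this
  have h' := mul_mem (mul_mem (inv_mem hk) (hR this)) hk
  simpa [mul_assoc] using h'

/-- Sylow 2-subgroups of the group in a subgroup are conjugate in it. -/
theorem exists_smul_eq_in {K : Subgroup G} {R S : Sylow 2 G} (hR : (R : Subgroup G) ≤ K)
    (hS : (S : Subgroup G) ≤ K) : ∃ k ∈ K, k • R = S := by
  obtain ⟨k, hk, h⟩ := exists_conj_le S.2 hS (fun T hT hST _ => (S.3 hT hST).le) R.2 hR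
  refine ⟨k, hk, Sylow.ext (((k • R : Sylow 2 G).3 S.2 fun x hx => ?_)).symm⟩
  have h' := h _ (mem_smul_sylow.1 hx)
  simpa [mul_assoc] using h'

variable (hG : Good G)

include hG

theorem card_sylow_eq (R S : Sylow 2 G) :
    Nat.card (zc (R : Subgroup G)) = Nat.card (zc (S : Subgroup G)) := by
  haveI : Fact (Nat.Prime 2) := ⟨Nat.prime_two⟩
  have h1 := (core_cgen hG R).card
  have h2 := (core_cgen hG S).card
  rw [Nat.card_congr (Sylow.equiv R S).toEquiv, h2] at h1
  omega

/-- A conjugate of the commutator element lying in the centre equals it. -/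
theorem eq_cgen (R : Sylow 2 G) {g z : G} (hz : z ∈ zc (R : Subgroup G))
    (h : g * cgen hG R * g⁻¹ = z) : z = cgen hG R := by
  haveI : Fact (Nat.Prime 2) := ⟨Nat.prime_two⟩
  have hcen : ∀ w ∈ zc (R : Subgroup G), w ∈ Subgroup.centralizer ((R : Subgroup G) : Set G) :=
    fun w hw => (Subgroup.mem_inf.1 hw).2
  obtain ⟨n, hn, e⟩ := R.conj_eq_normalizer_conj_of_mem_centralizer (cgen hG R) g⁻¹
    (hcen _ (core_cgen hG R).mem) (hcen _ (by rw [inv_inv, h]; exact hz))
  rw [inv_inv, h] at e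
  have hn' : n⁻¹ • R = R := smul_eq_of_mem_normalizer.1 (inv_mem hn)
  have := cgen_smul hG R n⁻¹
  rw [hn', inv_inv] at this
  rw [e, ← this]

variable {P : Sylow 2 G} {a : G} (ha : a ∈ (P : Subgroup G)) (han : a ∉ zc (P : Subgroup G))

include hG ha han

/-- The maximal abelian subgroup is the centralizer of its non-central elements in any Sylow
2-subgroup containing it. -/
theorem cx_eq {S : Sylow 2 G} (hS : cx (P : Subgroup G) a ≤ S) {w : G}
    (hw : w ∈ cx (P : Subgroup G) a) (hwn : w ∉ zc (S : Subgroup G)) :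
    cx (S : Subgroup G) w = cx (P : Subgroup G) a := by
  refine (Subgroup.eq_of_le_of_card_ge ?_ ?_).symm
  · exact fun v hv => mem_cx.2 ⟨hS hv, (core_cgen hG P).cx_abelian ha han hv hw⟩
  · rw [(core_cgen hG S).card_cx (hS hw) hwn, (core_cgen hG P).card_cx ha han,
      card_sylow_eq hG S P]

theorem exists_cx_eq {S : Sylow 2 G} (hS : cx (P : Subgroup G) a ≤ S) :
    ∃ w ∈ (S : Subgroup G), w ∉ zc (S : Subgroup G) ∧
      cx (S : Subgroup G) w = cx (P : Subgroup G) a := by
  obtain ⟨w, hw, hwn⟩ : ∃ w ∈ cx (P : Subgroup G) a, w ∉ zc (S : Subgroup G) := by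
    by_contra h
    push Not at h
    have hle := Subgroup.card_le_of_le (H := cx (P : Subgroup G) a) h
    rw [(core_cgen hG P).card_cx ha han, card_sylow_eq hG P S] at hle
    have : 0 < Nat.card (zc (S : Subgroup G)) := Nat.card_pos
    omega
  exact ⟨w, hS hw, hwn, cx_eq hG ha han hS hw hwn⟩

theorem zc_le {S : Sylow 2 G} (hS : cx (P : Subgroup G) a ≤ S) :
    zc (S : Subgroup G) ≤ cx (P : Subgroup G) a := by
  obtain ⟨w, hw, hwn, e⟩ := exists_cx_eq hG ha han hS
  exact e ▸ zc_le_cx hw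

theorem cgen_mem_cx {S : Sylow 2 G} (hS : cx (P : Subgroup G) a ≤ S) :
    cgen hG S ∈ cx (P : Subgroup G) a :=
  zc_le hG ha han hS (core_cgen hG S).mem

theorem le_normalizer_cx {S : Sylow 2 G} (hS : cx (P : Subgroup G) a ≤ S) :
    (S : Subgroup G) ≤ Subgroup.normalizer (cx (P : Subgroup G) a : Set G) := by
  obtain ⟨w, hw, hwn, e⟩ := exists_cx_eq hG ha han hS
  rw [← e]
  refine fun s hs => Subgroup.mem_normalizer_iff.2 fun x => ⟨fun hx => (core_cgen hG S).cx_conj hw hs hx, fun hx => ?_⟩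
  have := (core_cgen hG S).cx_conj hw (inv_mem hs) hx
  simpa [mul_assoc] using this

/-- The centre is determined by the commutator element. -/
theorem zc_eq {R S : Sylow 2 G} (hR : cx (P : Subgroup G) a ≤ R) (hS : cx (P : Subgroup G) a ≤ S)
    (h : cgen hG S = cgen hG R) : zc (S : Subgroup G) = zc (R : Subgroup G) := by
  set K := Subgroup.normalizer (zc (R : Subgroup G) : Set G) with hK
  have hstep : ∀ T : Sylow 2 G, cx (P : Subgroup G) a ≤ T → cgen hG T = cgen hG R →
      (T : Subgroup G) ≤ K := by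
    intro T hT hc t ht
    have key : ∀ t ∈ (T : Subgroup G), ∀ z ∈ zc (R : Subgroup G), t * z * t⁻¹ ∈ zc (R : Subgroup G) := by
      intro t ht z hz
      rcases (core_cgen hG T).comm' ht (hT (zc_le hG ha han hR hz)) with e | e <;> rw [e]
      · exact hz
      · exact mul_mem (hc ▸ (core_cgen hG R).mem) hz
    refine Subgroup.mem_normalizer_iff.2 fun x => ⟨key t ht x, fun hx => ?_⟩
    have := key t⁻¹ (inv_mem ht) _ hx
    simpa [mul_assoc] using this
  obtain ⟨k, hk, rfl⟩ := exists_smul_eq_in (hstep R hR rfl) (hstep S hS h)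
  ext z
  rw [show z = k * (k⁻¹ * z * k) * k⁻¹ by group, zc_smul,
    ← Subgroup.mem_normalizer_iff.1 hk (k⁻¹ * z * k)]

end CfsgLib.CentralFour
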