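import Cfsg.Agent.Lib.CentralFour.AbelianAverage
import Cfsg.Agent.Lib.CentralFour.Sylows
import Cfsg.Agent.Lib.Involutions.BrauerSuzuki

/-!
# Sections at elements in whose centralizers an involution is isolated

If in the centralizer of each element of `B` the involution `p` is isolated, compatibly with the
fusion in `B`, then the 2-sections of the elements of `B` have the same density in the group and in
the centralizer of `p`.
-/

set_option autoImplicit false
set_option linter.unusedSectionVars false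
set_option linter.style.haveILetI false

open Cfsg

namespace CfsgLib.CentralFour

variable {G : Type*} [Group G] [Fintype G]

local notation "π" => CfsgLib.BlockStar.ppart 2

theorem map_twoPart {H Q : Type*} [Group H] [Finite H] [Group Q] [Finite Q] (f : H →* Q) (h : H) :
    f (π h) = π (f h) := by
  obtain ⟨y, hxy, hc, ⟨k, hk⟩, hy⟩ := CfsgLib.BlockStar.ppart_spec (p := 2) h
  refine (CfsgLib.BlockStar.ppart_eq ⟨f y, by rw [← map_mul, hxy], hc.map f, ?_,
    fun hd => hy (hd.trans (orderOf_map_dvd f y))⟩).symm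
  obtain ⟨j, -, hj⟩ := (Nat.dvd_prime_pow Nat.prime_two).1 (hk ▸ orderOf_map_dvd f (π h))
  exact ⟨j, hj⟩

theorem fib_one_eq (H : Subgroup G) : fib H 1 = Nat.card {g : H // π g = 1} := by
  refine Nat.card_congr (Equiv.subtypeEquivRight fun g => ?_)
  show π (H.subtype g) = 1 ↔ _
  rw [← map_twoPart]
  exact map_eq_one_iff H.subtype H.subtype_injective

theorem card_twoRegular {H Q : Type*} [Group H] [Finite H] [Group Q] [Finite Q] (f : H →* Q)
    (hf : Function.Surjective f) (hker : Odd (Nat.card f.ker)) :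
    Nat.card {h : H // π h = 1} = Nat.card f.ker * Nat.card {q : Q // π q = 1} := by
  have hone : ∀ h : H, π h = 1 ↔ π (f h) = 1 := by
    intro h
    rw [← map_twoPart]
    refine ⟨fun e => by rw [e, map_one], fun e => ?_⟩
    obtain ⟨k, hk⟩ := exists_orderOf_twoPart h
    refine eq_one_of_pow_odd' hker ?_ (hk ▸ pow_orderOf_eq_one _)
    exact congrArg Subtype.val (pow_card_eq_one' (G := f.ker) (x := ⟨π h, e⟩))
  choose s hs using hf
  rw [← Nat.card_prod]
  refine Nat.card_congr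
    { toFun := fun h => (⟨h.1 * (s (f h.1))⁻¹, by simp [MonoidHom.mem_ker, hs]⟩,
        ⟨f h.1, (hone _).1 h.2⟩)
      invFun := fun q => ⟨(q.1 : H) * s (q.2 : Q), (hone _).2 (by
        rw [map_mul, MonoidHom.mem_ker.1 q.1.2, one_mul, hs]
        exact q.2.2)⟩
      left_inv := fun h => by ext; simp
      right_inv := fun q => by
        have e : f ((q.1 : H) * s (q.2 : Q)) = q.2 := by
          rw [map_mul, MonoidHom.mem_ker.1 q.1.2, one_mul, hs]
        refine Prod.ext (Subtype.ext ?_) (Subtype.ext e)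
        simp [e] }
where
  eq_one_of_pow_odd' {M : Type _} [Monoid M] {x : M} {m k : ℕ} (hm : Odd m) (h : x ^ m = 1)
      (h2 : x ^ 2 ^ k = 1) : x = 1 := by
    have h1 : Nat.Coprime m (2 ^ k) :=
      Nat.Coprime.pow_right _ (Nat.coprime_comm.1 ((Nat.Prime.coprime_iff_not_dvd Nat.prime_two).2
        fun hd => (Nat.not_even_iff_odd.2 hm) (even_iff_two_dvd.2 hd)))
    exact orderOf_eq_one_iff.1 (Nat.eq_one_of_dvd_coprimes h1 (orderOf_dvd_of_pow_eq_one h)
      (orderOf_dvd_of_pow_eq_one h2))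

/-- The hypotheses of the transfer of sections. -/
structure IsolatedOn (p : G) (B : Set G) (S : G → Subgroup G) : Prop where
  order : orderOf p = 2
  mem : ∀ s ∈ B, p ∈ S s
  isP : ∀ s ∈ B, IsPGroup 2 (S s)
  cent : ∀ s ∈ B, S s ≤ Subgroup.centralizer {s}
  two : ∀ s ∈ B, ∃ k : ℕ, orderOf s = 2 ^ k
  max : ∀ s ∈ B, ∀ T : Subgroup G, IsPGroup 2 T → S s ≤ T → T ≤ Subgroup.centralizer {s} → T ≤ S s
  iso : ∀ s ∈ B, ∀ s' ∈ B, ∀ g : G, g * s * g⁻¹ = s' → g * p * g⁻¹ ∈ S s' → g * p * g⁻¹ = p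

variable {p : G} {B : Set G} {S : G → Subgroup G}

/-- The conjugates of elements of `B` under `H`. -/
def classes (H : Subgroup G) (B : Set G) : Set G := {t | ∃ h ∈ H, ∃ s ∈ B, h * s * h⁻¹ = t}

theorem IsolatedOn.mem_centralizer (hB : IsolatedOn p B S) {s : G} (hs : s ∈ B) :
    s ∈ Subgroup.centralizer {p} := by
  rw [Subgroup.mem_centralizer_singleton_iff]
  exact (Subgroup.mem_centralizer_singleton_iff.1 (hB.cent s hs (hB.mem s hs))).symm

theorem IsolatedOn.classes_subset (hB : IsolatedOn p B S) {t : G}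
    (ht : t ∈ classes (Subgroup.centralizer {p}) B) : t ∈ Subgroup.centralizer {p} := by
  obtain ⟨h, hh, s, hs, rfl⟩ := ht
  exact mul_mem (mul_mem hh (hB.mem_centralizer hs)) (inv_mem hh)

theorem IsolatedOn.fusion (hB : IsolatedOn p B S) {s s' : G}
    (hs : s ∈ classes (Subgroup.centralizer {p}) B) (hs' : s' ∈ classes (Subgroup.centralizer {p}) B)
    {g : G} (hg : g * s * g⁻¹ = s') :
    ∃ x ∈ Subgroup.centralizer {p}, x * s * x⁻¹ = s' := by
  obtain ⟨a, ha, t, ht, rfl⟩ := hs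
  obtain ⟨b, hb, t', ht', rfl⟩ := hs'
  set g' := b⁻¹ * g * a with hg'
  have e : g' * t * g'⁻¹ = t' := by
    calc g' * t * g'⁻¹ = b⁻¹ * (g * (a * t * a⁻¹) * g⁻¹) * b := by rw [hg']; group
      _ = t' := by rw [hg]; group
  have hq : g' * p * g'⁻¹ ∈ Subgroup.centralizer {t'} := by
    have h := Subgroup.mem_centralizer_singleton_iff.1 (hB.cent t ht (hB.mem t ht))
    rw [Subgroup.mem_centralizer_singleton_iff, ← e]
    calc g' * p * g'⁻¹ * (g' * t * g'⁻¹) = g' * (p * t) * g'⁻¹ := by group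
      _ = g' * (t * p) * g'⁻¹ := by rw [h]
      _ = _ := by group
  have hord : orderOf (g' * p * g'⁻¹) = 2 ^ 1 := by
    rw [pow_one, ← hB.order, ← MulAut.conj_apply]
    exact orderOf_injective (MulAut.conj g').toMonoidHom (MulAut.conj g').injective p
  obtain ⟨c, hc, hcS⟩ := exists_conj_le (hB.isP t' ht') (hB.cent t' ht') (hB.max t' ht')
    (isPGroup_zpowers' ⟨1, hord⟩) (Subgroup.zpowers_le.2 hq)
  have hct : c * t' * c⁻¹ = t' := by
    rw [Subgroup.mem_centralizer_singleton_iff.1 hc, mul_inv_cancel_right]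
  have hcg : c * g' * t * (c * g')⁻¹ = t' := by
    calc c * g' * t * (c * g')⁻¹ = c * (g' * t * g'⁻¹) * c⁻¹ := by group
      _ = t' := by rw [e, hct]
  have hX : c * g' ∈ Subgroup.centralizer {p} := by
    have h := hB.iso t ht t' ht' (c * g') hcg (by
      have h' := hcS _ (Subgroup.mem_zpowers _)
      rwa [show c * g' * p * (c * g')⁻¹ = c * (g' * p * g'⁻¹) * c⁻¹ by group])
    rw [Subgroup.mem_centralizer_singleton_iff]
    exact mul_inv_eq_iff_eq_mul.1 h
  refine ⟨b * (c * g') * a⁻¹, mul_mem (mul_mem hb hX) (inv_mem ha), ?_⟩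
  calc b * (c * g') * a⁻¹ * (a * t * a⁻¹) * (b * (c * g') * a⁻¹)⁻¹
      = b * (c * g' * t * (c * g')⁻¹) * b⁻¹ := by group
    _ = _ := by rw [hcg]

/-- The densities agree on `B`. -/
theorem IsolatedOn.dens_eq_base (hB : IsolatedOn p B S) {s : G} (hs : s ∈ B) :
    dens (⊤ : Subgroup G) s = dens (Subgroup.centralizer {p}) s := by
  classical
  haveI : Fact (Nat.Prime 2) := ⟨Nat.prime_two⟩
  set X := Subgroup.centralizer ({p} : Set G) with hX
  set C := centIn (⊤ : Subgroup G) s with hC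
  have hSC : S s ≤ C := fun w hw => mem_centIn.2 ⟨Subgroup.mem_top w,
    Subgroup.mem_centralizer_singleton_iff.1 (hB.cent s hs hw)⟩
  let p' : C := ⟨p, hSC (hB.mem s hs)⟩
  have hp' : orderOf p' = 2 := by rw [← hB.order, ← orderOf_submonoid]
  obtain ⟨T, hT⟩ := ((hB.isP s hs).of_equiv
    (Subgroup.subgroupOfEquivOfLe hSC).symm).exists_le_sylow
  have hiso : ∀ g : C, g * p' * g⁻¹ ∈ T → g * p' * g⁻¹ = p' := by
    intro g hg
    refine Subtype.ext (hB.iso s hs s hs (g : G) ?_ ?_)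
    · rw [(mem_centIn.1 g.2).2, mul_inv_cancel_right]
    · refine hB.max s hs ((T : Subgroup C).map C.subtype) (T.2.map _) ?_ ?_ ⟨_, hg, rfl⟩
      · intro w hw
        exact ⟨⟨w, hSC hw⟩, hT (Subgroup.mem_subgroupOf.2 hw), rfl⟩
      · rintro _ ⟨w, -, rfl⟩
        exact Subgroup.mem_centralizer_singleton_iff.2 (mem_centIn.1 w.2).2
  have hz := CfsgLib.Involutions.zstar_isolated T hp' hiso
  set O := Cfsg.oddCore C with hO
  haveI : O.Normal := by
    haveI := CfsgLib.Cores.pPrimeCore_characteristic 2 C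
    rw [hO, Cfsg.oddCore]; infer_instance
  let f : C →* C ⧸ O := QuotientGroup.mk' O
  have hCX : centIn X s ≤ C := fun w hw => mem_centIn.2 ⟨Subgroup.mem_top w, (mem_centIn.1 hw).2⟩
  let f' : centIn X s →* C ⧸ O := f.comp (Subgroup.inclusion hCX)
  have hf : Function.Surjective f := QuotientGroup.mk'_surjective O
  have hoddO : Odd (Nat.card O) := CfsgLib.Cores.odd_card_oddCore
  have hf' : Function.Surjective f' := by
    intro q
    obtain ⟨g, rfl⟩ := hf q
    set w := p' * g * p'⁻¹ * g⁻¹ with hw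
    obtain ⟨k, hk⟩ : Odd (orderOf w) :=
      hoddO.of_dvd_nat (by rw [← Subgroup.orderOf_mk w (hz g)]; exact orderOf_dvd_natCard _)
    have hpi : p'⁻¹ = p' :=
      inv_eq_of_mul_eq_one_right (by rw [← pow_two, ← hp', pow_orderOf_eq_one])
    have hinv : p' * w * p'⁻¹ = w⁻¹ := by
      rw [hw, hpi]
      calc p' * (p' * g * p' * g⁻¹) * p' = (p' * p') * g * p' * g⁻¹ * p' := by group
        _ = g * p'⁻¹ * g⁻¹ * p'⁻¹ := by rw [hpi, show p' * p' = 1 by rw [← pow_two, ← hp', pow_orderOf_eq_one], one_mul]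
        _ = _ := by rw [← hpi]; group
    set o := (w ^ (k + 1))⁻¹ with ho
    have hoO : o ∈ O := inv_mem (pow_mem (hz g) _)
    have hpo : p' * o⁻¹ * p'⁻¹ = o := by
      rw [ho, inv_inv, ← MulAut.conj_apply, map_pow, MulAut.conj_apply, hinv, inv_pow]
    have hconj : o * p' * o⁻¹ = g * p' * g⁻¹ := by
      calc o * p' * o⁻¹ = (p' * o⁻¹ * p'⁻¹) * p' * o⁻¹ := by rw [hpo]
        _ = p' * (o⁻¹ * o⁻¹) := by group
        _ = p' * w := by
          rw [ho, inv_inv, ← pow_add, show k + 1 + (k + 1) = orderOf w + 1 by omega, pow_succ,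
            pow_orderOf_eq_one, one_mul]
        _ = g * p' * g⁻¹ := by
          rw [hw, hpi, show p' * (p' * g * p' * g⁻¹) = (p' * p') * g * p' * g⁻¹ by group,
            show p' * p' = 1 by rw [← pow_two, ← hp', pow_orderOf_eq_one], one_mul]
    have hgX : ((o⁻¹ * g : C) : G) ∈ centIn X s := by
      refine mem_centIn.2 ⟨Subgroup.mem_centralizer_singleton_iff.2 ?_, (mem_centIn.1 (o⁻¹ * g).2).2⟩
      have e : o⁻¹ * g * p' = p' * (o⁻¹ * g) := by
        calc o⁻¹ * g * p' = o⁻¹ * (g * p' * g⁻¹) * g := by group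
          _ = o⁻¹ * (o * p' * o⁻¹) * g := by rw [hconj]
          _ = _ := by group
      exact congrArg Subtype.val e
    refine ⟨⟨_, hgX⟩, ?_⟩
    show f (o⁻¹ * g) = f g
    rw [map_mul, map_inv, show f o = 1 from (QuotientGroup.eq_one_iff o).2 hoO, inv_one, one_mul]
  have hker : Odd (Nat.card f.ker) := by rwa [QuotientGroup.ker_mk']
  have hker' : Odd (Nat.card f'.ker) :=
    hker.of_dvd_nat (Subgroup.card_dvd_of_injective
      (((Subgroup.inclusion hCX).comp f'.ker.subtype).codRestrict f.ker (fun w => w.2))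
      (fun a b e => Subtype.ext (Subgroup.inclusion_injective hCX (congrArg Subtype.val e))))
  have hfib : ∀ (H : Subgroup G), s ∈ H → fib H s = fib (centIn H s) 1 := fun H hH => by
    rw [← fib_centIn, fib_translate (mem_centIn.2 ⟨hH, rfl⟩) (hB.two s hs)
      fun g hg => (mem_centIn.1 hg).2]
  have hcard : ∀ {H : Type _} [Group H] [Finite H] (φ : H →* C ⧸ O), Function.Surjective φ →
      Nat.card H = Nat.card φ.ker * Nat.card (C ⧸ O) := fun φ hφ => by
    rw [← φ.ker.card_mul_index, Subgroup.index_ker, MonoidHom.range_eq_top.2 hφ, Subgroup.card_top]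
  rw [dens, dens, hfib _ (Subgroup.mem_top s), hfib _ (hB.mem_centralizer hs), fib_one_eq,
    fib_one_eq, ← hC, card_twoRegular f hf hker, card_twoRegular f' hf' hker', hcard f hf,
    hcard f' hf']
  have : (Nat.card f.ker : ℂ) ≠ 0 := Nat.cast_ne_zero.2 Nat.card_pos.ne'
  have : (Nat.card f'.ker : ℂ) ≠ 0 := Nat.cast_ne_zero.2 Nat.card_pos.ne'
  push_cast
  field_simp

theorem IsolatedOn.dens_eq (hB : IsolatedOn p B S) {s : G}
    (hs : s ∈ classes (Subgroup.centralizer {p}) B) :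
    dens (⊤ : Subgroup G) s = dens (Subgroup.centralizer {p}) s := by
  obtain ⟨h, hh, t, ht, rfl⟩ := hs
  rw [dens_conj (Subgroup.mem_top h), dens_conj hh, hB.dens_eq_base ht]

open Finset in
/-- The density of the sections at `B` is the same in the group and in the centralizer of `p`. -/
theorem IsolatedOn.card_mul (hB : IsolatedOn p B S) :
    Nat.card G * Nat.card {g : Subgroup.centralizer ({p} : Set G) //
        π (g : G) ∈ classes (Subgroup.centralizer {p}) B}
      = Nat.card (Subgroup.centralizer ({p} : Set G)) *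
        Nat.card {g : G // π g ∈ classes ⊤ B} := by
  classical
  set X := Subgroup.centralizer ({p} : Set G) with hX
  haveI := Fintype.ofFinite X
  have hL : Nat.card {g : X // π (g : G) ∈ classes X B}
      = ∑ s ∈ univ.filter (· ∈ classes X B), fib X s := by
    rw [Nat.card_eq_fintype_card, Fintype.card_subtype,
      Finset.card_eq_sum_card_fiberwise (f := fun g : X => π (g : G))
        (t := univ.filter (· ∈ classes X B)) (fun g hg => by simpa using hg)]
    refine Finset.sum_congr rfl fun s hs => ?_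
    rw [fib, Nat.card_eq_fintype_card, Fintype.card_subtype, Finset.filter_filter]
    refine congrArg Finset.card (Finset.filter_congr fun g _ => and_iff_right_of_imp fun e => ?_)
    rw [e]; exact (Finset.mem_filter.1 hs).2
  have hR : Nat.card {g : G // π g ∈ classes ⊤ B}
      = ∑ t ∈ univ.filter (· ∈ classes ⊤ B), fib ⊤ t := by
    rw [Nat.card_eq_fintype_card, Fintype.card_subtype,
      Finset.card_eq_sum_card_fiberwise (f := fun g : G => π g)
        (t := univ.filter (· ∈ classes ⊤ B)) (fun g hg => by simpa using hg)]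
    refine Finset.sum_congr rfl fun t ht => ?_
    rw [fib, Nat.card_congr (Equiv.subtypeEquiv Subgroup.topEquiv.toEquiv (fun g => Iff.rfl)
      : {g : (⊤ : Subgroup G) // π (g : G) = t} ≃ {g : G // π g = t}),
      Nat.card_eq_fintype_card, Fintype.card_subtype, Finset.filter_filter]
    refine congrArg Finset.card (Finset.filter_congr fun g _ => and_iff_right_of_imp fun e => ?_)
    rw [e]; exact (Finset.mem_filter.1 ht).2
  set D := (univ : Finset G) ×ˢ univ.filter (· ∈ classes X B) with hD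
  have hLD : Nat.card G * Nat.card {g : X // π (g : G) ∈ classes X B}
      = ∑ q ∈ D, fib X q.2 := by
    rw [hL, hD, Finset.sum_product]
    simp [Nat.card_eq_fintype_card]
  have hmaps : ∀ q ∈ D, q.1 * q.2 * q.1⁻¹ ∈ univ.filter (· ∈ classes ⊤ B) := by
    intro q hq
    simp only [hD, Finset.mem_product, Finset.mem_univ, true_and, Finset.mem_filter] at hq ⊢
    obtain ⟨h, hh, s, hs, e⟩ := hq
    exact ⟨q.1 * h, Subgroup.mem_top _, s, hs, by rw [← e]; group⟩
  rw [hLD, hR, Finset.mul_sum, ← Finset.sum_fiberwise_of_maps_to hmaps]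
  refine Finset.sum_congr rfl fun t ht => ?_
  obtain ⟨a₀, -, s₀, hs₀, e₀⟩ := (Finset.mem_filter.1 ht).2
  have hs₀X : s₀ ∈ classes X B := ⟨1, one_mem _, s₀, hs₀, by simp⟩
  have hchoice : ∀ q : {q : G × {s // s ∈ classes X B} // q.1 * (q.2 : G) * q.1⁻¹ = t},
      ∃ n ∈ X, n * s₀ * n⁻¹ = (q.1.2 : G) := by
    rintro ⟨⟨h, s, hs⟩, hq⟩
    refine hB.fusion hs₀X hs (g := h⁻¹ * a₀) ?_
    calc h⁻¹ * a₀ * s₀ * (h⁻¹ * a₀)⁻¹ = h⁻¹ * (a₀ * s₀ * a₀⁻¹) * h := by group
      _ = h⁻¹ * (h * s * h⁻¹) * h := by rw [e₀, ← hq]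
      _ = s := by group
  choose n hnX hn using hchoice
  have hcard : Nat.card {q : G × {s // s ∈ classes X B} // q.1 * (q.2 : G) * q.1⁻¹ = t}
      * Nat.card (centIn X s₀) = Nat.card (centIn ⊤ s₀) * Nat.card X := by
    rw [← Nat.card_prod, ← Nat.card_prod]
    refine Nat.card_congr
      { toFun := fun q => (⟨a₀⁻¹ * q.1.1.1 * (n q.1 * q.2), ?_⟩,
          ⟨n q.1 * q.2, mul_mem (hnX q.1) (mem_centIn.1 q.2.2).1⟩)
        invFun := fun q =>
          let r : {q : G × {s // s ∈ classes X B} // q.1 * (q.2 : G) * q.1⁻¹ = t} :=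
            ⟨(a₀ * q.1 * (q.2 : G)⁻¹, ⟨(q.2 : G) * s₀ * (q.2 : G)⁻¹, ?_⟩), ?_⟩
          (r, ⟨(n r)⁻¹ * q.2, ?_⟩)
        left_inv := ?_
        right_inv := ?_ }
    · refine mem_centIn.2 ⟨Subgroup.mem_top _, ?_⟩
      have hi := (mem_centIn.1 q.2.2).2
      calc a₀⁻¹ * q.1.1.1 * (n q.1 * q.2) * s₀
          = a₀⁻¹ * q.1.1.1 * (n q.1 * ((q.2 : G) * s₀)) := by group
        _ = a₀⁻¹ * q.1.1.1 * (n q.1 * (s₀ * (q.2 : G))) := by rw [hi]
        _ = a₀⁻¹ * (q.1.1.1 * (n q.1 * s₀ * (n q.1)⁻¹) * q.1.1.1⁻¹) *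
              q.1.1.1 * (n q.1 * q.2) := by group
        _ = a₀⁻¹ * (a₀ * s₀ * a₀⁻¹) * q.1.1.1 * (n q.1 * q.2) := by
              rw [hn q.1, q.1.2, e₀]
        _ = _ := by group
    · exact ⟨q.2, q.2.2, s₀, hs₀, rfl⟩
    · have hi := (mem_centIn.1 q.1.2).2
      show a₀ * q.1 * (q.2 : G)⁻¹ * ((q.2 : G) * s₀ * (q.2 : G)⁻¹) * (a₀ * q.1 * (q.2 : G)⁻¹)⁻¹ = t
      calc _ = a₀ * ((q.1 : G) * s₀) * (q.1 : G)⁻¹ * a₀⁻¹ := by group
        _ = a₀ * (s₀ * (q.1 : G)) * (q.1 : G)⁻¹ * a₀⁻¹ := by rw [hi]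
        _ = a₀ * s₀ * a₀⁻¹ := by group
        _ = t := e₀
    · refine mem_centIn.2 ⟨mul_mem (inv_mem (hnX r)) q.2.2, ?_⟩
      have hp : n r * s₀ * (n r)⁻¹ = (q.2 : G) * s₀ * (q.2 : G)⁻¹ := hn r
      calc (n r)⁻¹ * (q.2 : G) * s₀
          = (n r)⁻¹ * ((q.2 : G) * s₀ * (q.2 : G)⁻¹) * q.2 := by group
        _ = (n r)⁻¹ * (n r * s₀ * (n r)⁻¹) * q.2 := by rw [hp]
        _ = _ := by group
    · rintro ⟨⟨⟨h, s⟩, hp⟩, i⟩
      have hi := (mem_centIn.1 i.2).2
      have hn' := hn ⟨(h, s), hp⟩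
      simp only at hn'
      have e : n ⟨(h, s), hp⟩ * (i : G) * s₀ * (n ⟨(h, s), hp⟩ * (i : G))⁻¹ = s := by
        calc _ = n ⟨(h, s), hp⟩ * ((i : G) * s₀) * (i : G)⁻¹ * (n ⟨(h, s), hp⟩)⁻¹ := by group
          _ = n ⟨(h, s), hp⟩ * (s₀ * i) * (i : G)⁻¹ * (n ⟨(h, s), hp⟩)⁻¹ := by rw [hi]
          _ = n ⟨(h, s), hp⟩ * s₀ * (n ⟨(h, s), hp⟩)⁻¹ := by group
          _ = s := hn'
      have hp' : ∀ q : {q : G × {s // s ∈ classes X B} // q.1 * (q.2 : G) * q.1⁻¹ = t},
          q.1.1 = h → (q.1.2 : G) = s → q = ⟨(h, s), hp⟩ := fun q h1 h2 =>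
        Subtype.ext (Prod.ext h1 (Subtype.ext h2))
      refine Prod.ext (hp' _ ?_ e) (Subtype.ext ?_)
      · simp [mul_assoc]
      · dsimp only
        refine (congrArg (fun q => (n q)⁻¹ * (n ⟨(h, s), hp⟩ * (i : G))) (hp' _ ?_ e)).trans
          (inv_mul_cancel_left _ _)
        simp [mul_assoc]
    · rintro ⟨c, m⟩
      refine Prod.ext (Subtype.ext ?_) (Subtype.ext ?_)
      · simp [mul_assoc]
      · simp
  have hset : (D.filter fun q => q.1 * q.2 * q.1⁻¹ = t).card
      = Nat.card {q : G × {s // s ∈ classes X B} // q.1 * (q.2 : G) * q.1⁻¹ = t} := by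
    rw [← Fintype.card_coe, ← Nat.card_eq_fintype_card]
    refine Nat.card_congr
      { toFun := fun q => ⟨(q.1.1, ⟨q.1.2, ?_⟩), ?_⟩
        invFun := fun q => ⟨(q.1.1, (q.1.2 : G)), ?_⟩
        left_inv := fun q => rfl
        right_inv := fun q => rfl }
    · simpa [hD] using (Finset.mem_filter.1 q.2).1
    · exact (Finset.mem_filter.1 q.2).2
    · exact Finset.mem_filter.2 ⟨by simp [hD, q.1.2.2], q.2⟩
  have hval : ∀ q ∈ D.filter (fun q => q.1 * q.2 * q.1⁻¹ = t),
      fib X q.2 * Nat.card (centIn ⊤ s₀) = fib ⊤ t * Nat.card (centIn X s₀) := by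
    intro q hq
    obtain ⟨hqD, hqt⟩ := Finset.mem_filter.1 hq
    have hqC : q.2 ∈ classes X B := by simpa [hD] using hqD
    obtain ⟨x, hx, e⟩ := hB.fusion hs₀X hqC (g := q.1⁻¹ * a₀) (by
      calc q.1⁻¹ * a₀ * s₀ * (q.1⁻¹ * a₀)⁻¹ = q.1⁻¹ * (a₀ * s₀ * a₀⁻¹) * q.1 := by group
        _ = q.1⁻¹ * (q.1 * q.2 * q.1⁻¹) * q.1 := by rw [e₀, ← hqt]
        _ = q.2 := by group)
    rw [← e, fib_conj hx, ← e₀, fib_conj (Subgroup.mem_top a₀)]
    have h := hB.dens_eq_base hs₀
    rw [dens, dens, div_eq_div_iff (Nat.cast_ne_zero.2 Nat.card_pos.ne')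
      (Nat.cast_ne_zero.2 Nat.card_pos.ne')] at h
    exact_mod_cast h.symm
  have hC : 0 < Nat.card (centIn (⊤ : Subgroup G) s₀) := Nat.card_pos
  refine Nat.eq_of_mul_eq_mul_right hC ?_
  rw [Finset.sum_mul, Finset.sum_congr rfl hval, Finset.sum_const, smul_eq_mul, hset]
  calc _ = Nat.card {q : G × {s // s ∈ classes X B} // q.1 * (q.2 : G) * q.1⁻¹ = t}
        * Nat.card (centIn X s₀) * fib ⊤ t := by ring
    _ = _ := by rw [hcard]; ring

end CfsgLib.CentralFour
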