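import Cfsg.Agent.Lib.CentralFour.Shape
import Cfsg.Agent.Lib.CentralFour.Transfer

/-!
# Fusion and sections for the decomposed Sylow 2-subgroup
-/

set_option autoImplicit false
set_option linter.unusedSectionVars false
set_option linter.style.haveILetI false

open scoped Pointwise

namespace CfsgLib.CentralFour

/-- The coset `p U`. -/
def pSet {G : Type*} [Group G] (p : G) (U : Subgroup G) : Set G := {t | ∃ u ∈ U, t = p * u}

/-- The coset `x y U`. -/
def qSet {G : Type*} [Group G] (x y : G) (U : Subgroup G) : Set G := {t | ∃ u ∈ U, t = x * y * u}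

variable {G : Type*} [Group G] [Finite G] (hG : Good G) (P : Sylow 2 G) {x y : G} {U : Subgroup G}
  (H : Shape (P : Subgroup G) (cgen hG P) x y U)

include hG H

theorem Shape.mem_cx_other {s : G} (hs : s ∈ (P : Subgroup G)) (hsn : s ∉ zc (P : Subgroup G))
    {g : G} (hgp : g * cgen hG P * g⁻¹ ∈ cx (P : Subgroup G) s)
    (hxs : x⁻¹ * s ∉ zc (P : Subgroup G)) (hys : y⁻¹ * s ∉ zc (P : Subgroup G)) :
    g * cgen hG P * g⁻¹ = cgen hG P := by
  obtain ⟨hq, hqs⟩ := mem_cx.1 hgp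
  have hout : ∀ a, a ∈ (P : Subgroup G) → a ∉ zc (P : Subgroup G) → a⁻¹ * s ∉ zc (P : Subgroup G) →
      a * s ≠ s * a := by
    intro a ha han has e
    rcases ((H.core.mem_cx_iff ha han).1 (mem_cx.2 ⟨hs, e.symm⟩)).2 with h | h
    exacts [hsn h, has h]
  have hmul : ∀ a, a ∈ (P : Subgroup G) → cgen hG P * a * s = s * (cgen hG P * a) →
      a * s = s * a := by
    intro a ha e
    have e' : cgen hG P * (a * s) = cgen hG P * (s * a) := by
      rw [← mul_assoc, e, ← mul_assoc, (mem_zc.1 H.core.mem).2 s hs, mul_assoc]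
    exact mul_left_cancel e'
  have h := H.conj g hq
  simp only [Set.mem_insert_iff, Set.mem_singleton_iff] at h
  rcases h with e | e | e | e | e <;> rw [e] at hqs
  · exact e
  · exact absurd hqs (hout x H.memx H.nx hxs)
  · exact absurd (hmul x H.memx hqs) (hout x H.memx H.nx hxs)
  · exact absurd hqs (hout y H.memy H.ny hys)
  · exact absurd (hmul y H.memy hqs) (hout y H.memy H.ny hys)

/-- The subgroup `U` is strongly closed in `P`. -/
theorem Shape.closed {u g : G} (hu : u ∈ U) (hg : g * u * g⁻¹ ∈ (P : Subgroup G)) :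
    g * u * g⁻¹ ∈ U := by
  haveI : Fact (Nat.Prime 2) := ⟨Nat.prime_two⟩
  have hP := core_cgen hG P
  have hburn : ∀ g : G, g * u * g⁻¹ ∈ zc (P : Subgroup G) → g * u * g⁻¹ ∈ U := by
    intro g hz
    obtain ⟨n, hn, e⟩ := P.conj_eq_normalizer_conj_of_mem_centralizer u g⁻¹
      (Subgroup.mem_inf.1 (H.U_le hu)).2 (by rw [inv_inv]; exact (Subgroup.mem_inf.1 hz).2)
    rw [inv_inv] at e
    have := (H.norm n⁻¹ (inv_mem hn)).2 u hu
    rw [inv_inv, ← e] at this
    exact this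
  set s := g * u * g⁻¹ with hs
  by_cases hsZ : s ∈ zc (P : Subgroup G)
  · exact hburn g hsZ
  -- a Sylow 2-subgroup over the centralizer of `s` with `s` in its centre
  have hK : ((g • P : Sylow 2 G) : Subgroup G) ≤ Subgroup.centralizer {s} := by
    intro r hr
    rw [Subgroup.mem_centralizer_singleton_iff]
    exact (mem_zc.1 (zc_smul.2 (H.U_le hu) : s ∈ zc ((g • P : Sylow 2 G) : Subgroup G))).2 r hr
  obtain ⟨R, hAR, hRK⟩ := exists_sylow_le (g • P) hK
    (P.2.to_le (inf_le_left : cx (P : Subgroup G) s ≤ P)) inf_le_right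
  have hsR : s ∈ zc (R : Subgroup G) := mem_zc.2 ⟨hAR (mem_cx.2 ⟨hg, rfl⟩),
    fun r hr => Subgroup.mem_centralizer_singleton_iff.1 (hRK hr)⟩
  have hcase : ∀ a, a ∈ (P : Subgroup G) → a ∉ zc (P : Subgroup G) →
      U = coreU (cx (P : Subgroup G) a) → a⁻¹ * s ∈ zc (P : Subgroup G) → s ∈ U := by
    intro a ha han hUa has
    have hsA : s ∈ cx (P : Subgroup G) a := (hP.mem_cx_iff ha han).2 ⟨hg, Or.inr has⟩
    have hA := cx_eq hG ha han (inf_le_left : cx (P : Subgroup G) a ≤ P) hsA hsZ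
    have hAR' : cx (P : Subgroup G) a ≤ R := hA.ge.trans hAR
    obtain ⟨h, hh, e⟩ := exists_smul_eq_in (le_normalizer_cx hG ha han hAR')
      (le_normalizer_cx hG ha han (inf_le_left : cx (P : Subgroup G) a ≤ P))
    have hz : h * s * h⁻¹ ∈ zc (P : Subgroup G) := e ▸ zc_smul.2 hsR
    have he : h * s * h⁻¹ = (h * g) * u * (h * g)⁻¹ := by rw [hs]; group
    have hU : h * s * h⁻¹ ∈ coreU (cx (P : Subgroup G) a) := by
      rw [← hUa, he]
      exact hburn _ (he ▸ hz)
    have := coreU_conj (inv_mem hh) hU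
    rw [← hUa] at this
    simpa [mul_assoc] using this
  by_cases hxs : x⁻¹ * s ∈ zc (P : Subgroup G)
  · exact hcase x H.memx H.nx H.Ux hxs
  by_cases hys : y⁻¹ * s ∈ zc (P : Subgroup G)
  · exact hcase y H.memy H.ny H.Uy hys
  exfalso
  obtain ⟨k, hk⟩ := MulAction.exists_smul_eq G P R
  have hc : cgen hG R = cgen hG P := by
    rw [← hk, cgen_smul]
    refine H.mem_cx_other hG P hg hsZ ?_ hxs hys
    rw [← cgen_smul, hk]
    exact cgen_mem_cx hG hg hsZ hAR
  rw [zc_eq hG hg hsZ inf_le_left hAR hc] at hsR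
  exact hsZ hsR

theorem Shape.eq_mem {t g : G} (ht : t ∈ (P : Subgroup G)) (h : g * t * g⁻¹ ∈ U) : t ∈ U := by
  have := H.closed hG P (g := g⁻¹) h (by simpa [mul_assoc] using ht)
  simpa [mul_assoc] using this

theorem Shape.u_mem {u : G} (hu : u ∈ U) : u ∈ (P : Subgroup G) := (mem_zc.1 (H.U_le hu)).1

theorem Shape.u_comm {u w : G} (hu : u ∈ U) (hw : w ∈ (P : Subgroup G)) : w * u = u * w :=
  (mem_zc.1 (H.U_le hu)).2 w hw

theorem Shape.pu_mul_self {u : G} (hu : u ∈ U) :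
    cgen hG P * u * (cgen hG P * u) = u * u := by
  calc _ = cgen hG P * (u * cgen hG P) * u := by group
    _ = cgen hG P * (cgen hG P * u) * u := by rw [H.u_comm hG P hu H.core.mem_R]
    _ = (cgen hG P * cgen hG P) * (u * u) := by group
    _ = u * u := by rw [H.core.sq, one_mul]

theorem Shape.xy_sq : x * y * (x * y) = cgen hG P := by
  calc x * y * (x * y) = x * (y * x) * y := by group
    _ = x * cgen hG P * x * (y * y) := by rw [H.yx]; group
    _ = x * (cgen hG P * x) := by rw [H.sqy]; group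
    _ = x * (x * cgen hG P) := by rw [(mem_zc.1 H.core.mem).2 x H.memx]
    _ = cgen hG P := by rw [← mul_assoc, H.sqx, one_mul]

theorem Shape.xyu_mul_self {u : G} (hu : u ∈ U) :
    x * y * u * (x * y * u) = cgen hG P * (u * u) := by
  calc _ = x * y * (u * (x * y)) * u := by group
    _ = x * y * (x * y * u) * u := by rw [H.u_comm hG P hu (mul_mem H.memx H.memy)]
    _ = (x * y * (x * y)) * (u * u) := by group
    _ = _ := by rw [H.xy_sq hG P]

theorem Shape.xy_not_mem {u : G} (hu : u ∈ U) :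
    x * y * u ∉ zc (P : Subgroup G) ∧ x⁻¹ * (x * y * u) ∉ zc (P : Subgroup G) ∧
      y⁻¹ * (x * y * u) ∉ zc (P : Subgroup G) := by
  have hz := inv_mem (H.U_le hu)
  refine ⟨fun h => H.nxy ?_, fun h => H.ny ?_, fun h => H.nx ?_⟩
  · have h' := mul_mem h hz
    rw [mul_inv_cancel_right] at h'
    rwa [inv_eq_of_mul_eq_one_right H.sqx]
  · have h' := mul_mem h hz
    rwa [show x⁻¹ * (x * y * u) * u⁻¹ = y by group] at h'
  · have h' := mul_mem h hz
    rw [show y⁻¹ * (x * y * u) * u⁻¹ = y⁻¹ * (x * y) by group] at h'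
    have hy : y * (y⁻¹ * (x * y)) * y⁻¹ = y⁻¹ * (x * y) := by
      rw [(mem_zc.1 h').2 y H.memy, mul_inv_cancel_right]
    have hx : y * (y⁻¹ * (x * y)) * y⁻¹ = x := by group
    rw [hx] at hy
    rwa [← hy] at h'

theorem Shape.pU_not_conj {u g : G} (hu : u ∈ U) : g * (cgen hG P * u) * g⁻¹ ∉ U := fun h => by
  have := H.eq_mem hG P (mul_mem H.core.mem_R (H.u_mem hG P hu)) h
  have h' := mul_mem this (inv_mem hu)
  rw [mul_inv_cancel_right] at h'
  exact H.np h'

theorem Shape.xyU_sq_not_conj {u g : G} (hu : u ∈ U) :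
    g * (x * y * u * (x * y * u)) * g⁻¹ ∉ U := by
  rw [H.xyu_mul_self hG P hu]
  exact H.pU_not_conj hG P (mul_mem hu hu)

theorem Shape.pU_sq_conj {u g : G} (hu : u ∈ U)
    (hg : g * (cgen hG P * u) * g⁻¹ ∈ (P : Subgroup G)) :
    g * (cgen hG P * u * (cgen hG P * u)) * g⁻¹ ∈ U := by
  refine H.closed hG P (u := cgen hG P * u * (cgen hG P * u)) ?_ ?_
  · rw [H.pu_mul_self hG P hu]; exact mul_mem hu hu
  · have := mul_mem hg hg
    rwa [show g * (cgen hG P * u) * g⁻¹ * (g * (cgen hG P * u) * g⁻¹)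
      = g * (cgen hG P * u * (cgen hG P * u)) * g⁻¹ by group] at this

theorem Shape.mem_classes_p {s : G} (hs : s ∈ (P : Subgroup G))
    (h : x⁻¹ * s ∈ zc (P : Subgroup G) ∨ y⁻¹ * s ∈ zc (P : Subgroup G)) :
    s ∈ classes ⊤ (pSet (cgen hG P) U) := by
  have hP := H.core
  have hcase : ∀ a, a ∈ (P : Subgroup G) → a ∉ zc (P : Subgroup G) →
      U = coreU (cx (P : Subgroup G) a) →
      (∃ h ∈ Subgroup.normalizer (cx (P : Subgroup G) a : Set G), h * a * h⁻¹ = cgen hG P) →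
      a⁻¹ * s ∈ zc (P : Subgroup G) →
      s ∈ classes ⊤ (pSet (cgen hG P) U) := by
    intro a ha han hUa ⟨h, hh, e⟩ has
    have key : ∀ u ∈ U, ∀ r : G, r * (a * u) * r⁻¹ = s →
        s ∈ classes ⊤ (pSet (cgen hG P) U) := by
      intro u hu r hr
      refine ⟨r * h⁻¹, Subgroup.mem_top _, cgen hG P * (h * u * h⁻¹),
        ⟨h * u * h⁻¹, by rw [hUa] at hu ⊢; exact coreU_conj hh hu, rfl⟩, ?_⟩
      rw [← e, ← hr]
      group
    rcases H.split _ has with h' | h'
    · exact key _ h' 1 (by group)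
    · obtain ⟨r, hr, hra⟩ : ∃ r ∈ (P : Subgroup G), r * a ≠ a * r := by
        by_contra h''
        push Not at h''
        exact han (mem_zc.2 ⟨ha, h''⟩)
      refine key _ h' r ?_
      have e1 : r * a * r⁻¹ = cgen hG P * a := hP.eq_or_ne ha hr hra
      have e2 : r * (cgen hG P * (a⁻¹ * s)) * r⁻¹ = cgen hG P * (a⁻¹ * s) := by
        rw [H.u_comm hG P h' hr, mul_inv_cancel_right]
      calc r * (a * (cgen hG P * (a⁻¹ * s))) * r⁻¹
          = (r * a * r⁻¹) * (r * (cgen hG P * (a⁻¹ * s)) * r⁻¹) := by group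
        _ = cgen hG P * (a * cgen hG P) * (a⁻¹ * s) := by rw [e1, e2]; group
        _ = cgen hG P * (cgen hG P * a) * (a⁻¹ * s) := by rw [(mem_zc.1 hP.mem).2 a ha]
        _ = (cgen hG P * cgen hG P) * s := by group
        _ = s := by rw [hP.sq, one_mul]
  rcases h with h | h
  · exact hcase x H.memx H.nx H.Ux H.hx h
  · exact hcase y H.memy H.ny H.Uy H.hy h

theorem Shape.mem_classes_q {s : G} (hs : s ∈ (P : Subgroup G))
    (h : (x * y)⁻¹ * s ∈ zc (P : Subgroup G)) :
    s ∈ classes (P : Subgroup G) (qSet x y U) := by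
  have hP := H.core
  rcases H.split _ h with h' | h'
  · exact ⟨1, one_mem _, _, ⟨_, h', rfl⟩, by group⟩
  · refine ⟨x, H.memx, _, ⟨_, h', rfl⟩, ?_⟩
    calc x * (x * y * (cgen hG P * ((x * y)⁻¹ * s))) * x⁻¹
        = (x * x) * y * ((cgen hG P * ((x * y)⁻¹ * s)) * x⁻¹) := by group
      _ = y * (x * (cgen hG P * ((x * y)⁻¹ * s))) := by
        rw [H.sqx, one_mul, inv_eq_of_mul_eq_one_right H.sqx, H.u_comm hG P h' H.memx]
      _ = (y * x) * (cgen hG P * ((x * y)⁻¹ * s)) := by group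
      _ = cgen hG P * ((x * y) * cgen hG P) * ((x * y)⁻¹ * s) := by rw [H.yx]; group
      _ = cgen hG P * (cgen hG P * (x * y)) * ((x * y)⁻¹ * s) := by
        rw [(mem_zc.1 hP.mem).2 _ (mul_mem H.memx H.memy)]
      _ = (cgen hG P * cgen hG P) * s := by group
      _ = s := by rw [hP.sq, one_mul]

theorem Shape.types {s : G} (hs : s ∈ (P : Subgroup G)) :
    s ∈ U ∨ s ∈ classes ⊤ (pSet (cgen hG P) U) ∨ s ∈ classes ⊤ (qSet x y U) := by
  have hP := H.core
  rcases hP.cov x H.memx y H.memy H.nx H.ny H.nxy s hs with h | h | h | h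
  · rcases H.split s h with h' | h'
    · exact Or.inl h'
    · refine Or.inr (Or.inl ⟨1, one_mem _, _, ⟨_, h', rfl⟩, ?_⟩)
      rw [← mul_assoc (cgen hG P), hP.sq]
      group
  · exact Or.inr (Or.inl (H.mem_classes_p hG P hs (Or.inl h)))
  · exact Or.inr (Or.inl (H.mem_classes_p hG P hs (Or.inr h)))
  · obtain ⟨r, -, t, ht, e⟩ := H.mem_classes_q hG P hs h
    exact Or.inr (Or.inr ⟨r, Subgroup.mem_top r, t, ht, e⟩)

theorem Shape.isolated_p [Fintype G] :
    IsolatedOn (cgen hG P) (pSet (cgen hG P) U)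
      (fun _ => (P : Subgroup G)) where
  order := orderOf_eq_prime (by rw [pow_two, H.core.sq]) H.core.ne
  mem := fun _ _ => H.core.mem_R
  isP := fun _ _ => P.2
  cent := by
    rintro _ ⟨u, hu, rfl⟩ w hw
    rw [Subgroup.mem_centralizer_singleton_iff, ← mul_assoc, (mem_zc.1 H.core.mem).2 w hw,
      mul_assoc, H.u_comm hG P hu hw, mul_assoc]
  two := by
    rintro _ ⟨u, hu, rfl⟩
    exact exists_twoPow_of_mem P.2 (mul_mem H.core.mem_R (H.u_mem hG P hu))
  max := fun _ _ T hT hPT _ => (P.3 hT hPT).le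
  iso := by
    rintro _ ⟨u, hu, rfl⟩ _ ⟨u', hu', rfl⟩ g hg hgp
    set q := g * cgen hG P * g⁻¹ with hq
    have e : g * u * g⁻¹ = q⁻¹ * (cgen hG P * u') := by rw [← hg, hq]; group
    have hU := H.closed hG P hu (g := g) (by
      rw [e]; exact mul_mem (inv_mem hgp) (mul_mem H.core.mem_R (H.u_mem hG P hu')))
    rw [e] at hU
    have h := inv_mem (mul_mem hU (inv_mem hu'))
    rw [show (q⁻¹ * (cgen hG P * u') * u'⁻¹)⁻¹ = (cgen hG P)⁻¹ * q by group] at h
    have hqZ : q ∈ zc (P : Subgroup G) := by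
      have := mul_mem H.core.mem (H.U_le h)
      rwa [mul_inv_cancel_left] at this
    exact eq_cgen hG P hqZ rfl

theorem Shape.isolated_q [Fintype G] :
    IsolatedOn (cgen hG P) (qSet x y U)
      (fun t => cx (P : Subgroup G) t) where
  order := orderOf_eq_prime (by rw [pow_two, H.core.sq]) H.core.ne
  mem := by
    rintro _ ⟨u, hu, rfl⟩
    exact zc_le_cx (mul_mem (mul_mem H.memx H.memy) (H.u_mem hG P hu)) H.core.mem
  isP := fun _ _ => P.2.to_le inf_le_left
  cent := fun _ _ => inf_le_right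
  two := by
    rintro _ ⟨u, hu, rfl⟩
    exact exists_twoPow_of_mem P.2 (mul_mem (mul_mem H.memx H.memy) (H.u_mem hG P hu))
  max := by
    rintro _ ⟨u, hu, rfl⟩ T hT hAT hTc
    obtain ⟨h1, h2, h3⟩ := H.xy_not_mem hG P hu
    have hsP := mul_mem (mul_mem H.memx H.memy) (H.u_mem hG P hu)
    refine le_cx_of_max hG P hsP h1 hT hAT
      (fun q hq => Subgroup.mem_centralizer_singleton_iff.1 (hTc hq)) fun R hR => ?_
    obtain ⟨k, hk⟩ := MulAction.exists_smul_eq G P R
    rw [← hk, cgen_smul]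
    refine H.mem_cx_other hG P hsP h1 ?_ h2 h3
    rw [← cgen_smul, hk]
    exact cgen_mem_cx hG hsP h1 (hR ▸ hAT)
  iso := by
    rintro _ ⟨u, hu, rfl⟩ _ ⟨u', hu', rfl⟩ g - hgp
    obtain ⟨h1, h2, h3⟩ := H.xy_not_mem hG P hu'
    exact H.mem_cx_other hG P (mul_mem (mul_mem H.memx H.memy) (H.u_mem hG P hu')) h1 hgp h2 h3

/-- Elements of `P` fused in the centralizer of `p` agree modulo the centre. -/
theorem Shape.fusion {g a : G} (hg : g ∈ Subgroup.centralizer {cgen hG P})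
    (ha : a ∈ (P : Subgroup G)) (hb : g * a * g⁻¹ ∈ (P : Subgroup G)) :
    a⁻¹ * (g * a * g⁻¹) ∈ zc (P : Subgroup G) := by
  haveI : Fact (Nat.Prime 2) := ⟨Nat.prime_two⟩
  have hP := H.core
  set p := cgen hG P with hp
  have hPp : (P : Subgroup G) ≤ Subgroup.centralizer {p} := fun w hw =>
    Subgroup.mem_centralizer_singleton_iff.2 ((mem_zc.1 hP.mem).2 w hw)
  have hcp : ∀ R : Sylow 2 G, p ∈ (R : Subgroup G) → (R : Subgroup G) ≤ Subgroup.centralizer {p} →
      cgen hG R = p := by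
    intro R hpR hR
    obtain ⟨k, hk⟩ := MulAction.exists_smul_eq G P R
    refine (eq_cgen hG R (mem_zc.2 ⟨hpR, fun r hr =>
      Subgroup.mem_centralizer_singleton_iff.1 (hR hr)⟩) (g := k⁻¹) ?_).symm
    rw [← hk, cgen_smul]
    group
    rfl
  -- the centre is not left
  have hout : ∀ a g : G, g ∈ Subgroup.centralizer {p} → a ∈ (P : Subgroup G) →
      g * a * g⁻¹ ∈ zc (P : Subgroup G) → a ∈ zc (P : Subgroup G) := by
    intro a g hg ha hbz
    by_contra han
    have hK : ((g⁻¹ • P : Sylow 2 G) : Subgroup G) ≤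
        Subgroup.centralizer {a} ⊓ Subgroup.centralizer {p} := by
      intro r hr
      have hr' := mem_smul_sylow.1 hr
      rw [inv_inv] at hr'
      refine ⟨Subgroup.mem_centralizer_singleton_iff.2 ?_, ?_⟩
      · calc r * a = g⁻¹ * ((g * r * g⁻¹) * (g * a * g⁻¹)) * g := by group
          _ = g⁻¹ * ((g * a * g⁻¹) * (g * r * g⁻¹)) * g := by rw [(mem_zc.1 hbz).2 _ hr']
          _ = a * r := by group
      · have := mul_mem (mul_mem (inv_mem hg) (hPp hr')) hg
        simpa [mul_assoc] using this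
    obtain ⟨R, hAR, hRK⟩ := exists_sylow_le (g⁻¹ • P) hK
      (P.2.to_le (inf_le_left : cx (P : Subgroup G) a ≤ P))
      (le_inf inf_le_right (inf_le_left.trans hPp))
    have hc := hcp R (hAR (zc_le_cx ha hP.mem)) (hRK.trans inf_le_right)
    have haR : a ∈ zc (R : Subgroup G) := mem_zc.2 ⟨hAR (mem_cx.2 ⟨ha, rfl⟩), fun r hr =>
      Subgroup.mem_centralizer_singleton_iff.1 (Subgroup.mem_inf.1 (hRK hr)).1⟩
    rw [zc_eq hG ha han inf_le_left hAR hc] at haR
    exact han haR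
  set b := g * a * g⁻¹ with hb'
  by_cases han : a ∈ zc (P : Subgroup G)
  · refine mul_mem (inv_mem han) (hout b g⁻¹ (inv_mem hg) hb ?_)
    rwa [hb', show g⁻¹ * (g * a * g⁻¹) * g⁻¹⁻¹ = a by group]
  have hbn : b ∉ zc (P : Subgroup G) := fun h => han (hout a g hg ha h)
  -- move the centralizer of `a` onto that of `b`
  set A := cx (P : Subgroup G) a with hA
  set B := cx (P : Subgroup G) b with hB
  set A' := A.map (MulAut.conj g).toMonoidHom with hA'
  have hA'P : IsPGroup 2 A' := (P.2.to_le inf_le_left).map _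
  have hA'K : A' ≤ Subgroup.centralizer {b} ⊓ Subgroup.centralizer {p} := by
    rintro _ ⟨w, hw, rfl⟩
    simp only [MulEquiv.coe_toMonoidHom, MulAut.conj_apply]
    refine Subgroup.mem_inf.2 ⟨Subgroup.mem_centralizer_singleton_iff.2 ?_,
      mul_mem (mul_mem hg (hPp (mem_cx.1 hw).1)) (inv_mem hg)⟩
    calc g * w * g⁻¹ * b = g * (w * a) * g⁻¹ := by rw [hb']; group
      _ = g * (a * w) * g⁻¹ := by rw [(mem_cx.1 hw).2]
      _ = b * (g * w * g⁻¹) := by rw [hb']; group
  obtain ⟨k, hk, hkA⟩ := exists_conj_le (K := Subgroup.centralizer {b} ⊓ Subgroup.centralizer {p})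
    (P.2.to_le (inf_le_left : B ≤ P)) (le_inf inf_le_right (inf_le_left.trans hPp))
    (fun T hT hBT hTK => le_cx_of_max hG P hb hbn hT hBT
      (fun q hq => Subgroup.mem_centralizer_singleton_iff.1 (Subgroup.mem_inf.1 (hTK hq)).1)
      fun R hR => hcp R (hR ▸ hBT (zc_le_cx hb hP.mem)) (hR ▸ hTK.trans inf_le_right))
    hA'P hA'K
  obtain ⟨hkb, hkp⟩ := Subgroup.mem_inf.1 hk
  set g' := k * g with hg'
  have hg'a : g' * a * g'⁻¹ = b := by
    rw [hg', show k * g * a * (k * g)⁻¹ = k * b * k⁻¹ by rw [hb']; group,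
      Subgroup.mem_centralizer_singleton_iff.1 hkb, mul_inv_cancel_right]
  have hg'p : g' ∈ Subgroup.centralizer {p} := mul_mem hkp hg
  have hAB : A.map (MulAut.conj g').toMonoidHom = B := by
    refine Subgroup.eq_of_le_of_card_ge ?_ ?_
    · rintro _ ⟨w, hw, rfl⟩
      have := hkA _ ⟨w, hw, rfl⟩
      simp only [MulEquiv.coe_toMonoidHom, MulAut.conj_apply] at this ⊢
      rwa [hg', show k * g * w * (k * g)⁻¹ = k * (g * w * g⁻¹) * k⁻¹ by group]
    · rw [Subgroup.card_map_of_injective (MulAut.conj g').injective, hA, hB,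
        hP.card_cx ha han, hP.card_cx hb hbn]
  have hBg : B ≤ ((g' • P : Sylow 2 G) : Subgroup G) := by
    rw [← hAB]
    rintro _ ⟨w, hw, rfl⟩
    exact conj_mem_smul.2 (mem_cx.1 hw).1
  have hgp : ((g' • P : Sylow 2 G) : Subgroup G) ≤ Subgroup.centralizer {p} := fun r hr => by
    have h := mul_mem (mul_mem hg'p (hPp (mem_smul_sylow.1 hr))) (inv_mem hg'p)
    simpa [mul_assoc] using h
  obtain ⟨l, hl, hlP⟩ := exists_smul_eq_in
    (K := Subgroup.normalizer (B : Set G) ⊓ Subgroup.centralizer {p})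
    (le_inf (le_normalizer_cx hG hb hbn hBg) hgp)
    (le_inf (le_normalizer_cx hG hb hbn (inf_le_left : B ≤ P)) hPp)
  obtain ⟨hlB, -⟩ := Subgroup.mem_inf.1 hl
  set n := l * g' with hn
  have hnN : n ∈ Subgroup.normalizer ((P : Subgroup G) : Set G) := by
    rw [smul_eq_of_mem_normalizer, hn, mul_smul, hlP]
  have hbB : b ∈ B := mem_cx.2 ⟨hb, rfl⟩
  have hnaB : n * a * n⁻¹ ∈ B := by
    rw [hn, show l * g' * a * (l * g')⁻¹ = l * (g' * a * g'⁻¹) * l⁻¹ by group, hg'a]
    exact (Subgroup.mem_normalizer_iff.1 hlB b).1 hbB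
  have haB : a ∈ B := by
    have hz := (H.norm n hnN).1 a ha
    have := mul_mem hnaB (zc_le_cx hb (inv_mem hz))
    rwa [show n * a * n⁻¹ * (a⁻¹ * (n * a * n⁻¹))⁻¹ = a by group] at this
  rcases ((hP.mem_cx_iff hb hbn).1 haB).2 with h | h
  · exact absurd h han
  · have := inv_mem h
    rwa [mul_inv_rev, inv_inv] at this

end CfsgLib.CentralFour
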