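import Cfsg.Agent.Lib.CentralFour.Triangle
import Cfsg.Agent.Lib.GWApps.RankTwoSimple
import Cfsg.Agent.Lib.Involutions.BrauerSuzuki
import Cfsg.Agent.S4216
import Mathlib.GroupTheory.Focal

/-!
# The shape of the Sylow 2-subgroup of a simple group

A simple group with non-abelian Sylow 2-subgroups with centre of index four: the Sylow 2-subgroup
is the product of a dihedral group of order eight and a central subgroup `U`.
-/

set_option autoImplicit false
set_option linter.unusedSectionVars false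
set_option linter.style.haveILetI false

open scoped Pointwise

namespace CfsgLib.CentralFour

variable {G : Type*} [Group G]

/-- The data of the decomposition of the Sylow 2-subgroup. -/
structure Shape (P : Subgroup G) (p x y : G) (U : Subgroup G) : Prop where
  core : Core P p
  memx : x ∈ P
  memy : y ∈ P
  nx : x ∉ zc P
  ny : y ∉ zc P
  nxy : x⁻¹ * y ∉ zc P
  sqx : x * x = 1
  sqy : y * y = 1
  yx : y * x = p * (x * y)
  U_le : U ≤ zc P
  np : p ∉ U
  split : ∀ z ∈ zc P, z ∈ U ∨ p * z ∈ U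
  conj : ∀ g : G, g * p * g⁻¹ ∈ P →
    g * p * g⁻¹ ∈ ({p, x, p * x, y, p * y} : Set G)
  norm : ∀ n ∈ Subgroup.normalizer (P : Set G),
    (∀ w ∈ P, w⁻¹ * (n * w * n⁻¹) ∈ zc P) ∧ ∀ u ∈ U, n * u * n⁻¹ ∈ U
  hx : ∃ h ∈ Subgroup.normalizer (cx P x : Set G), h * x * h⁻¹ = p
  hy : ∃ h ∈ Subgroup.normalizer (cx P y : Set G), h * y * h⁻¹ = p
  Ux : U = coreU (cx P x)
  Uy : U = coreU (cx P y)

variable [Finite G] (hG : Good G) (P : Sylow 2 G)

include hG

theorem conj_cgen_of_normalizer {n : G}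
    (hn : n ∈ Subgroup.normalizer ((P : Subgroup G) : Set G)) :
    n * cgen hG P * n⁻¹ = cgen hG P := by
  rw [← cgen_smul hG P n, smul_eq_of_mem_normalizer.1 hn]

theorem zc_conj_of_normalizer {n z : G}
    (hn : n ∈ Subgroup.normalizer ((P : Subgroup G) : Set G)) :
    n * z * n⁻¹ ∈ zc (P : Subgroup G) ↔ z ∈ zc (P : Subgroup G) := by
  conv_lhs => rw [← smul_eq_of_mem_normalizer.1 hn]
  exact zc_smul

/-- No three cosets of the centre contain conjugates of the commutator element. -/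
theorem not_three {x₁ x₂ x₃ g₁ g₂ g₃ : G} (hm₁ : x₁ ∈ (P : Subgroup G))
    (hm₂ : x₂ ∈ (P : Subgroup G)) (hm₃ : x₃ ∈ (P : Subgroup G))
    (hn₁ : x₁ ∉ zc (P : Subgroup G)) (hn₂ : x₂ ∉ zc (P : Subgroup G))
    (hn₃ : x₃ ∉ zc (P : Subgroup G))
    (he₁ : g₁ * cgen hG P * g₁⁻¹ = x₁) (he₂ : g₂ * cgen hG P * g₂⁻¹ = x₂)
    (he₃ : g₃ * cgen hG P * g₃⁻¹ = x₃)
    (h12 : x₁⁻¹ * x₂ ∉ zc (P : Subgroup G)) (h13 : x₁⁻¹ * x₃ ∉ zc (P : Subgroup G))
    (h23 : x₂⁻¹ * x₃ ∉ zc (P : Subgroup G)) : False := by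
  have hP := core_cgen hG P
  rcases hP.cov x₁ hm₁ x₂ hm₂ hn₁ hn₂ h12 x₃ hm₃ with h | h | h | h
  · exact hn₃ h
  · exact h13 h
  · exact h23 h
  set z := x₃⁻¹ * (x₁ * x₂) with hz
  have hzZ : z ∈ zc (P : Subgroup G) := by
    rw [show z = ((x₁ * x₂)⁻¹ * x₃)⁻¹ by rw [hz]; group]
    exact inv_mem h
  have hs₁ := sq_eq_one hG P hm₁ hn₁ he₁
  have hs₂ := sq_eq_one hG P hm₂ hn₂ he₂
  have hs₃ := sq_eq_one hG P hm₃ hn₃ he₃
  have hne : x₁ * x₂ ≠ x₂ * x₁ := fun e => by
    rcases ((hP.mem_cx_iff hm₁ hn₁).1 (mem_cx.2 ⟨hm₂, e.symm⟩)).2 with h' | h'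
    exacts [hn₂ h', h12 h']
  have hp : z * z = cgen hG P := by
    have h1 : x₃ * z = x₁ * x₂ := by rw [hz]; group
    have h2 : z * x₃ = x₃ * z := ((mem_zc.1 hzZ).2 x₃ hm₃).symm
    calc z * z = (x₃ * x₃) * z * z := by rw [hs₃, one_mul]
      _ = x₃ * (x₃ * z) * z := by group
      _ = x₃ * (z * x₃) * z := by rw [h2]
      _ = (x₃ * z) * (x₃ * z) := by group
      _ = (x₁ * x₂) * (x₁ * x₂) := by rw [h1]
      _ = x₁ * x₂ * x₁⁻¹ * x₂⁻¹ := by
        rw [inv_eq_of_mul_eq_one_right hs₁, inv_eq_of_mul_eq_one_right hs₂]; group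
      _ = cgen hG P := hP.eq_of_ne hm₁ hm₂ hne
  apply cgen_not_mem_coreU hG P hm₃ hn₃ he₃
  rcases mem_coreU_or hG P hm₃ hn₃ he₃ hzZ with h' | h'
  · exact hp ▸ mul_mem h' h'
  · have := mul_mem h' h'
    have e : cgen hG P * z * (cgen hG P * z) = z * z := by
      calc _ = cgen hG P * (z * cgen hG P) * z := by group
        _ = cgen hG P * (cgen hG P * z) * z := by rw [(mem_zc.1 hzZ).2 _ hP.mem_R]
        _ = (cgen hG P * cgen hG P) * (z * z) := by group
        _ = z * z := by rw [hP.sq, one_mul]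
    rwa [e, hp] at this

/-- The normalizer of `P` acts trivially modulo the centre. -/
theorem normalizer_trivial {x g₀ : G} (hx : x ∈ (P : Subgroup G))
    (hxn : x ∉ zc (P : Subgroup G)) (hgx : g₀ * cgen hG P * g₀⁻¹ = x) :
    ∀ n ∈ Subgroup.normalizer ((P : Subgroup G) : Set G), ∀ w ∈ (P : Subgroup G),
      w⁻¹ * (n * w * n⁻¹) ∈ zc (P : Subgroup G) := by
  haveI : Fact (Nat.Prime 2) := ⟨Nat.prime_two⟩
  have hP := core_cgen hG P
  set N := Subgroup.normalizer ((P : Subgroup G) : Set G) with hN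
  set Z := zc (P : Subgroup G) with hZ
  have hmem : ∀ {n w : G}, n ∈ N → w ∈ (P : Subgroup G) → n * w * n⁻¹ ∈ (P : Subgroup G) :=
    fun hn hw => (Subgroup.mem_normalizer_iff.1 hn _).1 hw
  have hcz : ∀ {z w : G}, z ∈ Z → w ∈ (P : Subgroup G) → w * z = z * w :=
    fun hz hw => (mem_zc.1 hz).2 _ hw
  let K : Subgroup G :=
    { carrier := {n | n ∈ N ∧ ∀ w ∈ (P : Subgroup G), w⁻¹ * (n * w * n⁻¹) ∈ Z}
      mul_mem' := by
        rintro m n ⟨hm, hm'⟩ ⟨hn, hn'⟩
        refine ⟨mul_mem hm hn, fun w hw => ?_⟩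
        have := mul_mem (hn' w hw) (hm' _ (hmem hn hw))
        simpa [mul_assoc] using this
      one_mem' := ⟨one_mem _, fun w _ => by simp⟩
      inv_mem' := by
        rintro n ⟨hn, hn'⟩
        refine ⟨inv_mem hn, fun w hw => ?_⟩
        have := inv_mem (hn' _ (hmem (inv_mem hn) hw))
        simpa [mul_assoc] using this }
  have hPK : ∀ r ∈ (P : Subgroup G), r ∈ K := fun r hr => ⟨Subgroup.le_normalizer hr, fun w hw => by
    rcases hP.comm' hr hw with e | e <;> rw [e]
    · simp [Z]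
    · rw [← (mem_zc.1 hP.mem).2 w hw, inv_mul_cancel_left]
      exact hP.mem⟩
  intro n hn
  suffices h : n ∈ K from h.2
  have h4 : n ^ 4 ∈ K := by
    -- the square fixes the coset of `x`
    have hm : n * n ∈ N := mul_mem hn hn
    have hm1 : x⁻¹ * ((n * n) * x * (n * n)⁻¹) ∈ Z := by
      set y := n * x * n⁻¹ with hy
      have hyP := hmem hn hx
      by_cases hxy : x⁻¹ * y ∈ Z
      · have := mul_mem hxy ((zc_conj_of_normalizer hG P hn).2 hxy)
        rw [hy] at this
        simpa [mul_assoc] using this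
      · by_contra hxy'
        refine not_three hG P hx hyP (x₃ := n * n * x * (n * n)⁻¹) (hmem hm hx) hxn
          ?_ ?_ hgx (g₂ := n * g₀) ?_ (g₃ := n * n * g₀) ?_ hxy hxy' ?_
        · rwa [zc_conj_of_normalizer hG P hn]
        · rwa [zc_conj_of_normalizer hG P hm]
        · rw [← hgx]; group
        · rw [← hgx]; group
        · rw [show y⁻¹ * (n * n * x * (n * n)⁻¹) = n * (x⁻¹ * y) * n⁻¹ by rw [hy]; group,
            zc_conj_of_normalizer hG P hn]
          exact hxy
    refine ⟨pow_mem hn 4, fun w hw => ?_⟩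
    have e4 : n ^ 4 = n * n * (n * n) := by
      rw [pow_succ, pow_succ, pow_two]
      group
    rw [e4, show n * n * (n * n) * w * (n * n * (n * n))⁻¹
      = (n * n) * ((n * n) * w * (n * n)⁻¹) * (n * n)⁻¹ by group]
    set m := n * n
    have hfix : ∀ v ∈ (P : Subgroup G), v⁻¹ * (m * v * m⁻¹) ∈ Z →
        v⁻¹ * (m * (m * v * m⁻¹) * m⁻¹) ∈ Z := fun v _ h => by
      have := mul_mem h ((zc_conj_of_normalizer hG P hm).2 h)
      simpa [mul_assoc] using this
    by_cases hwZ : w ∈ Z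
    · exact hfix w hw (mul_mem (inv_mem hwZ) ((zc_conj_of_normalizer hG P hm).2 hwZ))
    by_cases hxw : x⁻¹ * w ∈ Z
    · refine hfix w hw ?_
      have h1 := mul_mem (mul_mem (inv_mem hxw) hm1) ((zc_conj_of_normalizer hG P hm).2 hxw)
      simpa [mul_assoc] using h1
    rcases hP.cov x hx w hw hxn hwZ hxw _ (hmem hm hw) with h | h | h | h
    · exact absurd ((zc_conj_of_normalizer hG P hm).1 h) hwZ
    · refine absurd ((zc_conj_of_normalizer hG P hm).1 ?_) hxw
      have := mul_mem (inv_mem hm1) h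
      simpa [mul_assoc] using this
    · exact hfix w hw h
    · set a := x⁻¹ * (m * x * m⁻¹) with ha
      set b := (x * w)⁻¹ * (m * w * m⁻¹) with hb
      have e : m * (m * w * m⁻¹) * m⁻¹
          = (m * x * m⁻¹) * (m * w * m⁻¹) * (m * b * m⁻¹) := by rw [hb]; group
      rw [e, show m * x * m⁻¹ = x * a by rw [ha]; group,
        show m * w * m⁻¹ = x * w * b by rw [hb]; group,
        show w⁻¹ * (x * a * (x * w * b) * (m * b * m⁻¹))
          = w⁻¹ * x * (a * (x * w)) * b * (m * b * m⁻¹) by group,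
        ← hcz hm1 (mul_mem hx hw),
        show w⁻¹ * x * (x * w * a) * b * (m * b * m⁻¹)
          = w⁻¹ * (x * x) * w * a * b * (m * b * m⁻¹) by group,
        sq_eq_one hG P hx hxn hgx, mul_one, inv_mul_cancel, one_mul]
      exact mul_mem (mul_mem hm1 h) ((zc_conj_of_normalizer hG P hm).2 h)
  -- an odd power lies in `P`
  set b := ((P : Subgroup G).subgroupOf N).index with hb
  have hodd : Nat.Coprime b 4 := by
    have h2 : Nat.Coprime b 2 := by
      refine Nat.coprime_comm.1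
        ((Nat.Prime.coprime_iff_not_dvd Nat.prime_two).2 fun hd => P.not_dvd_index ?_)
      rw [← Subgroup.relIndex_mul_index (show (P : Subgroup G) ≤ N from Subgroup.le_normalizer)]
      exact hd.mul_right _
    simpa using Nat.Coprime.mul_right h2 h2
  have hbP : n ^ b ∈ (P : Subgroup G) := by
    haveI : ((P : Subgroup G).subgroupOf N).Normal := Subgroup.normal_in_normalizer
    simpa [Subgroup.mem_subgroupOf] using Subgroup.pow_index_mem ((P : Subgroup G).subgroupOf N) ⟨n, hn⟩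
  have hbez := Nat.gcd_eq_gcd_ab b 4
  rw [hodd.gcd_eq_one] at hbez
  have : n = (n ^ b) ^ (Nat.gcdA b 4) * (n ^ 4) ^ (Nat.gcdB b 4) := by
    rw [← zpow_natCast n b, ← zpow_natCast n 4, ← zpow_mul, ← zpow_mul, ← zpow_add, ← hbez]
    simp
  rw [this]
  exact mul_mem (Subgroup.zpow_mem _ (hPK _ hbP) _) (Subgroup.zpow_mem _ h4 _)

/-- Grün's theorem in this situation. -/
theorem le_of_generators [IsSimpleGroup G] (hcomm : ¬ IsMulCommutative G) (K : Subgroup G)
    (hconj : ∀ g : G, g * cgen hG P * g⁻¹ ∈ (P : Subgroup G) → g * cgen hG P * g⁻¹ ∈ K)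
    (hfocal : ∀ n ∈ Subgroup.normalizer ((P : Subgroup G) : Set G), ∀ w ∈ (P : Subgroup G),
      w⁻¹ * (n * w * n⁻¹) ∈ K) :
    (P : Subgroup G) ≤ K := by
  haveI : Fact (Nat.Prime 2) := ⟨Nat.prime_two⟩
  have hperf : commutator G = ⊤ := by
    rcases (inferInstance : (commutator G).Normal).eq_bot_or_eq_top with h | h
    · exact absurd ((commutator_eq_bot_iff_center_eq_top G).1 h) fun hc => hcomm
        ⟨⟨fun a b => (Subgroup.mem_center_iff.1 (hc ▸ Subgroup.mem_top b) a)⟩⟩
    · exact h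
  have h := Cfsg.Agent.S4216.result P
  rw [hperf, inf_top_eq] at h
  rw [h]
  refine sup_le ?_ (iSup_le fun z => ?_)
  · set N := Subgroup.normalizer ((P : Subgroup G) : Set G) with hN
    rintro w ⟨hwP, hw⟩
    rw [← Subgroup.map_subtype_commutator] at hw
    obtain ⟨v, hv, rfl⟩ := hw
    have hv' : v ∈ commutator N ⊓ (P.subtype Subgroup.le_normalizer : Sylow 2 N) :=
      ⟨hv, by rw [Sylow.coe_subtype]; exact Subgroup.mem_subgroupOf.2 hwP⟩
    rw [Subgroup.commutator_inf_eq_focalSubgroup] at hv'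
    refine (Subgroup.closure_le (K.comap N.subtype)).2 ?_ hv'
    rintro g ⟨hg, a, ha, u, rfl⟩
    rw [Sylow.coe_subtype, Subgroup.mem_subgroupOf] at ha
    have := hfocal u u.2 _ (inv_mem ha)
    refine Subgroup.mem_comap.2 ?_
    simpa [commutatorElement_def, mul_assoc] using this
  · rintro w ⟨hwP, c, hc, rfl⟩
    have hle : ⁅(P : Subgroup G), (P : Subgroup G)⁆ ≤ Subgroup.zpowers (cgen hG P) := by
      rw [Subgroup.commutator_le]
      intro a ha b hb
      rw [commutatorElement_def]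
      rcases (core_cgen hG P).comm a ha b hb with e | e <;> rw [e]
      · simp [mul_assoc]
      · simpa [mul_assoc] using Subgroup.mem_zpowers (cgen hG P)
    obtain ⟨i, rfl⟩ := hle hc
    rcases Int.even_or_odd i with ⟨j, rfl⟩ | ⟨j, rfl⟩
    · have e : cgen hG P ^ (j + j) = 1 := by
        rw [← two_mul, zpow_mul, zpow_two, (core_cgen hG P).sq, one_zpow]
      simp [e]
    · have e : cgen hG P ^ (2 * j + 1) = cgen hG P := by
        rw [zpow_add, zpow_mul, zpow_two, (core_cgen hG P).sq, one_zpow, one_mul, zpow_one]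
      simp only [MulEquiv.coe_toMonoidHom, e, MulAut.conj_apply] at hwP ⊢
      exact hconj _ hwP

theorem exists_shape [IsSimpleGroup G] :
    ∃ x y, ∃ U, Shape (P : Subgroup G) (cgen hG P) x y U := by
  haveI : Fact (Nat.Prime 2) := ⟨Nat.prime_two⟩
  have hP := core_cgen hG P
  set p := cgen hG P with hp
  set Z := zc (P : Subgroup G) with hZ
  have hcomm : ¬ IsMulCommutative G := fun h => by
    obtain ⟨a, -, b, -, hne⟩ := hP.nonab
    exact hne (h.is_comm.comm a b)
  -- a first conjugate outside the centre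
  obtain ⟨g₁, hg₁, hg₁n⟩ : ∃ g, g * p * g⁻¹ ∈ (P : Subgroup G) ∧ g * p * g⁻¹ ≠ p := by
    by_contra h
    push Not at h
    have hpo : orderOf p = 2 := orderOf_eq_prime (by rw [pow_two, hP.sq]) hP.ne
    have hc := CfsgLib.Involutions.mem_center_of_isolated P hpo (fun g hg => h g hg)
      (CfsgLib.GWApps.RankTwoSimple.oddCore_eq_bot hcomm)
    rcases (inferInstance : (Subgroup.center G).Normal).eq_bot_or_eq_top with e | e
    · exact hP.ne (Subgroup.mem_bot.1 (e ▸ hc))
    · exact hcomm ⟨⟨fun a b => (Subgroup.mem_center_iff.1 (e ▸ Subgroup.mem_top b) a)⟩⟩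
  set x := g₁ * p * g₁⁻¹ with hxdef
  have hxn : x ∉ Z := fun h => hg₁n (eq_cgen hG P h rfl)
  have htriv := normalizer_trivial hG P hg₁ hxn rfl
  have hother : ∀ w ∈ (P : Subgroup G), w ∉ cx (P : Subgroup G) x → w ∉ Z ∧ x⁻¹ * w ∉ Z :=
    fun w hw hwn => ⟨fun h => hwn ((hP.mem_cx_iff hg₁ hxn).2 ⟨hw, Or.inl h⟩),
      fun h => hwn ((hP.mem_cx_iff hg₁ hxn).2 ⟨hw, Or.inr h⟩)⟩
  -- a second one
  obtain ⟨g₂, hg₂, hg₂x⟩ : ∃ g, g * p * g⁻¹ ∈ (P : Subgroup G) ∧
      g * p * g⁻¹ ∉ cx (P : Subgroup G) x := by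
    by_contra h
    push Not at h
    have hle := le_of_generators hG P hcomm (cx (P : Subgroup G) x) h fun n hn w hw =>
      zc_le_cx hg₁ (htriv n hn w hw)
    exact hxn (mem_zc.2 ⟨hg₁, fun r hr => (mem_cx.1 (hle hr)).2⟩)
  set y := g₂ * p * g₂⁻¹ with hydef
  obtain ⟨hyn, hxy⟩ := hother y hg₂ hg₂x
  have hx2 : x * x = 1 := sq_eq_one hG P hg₁ hxn hxdef.symm
  have hy2 : y * y = 1 := sq_eq_one hG P hg₂ hyn hydef.symm
  have hyx : y * x = p * (x * y) :=
    (hP.comm y hg₂ x hg₁).resolve_left fun e => hg₂x (mem_cx.2 ⟨hg₂, e⟩)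
  have hconj : ∀ g : G, g * p * g⁻¹ ∈ (P : Subgroup G) →
      g * p * g⁻¹ ∈ ({p, x, p * x, y, p * y} : Set G) := by
    intro g hg
    simp only [Set.mem_insert_iff, Set.mem_singleton_iff]
    set d := g * p * g⁻¹ with hd
    by_cases hdZ : d ∈ Z
    · exact Or.inl (eq_cgen hG P hdZ hd.symm)
    by_cases hdx : x⁻¹ * d ∈ Z
    · rcases eq_of_conj_mem hG P hg₁ hxn hxdef.symm ((hP.mem_cx_iff hg₁ hxn).2 ⟨hg, Or.inr hdx⟩)
        hd.symm with e | e | e <;> simp [e, p]
    by_cases hdy : y⁻¹ * d ∈ Z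
    · rcases eq_of_conj_mem hG P hg₂ hyn hydef.symm ((hP.mem_cx_iff hg₂ hyn).2 ⟨hg, Or.inr hdy⟩)
        hd.symm with e | e | e <;> simp [e, p]
    exact (not_three hG P hg₁ hg₂ hg hxn hyn hdZ hxdef.symm hydef.symm hd.symm hxy hdx hdy).elim
  -- the normalizer fixes the two subgroups `U`
  have hnA : ∀ a ∈ (P : Subgroup G), a ∉ Z → ∀ n ∈ Subgroup.normalizer ((P : Subgroup G) : Set G),
      n ∈ Subgroup.normalizer (cx (P : Subgroup G) a : Set G) := by
    intro a ha han n hn
    have key : ∀ n ∈ Subgroup.normalizer ((P : Subgroup G) : Set G),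
        ∀ w ∈ cx (P : Subgroup G) a, n * w * n⁻¹ ∈ cx (P : Subgroup G) a := by
      intro n hn w hw
      have := mul_mem hw (zc_le_cx ha (htriv n hn w (mem_cx.1 hw).1))
      rwa [mul_inv_cancel_left] at this
    refine Subgroup.mem_normalizer_iff.2 fun w => ⟨key n hn w, fun h => ?_⟩
    have := key _ (inv_mem hn) _ h
    simpa [mul_assoc] using this
  set U := coreU (cx (P : Subgroup G) x) with hUdef
  set U' := coreU (cx (P : Subgroup G) y) with hU'def
  have hUZ : U ≤ Z := coreU_le hG P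
  have hU'Z : U' ≤ Z := coreU_le hG P
  set J := Subgroup.zpowers p ⊔ U ⊓ U' with hJ
  have hpJ : p ∈ J := Subgroup.mem_sup_left (Subgroup.mem_zpowers p)
  have hJZ : J ≤ Z := sup_le (Subgroup.zpowers_le.2 hP.mem) (inf_le_left.trans hUZ)
  have hcz : ∀ {z w : G}, z ∈ Z → w ∈ (P : Subgroup G) → w * z = z * w :=
    fun hz hw => (mem_zc.1 hz).2 _ hw
  have hfoc : ∀ n ∈ Subgroup.normalizer ((P : Subgroup G) : Set G), ∀ w ∈ (P : Subgroup G),
      w⁻¹ * (n * w * n⁻¹) ∈ J := by
    intro n hn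
    have hnp : n * p * n⁻¹ = p := conj_cgen_of_normalizer hG P hn
    have hmul : ∀ v v', v ∈ (P : Subgroup G) → v' ∈ (P : Subgroup G) →
        v⁻¹ * (n * v * n⁻¹) ∈ J → v'⁻¹ * (n * v' * n⁻¹) ∈ J →
        (v * v')⁻¹ * (n * (v * v') * n⁻¹) ∈ J := by
      intro v v' hv hv' h h'
      rw [show (v * v')⁻¹ * (n * (v * v') * n⁻¹)
          = v'⁻¹ * ((v⁻¹ * (n * v * n⁻¹)) * (n * v' * n⁻¹)) by group,
        ← hcz (hJZ h) ((Subgroup.mem_normalizer_iff.1 hn _).1 hv'), ← mul_assoc]
      exact mul_mem h' h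
    have hzJ : ∀ z ∈ Z, z⁻¹ * (n * z * n⁻¹) ∈ J := by
      intro z hz
      refine Subgroup.mem_sup_right (Subgroup.mem_inf.2 ⟨?_, ?_⟩)
      · rcases mem_coreU_or hG P hg₁ hxn hxdef.symm hz with h | h
        · exact mul_mem (inv_mem h) (coreU_conj (hnA x hg₁ hxn n hn) h)
        · have := mul_mem (inv_mem h) (coreU_conj (hnA x hg₁ hxn n hn) h)
          rwa [show (p * z)⁻¹ * (n * (p * z) * n⁻¹)
              = z⁻¹ * (p⁻¹ * (n * p * n⁻¹)) * (n * z * n⁻¹) by group,
            hnp, inv_mul_cancel, mul_one] at this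
      · rcases mem_coreU_or hG P hg₂ hyn hydef.symm hz with h | h
        · exact mul_mem (inv_mem h) (coreU_conj (hnA y hg₂ hyn n hn) h)
        · have := mul_mem (inv_mem h) (coreU_conj (hnA y hg₂ hyn n hn) h)
          rwa [show (p * z)⁻¹ * (n * (p * z) * n⁻¹)
              = z⁻¹ * (p⁻¹ * (n * p * n⁻¹)) * (n * z * n⁻¹) by group,
            hnp, inv_mul_cancel, mul_one] at this
    have hgen : ∀ (g a : G), g * p * g⁻¹ = a → a ∈ (P : Subgroup G) → a ∉ Z →
        a⁻¹ * (n * a * n⁻¹) ∈ J := by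
      intro g a hga ha han
      have hd := htriv n hn a ha
      have hmem : n * a * n⁻¹ ∈ cx (P : Subgroup G) a :=
        (hP.mem_cx_iff ha han).2 ⟨(Subgroup.mem_normalizer_iff.1 hn _).1 ha, Or.inr hd⟩
      rcases eq_of_conj_mem hG P ha han hga hmem (g := n * g) (by simp only [p, ← hga]; group) with e | e | e
      · exact absurd ((zc_conj_of_normalizer hG P hn).1 (e ▸ hP.mem)) han
      · rw [e, inv_mul_cancel]; exact one_mem _
      · rw [e, ← hcz hP.mem ha, inv_mul_cancel_left]; exact hpJ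
    intro w hw
    have hsplit : ∀ v, v ∈ (P : Subgroup G) → v⁻¹ * (n * v * n⁻¹) ∈ J → v⁻¹ * w ∈ Z →
        w⁻¹ * (n * w * n⁻¹) ∈ J := fun v hv hvJ hz => by
      have := hmul v (v⁻¹ * w) hv (mem_zc.1 hz).1 hvJ (hzJ _ hz)
      rwa [mul_inv_cancel_left] at this
    rcases hP.cov x hg₁ y hg₂ hxn hyn hxy w hw with h | h | h | h
    · exact hzJ w h
    · exact hsplit x hg₁ (hgen g₁ x rfl hg₁ hxn) h
    · exact hsplit y hg₂ (hgen g₂ y rfl hg₂ hyn) h
    · exact hsplit (x * y) (mul_mem hg₁ hg₂)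
        (hmul x y hg₁ hg₂ (hgen g₁ x rfl hg₁ hxn) (hgen g₂ y rfl hg₂ hyn)) h
  -- every element has the form `x^i y^j p^k u`
  have hform : ∀ w ∈ (P : Subgroup G), ∃ (i j : ℕ), ∃ v ∈ J, w = x ^ i * y ^ j * v := by
    have hswap : ∀ i j : ℕ, ∃ v ∈ J, y ^ j * x ^ i = x ^ i * y ^ j * v := by
      have h1 : ∀ i : ℕ, ∃ v ∈ J, y * x ^ i = x ^ i * y * v := by
        intro i
        induction i with
        | zero => exact ⟨1, one_mem _, by simp⟩
        | succ i ih =>
          obtain ⟨v, hv, e⟩ := ih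
          refine ⟨p * v, mul_mem hpJ hv, ?_⟩
          rw [pow_succ, ← mul_assoc, e, mul_assoc, ← hcz (hJZ hv) hg₁,
            show x ^ i * y * (x * v) = x ^ i * (y * x) * v by group, hyx,
            ← mul_assoc p, ← hcz hP.mem hg₁,
            show x ^ i * (x * p * y) * v = x ^ i * x * (p * y) * v by group, ← hcz hP.mem hg₂]
          group
      intro i j
      induction j with
      | zero => exact ⟨1, one_mem _, by simp⟩
      | succ j ih =>
        obtain ⟨v, hv, e⟩ := ih
        obtain ⟨v', hv', e'⟩ := h1 i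
        refine ⟨v' * v, mul_mem hv' hv, ?_⟩
        rw [pow_succ', mul_assoc, e, ← mul_assoc, ← mul_assoc, e',
          show x ^ i * y * v' * y ^ j * v = x ^ i * y * (v' * y ^ j) * v by group,
          ← hcz (hJZ hv') (pow_mem hg₂ j)]
        group
    let K : Subgroup G :=
      { toSubmonoid :=
          { carrier := {w | ∃ (i j : ℕ), ∃ v ∈ J, w = x ^ i * y ^ j * v}
            mul_mem' := by
              rintro _ _ ⟨i, j, v, hv, rfl⟩ ⟨i', j', v', hv', rfl⟩
              obtain ⟨t, ht, e⟩ := hswap i' j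
              refine ⟨i + i', j + j', t * v * v', mul_mem (mul_mem ht hv) hv', ?_⟩
              rw [pow_add, pow_add,
                show x ^ i * y ^ j * v * (x ^ i' * y ^ j' * v')
                  = x ^ i * y ^ j * (v * (x ^ i' * y ^ j')) * v' by group,
                ← hcz (hJZ hv) (mul_mem (pow_mem hg₁ _) (pow_mem hg₂ _)),
                show x ^ i * y ^ j * (x ^ i' * y ^ j' * v) * v'
                  = x ^ i * (y ^ j * x ^ i') * y ^ j' * v * v' by group, e,
                show x ^ i * (x ^ i' * y ^ j * t) * y ^ j' * v * v'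
                  = x ^ i * x ^ i' * y ^ j * (t * y ^ j') * v * v' by group,
                ← hcz (hJZ ht) (pow_mem hg₂ j')]
              group
            one_mem' := ⟨0, 0, 1, one_mem _, by simp⟩ }
        inv_mem' := by
          rintro _ ⟨i, j, v, hv, rfl⟩
          obtain ⟨t, ht, e⟩ := hswap i j
          refine ⟨i, j, t * v⁻¹, mul_mem ht (inv_mem hv), ?_⟩
          have hxi : x⁻¹ = x := inv_eq_of_mul_eq_one_right hx2
          have hyi : y⁻¹ = y := inv_eq_of_mul_eq_one_right hy2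
          rw [mul_inv_rev, mul_inv_rev, ← inv_pow, ← inv_pow, hxi, hyi, e,
            ← hcz (inv_mem (hJZ hv)) (mul_mem (mul_mem (pow_mem hg₁ _) (pow_mem hg₂ _))
              (mem_zc.1 (hJZ ht)).1)]
          group }
    intro w hw
    refine le_of_generators hG P hcomm K (fun g hg => ?_) (fun n hn w hw => ?_) hw
    · have h := hconj g hg
      simp only [Set.mem_insert_iff, Set.mem_singleton_iff] at h
      rcases h with e | e | e | e | e <;> rw [← hp, e]
      · exact ⟨0, 0, p, hpJ, by simp⟩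
      · exact ⟨1, 0, 1, one_mem _, by simp⟩
      · exact ⟨1, 0, p, hpJ, by rw [pow_zero, mul_one, pow_one, hcz hP.mem hg₁]⟩
      · exact ⟨0, 1, 1, one_mem _, by simp⟩
      · exact ⟨0, 1, p, hpJ, by rw [pow_zero, one_mul, pow_one, hcz hP.mem hg₂]⟩
    · exact ⟨0, 0, _, hfoc n hn w hw, by simp⟩
  have hpow : ∀ {a : G}, a * a = 1 → ∀ i : ℕ, a ^ i = 1 ∨ a ^ i = a := fun h i => by
    induction i with
    | zero => simp
    | succ i ih => rcases ih with e | e <;> simp [pow_succ, e, h]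
  have hZJ : Z ≤ J := by
    intro z hz
    obtain ⟨i, j, v, hv, rfl⟩ := hform z (mem_zc.1 hz).1
    have h := mul_mem hz (inv_mem (hJZ hv))
    rw [mul_inv_cancel_right] at h
    rcases hpow hx2 i with ei | ei <;> rcases hpow hy2 j with ej | ej <;> rw [ei, ej] at h ⊢ <;>
      (try simp only [one_mul, mul_one] at h ⊢)
    · exact hv
    · exact absurd h hyn
    · exact absurd h hxn
    · refine absurd ?_ hxy
      rwa [inv_eq_of_mul_eq_one_right hx2]
  have hsplit : ∀ z ∈ Z, z ∈ U ⊓ U' ∨ p * z ∈ U ⊓ U' := by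
    have hcp : ∀ {w : G}, w ∈ U ⊓ U' → p * w = w * p := fun hw =>
      hcz (hUZ (Subgroup.mem_inf.1 hw).1) hP.mem_R
    let T : Subgroup G :=
      { carrier := {z | z ∈ U ⊓ U' ∨ p * z ∈ U ⊓ U'}
        mul_mem' := by
          rintro a b (ha | ha) (hb | hb)
          · exact Or.inl (mul_mem ha hb)
          · right
            rw [← mul_assoc, hcp ha, mul_assoc]
            exact mul_mem ha hb
          · right
            rw [← mul_assoc]
            exact mul_mem ha hb
          · left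
            have := mul_mem ha hb
            have hcm : p * (p * a) = p * a * p := hcp ha
            rwa [show p * a * (p * b) = (p * a * p) * b by group, ← hcm, ← mul_assoc p, hP.sq,
              one_mul] at this
        one_mem' := Or.inl (one_mem _)
        inv_mem' := by
          rintro a (ha | ha)
          · exact Or.inl (inv_mem ha)
          · right
            have hcm : p * (p * a) = p * a * p := hcp ha
            rw [← mul_assoc, hP.sq, one_mul] at hcm
            have h := inv_mem ha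
            have e : (p * a)⁻¹ = p * a⁻¹ := by
              have : a⁻¹ * p = p * a⁻¹ := by
                conv_lhs => rw [hcm]
                simp [mul_assoc, inv_eq_of_mul_eq_one_right hP.sq, hP.sq]
              rw [mul_inv_rev, inv_eq_of_mul_eq_one_right hP.sq, this]
            exact e ▸ h }
    intro z hz
    exact (sup_le (Subgroup.zpowers_le.2 (Or.inr (by rw [hP.sq]; exact one_mem _)))
      (fun w hw => Or.inl hw) : J ≤ T) (hZJ hz)
  have hUU : U = U ⊓ U' := by
    refine le_antisymm (fun u hu => ?_) inf_le_left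
    rcases hsplit u (hUZ hu) with h | h
    · exact h
    · exact absurd (by have h' := mul_mem (Subgroup.mem_inf.1 h).1 (inv_mem hu); rwa [mul_inv_cancel_right] at h')
        (cgen_not_mem_coreU hG P hg₁ hxn hxdef.symm)
  have hUU' : U' = U ⊓ U' := by
    refine le_antisymm (fun u hu => ?_) inf_le_right
    rcases hsplit u (hU'Z hu) with h | h
    · exact h
    · exact absurd (by have h' := mul_mem (Subgroup.mem_inf.1 h).2 (inv_mem hu); rwa [mul_inv_cancel_right] at h')
        (cgen_not_mem_coreU hG P hg₂ hyn hydef.symm)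
  exact ⟨x, y, U,
    { core := hP, memx := hg₁, memy := hg₂, nx := hxn, ny := hyn, nxy := hxy, sqx := hx2,
      sqy := hy2, yx := hyx, U_le := hUZ
      np := cgen_not_mem_coreU hG P hg₁ hxn hxdef.symm
      split := fun z hz => (hsplit z hz).imp (fun h => h.1) fun h => h.1
      conj := hconj
      norm := fun n hn => ⟨htriv n hn, fun u hu => coreU_conj (hnA x hg₁ hxn n hn) hu⟩
      hx := exists_normalizer_conj hG P hg₁ hxn hxdef.symm
      hy := exists_normalizer_conj hG P hg₂ hyn hydef.symm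
      Ux := rfl
      Uy := hUU.trans hUU'.symm }⟩

end CfsgLib.CentralFour
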