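import Cfsg.Agent.Lib.CentralFour.Sylows

/-!
# The conjugates of the commutator element in an abelian maximal subgroup
-/

set_option autoImplicit false
set_option linter.unusedSectionVars false
set_option linter.style.haveILetI false

open scoped Pointwise

namespace CfsgLib.CentralFour

variable {G : Type*} [Group G]

/-- The intersection of the centres of the Sylow 2-subgroups over `A`. -/
def coreU (A : Subgroup G) : Subgroup G :=
  ⨅ S : {S : Sylow 2 G // A ≤ (S : Subgroup G)}, zc ((S : Sylow 2 G) : Subgroup G)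

theorem mem_coreU {A : Subgroup G} {u : G} :
    u ∈ coreU A ↔ ∀ S : Sylow 2 G, A ≤ (S : Subgroup G) → u ∈ zc (S : Subgroup G) := by
  simp [coreU, Subgroup.mem_iInf]

theorem le_smul_of_normalizer {A : Subgroup G} {S : Sylow 2 G} {h : G}
    (hh : h ∈ Subgroup.normalizer (A : Set G)) (hS : A ≤ (S : Subgroup G)) :
    A ≤ ((h • S : Sylow 2 G) : Subgroup G) := fun a ha =>
  mem_smul_sylow.2 (hS ((Subgroup.mem_normalizer_iff''.1 hh a).1 ha))

theorem coreU_conj {A : Subgroup G} {h u : G} (hh : h ∈ Subgroup.normalizer (A : Set G))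
    (hu : u ∈ coreU A) : h * u * h⁻¹ ∈ coreU A := by
  refine mem_coreU.2 fun S hS => ?_
  have h1 := mem_coreU.1 hu (h⁻¹ • S) (le_smul_of_normalizer (inv_mem hh) hS)
  rwa [← zc_smul (g := h), smul_inv_smul] at h1

variable [Finite G] (hG : Good G) (P : Sylow 2 G)

include hG

theorem coreU_le {a : G} : coreU (cx (P : Subgroup G) a) ≤ zc (P : Subgroup G) := fun _ hu =>
  mem_coreU.1 hu P inf_le_left

/-- A 2-subgroup containing `A`, centralising `a` and leading to no Sylow 2-subgroup with another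
commutator element lies in `A`. -/
theorem le_cx_of_max {a : G} (ha : a ∈ (P : Subgroup G)) (han : a ∉ zc (P : Subgroup G))
    {Q : Subgroup G} (hQ : IsPGroup 2 Q) (hAQ : cx (P : Subgroup G) a ≤ Q)
    (hQa : ∀ q ∈ Q, q * a = a * q)
    (hc : ∀ R : Sylow 2 G, (R : Subgroup G) = Q → cgen hG R = cgen hG P) :
    Q ≤ cx (P : Subgroup G) a := by
  haveI : Fact (Nat.Prime 2) := ⟨Nat.prime_two⟩
  obtain ⟨R, hR⟩ := hQ.exists_le_sylow
  have haA : a ∈ cx (P : Subgroup G) a := mem_cx.2 ⟨ha, rfl⟩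
  by_cases haR : a ∈ zc (R : Subgroup G)
  swap
  · rw [← cx_eq hG ha han (hAQ.trans hR) haA haR]
    exact fun q hq => mem_cx.2 ⟨hR hq, hQa q hq⟩
  by_contra hne
  have hAR : Nat.card (R : Subgroup G) = 2 * Nat.card (cx (P : Subgroup G) a) := by
    rw [(core_cgen hG R).card, (core_cgen hG P).card_cx ha han, card_sylow_eq hG R P]
    ring
  obtain ⟨i, hi⟩ := Subgroup.card_dvd_of_le hAQ
  obtain ⟨j, hj⟩ := Subgroup.card_dvd_of_le hR
  have hij : i * j = 2 := by
    rw [hj, hi, mul_assoc, mul_comm 2] at hAR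
    exact Nat.eq_of_mul_eq_mul_left Nat.card_pos hAR
  have hi1 : i ≠ 1 := fun e => hne (Subgroup.eq_of_le_of_card_ge hAQ (by rw [hi, e, mul_one])).ge
  have hi2 : i = 2 := by
    have : i ∣ 2 := ⟨j, hij.symm⟩
    exact ((Nat.dvd_prime Nat.prime_two).1 this).resolve_left hi1
  have hQR : Q = (R : Subgroup G) := Subgroup.eq_of_le_of_card_ge hR (by
    rw [hj, show j = 1 by rw [hi2] at hij; omega, mul_one])
  rw [zc_eq hG ha han (R := P) (S := R) inf_le_left (hAQ.trans hR) (hc R hQR.symm)] at haR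
  exact han haR

variable {x g₀ : G} (hx : x ∈ (P : Subgroup G)) (hxn : x ∉ zc (P : Subgroup G))
  (hgx : g₀ * cgen hG P * g₀⁻¹ = x)

include hx hxn hgx

theorem sq_eq_one : x * x = 1 := by
  rw [← hgx]
  calc _ = g₀ * (cgen hG P * cgen hG P) * g₀⁻¹ := by group
    _ = 1 := by rw [(core_cgen hG P).sq]; group

theorem exists_cgen_eq : ∃ R : Sylow 2 G, cx (P : Subgroup G) x ≤ R ∧ cgen hG R = x := by
  have hK : ((g₀ • P : Sylow 2 G) : Subgroup G) ≤ Subgroup.centralizer {x} := by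
    intro r hr
    rw [Subgroup.mem_centralizer_singleton_iff]
    have hm : x ∈ zc ((g₀ • P : Sylow 2 G) : Subgroup G) := by
      rw [← hgx, zc_smul]
      exact (core_cgen hG P).mem
    exact (mem_zc.1 hm).2 r hr
  obtain ⟨R, hAR, hRK⟩ := exists_sylow_le (g₀ • P) hK
    (P.2.to_le (inf_le_left : cx (P : Subgroup G) x ≤ P)) inf_le_right
  refine ⟨R, hAR, ?_⟩
  obtain ⟨k, hk⟩ := MulAction.exists_smul_eq G P R
  refine ((eq_cgen hG R (mem_zc.2 ⟨hAR (mem_cx.2 ⟨hx, rfl⟩), fun r hr => ?_⟩)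
    (g := g₀ * k⁻¹) ?_)).symm
  · exact Subgroup.mem_centralizer_singleton_iff.1 (hRK hr)
  · rw [← hk, cgen_smul, ← hgx]
    group

/-- The conjugates of the commutator element in `A`. -/
theorem eq_of_conj_mem {d g : G} (hd : d ∈ cx (P : Subgroup G) x)
    (hgd : g * cgen hG P * g⁻¹ = d) :
    d = cgen hG P ∨ d = x ∨ d = cgen hG P * x := by
  by_cases hdZ : d ∈ zc (P : Subgroup G)
  · exact Or.inl (eq_cgen hG P hdZ hgd)
  by_cases hdx : d = x
  · exact Or.inr (Or.inl hdx)
  refine Or.inr (Or.inr ?_)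
  have hx2 := sq_eq_one hG P hx hxn hgx
  have hxi : x⁻¹ = x := inv_eq_of_mul_eq_one_right hx2
  have he : x⁻¹ * d ∈ zc (P : Subgroup G) :=
    ((((core_cgen hG P).mem_cx_iff hx hxn).1 hd).2).resolve_left hdZ
  rw [hxi] at he
  obtain ⟨R, hAR, hR⟩ := exists_cgen_eq hG P hx hxn hgx
  obtain ⟨k, hk⟩ := MulAction.exists_smul_eq G P R
  have hdn : d ∉ zc (R : Subgroup G) := fun h => hdx <| by
    rw [← hR]
    refine eq_cgen hG R (g := g * k⁻¹) h ?_
    rw [← hk, cgen_smul, ← hgd]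
    group
  obtain ⟨r, hr, hrd⟩ : ∃ r ∈ (R : Subgroup G), r * d ≠ d * r := by
    by_contra h
    push Not at h
    exact hdn (mem_zc.2 ⟨hAR hd, h⟩)
  have hrd' : r * d * r⁻¹ = x * d := hR ▸ (core_cgen hG R).eq_or_ne (hAR hd) hr hrd
  have hp : x * d = cgen hG P := eq_cgen hG P he (g := r * g) (by
    rw [← hrd', ← hgd]
    group)
  calc d = x * (x * d) := by rw [← mul_assoc, hx2, one_mul]
    _ = x * cgen hG P := by rw [hp]
    _ = cgen hG P * x := (mem_zc.1 (core_cgen hG P).mem).2 x hx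

theorem cgen_not_mem_coreU : cgen hG P ∉ coreU (cx (P : Subgroup G) x) := by
  intro h
  obtain ⟨R, hAR, hR⟩ := exists_cgen_eq hG P hx hxn hgx
  have := eq_cgen hG R (mem_coreU.1 h R hAR) (g := g₀⁻¹) (by rw [hR, ← hgx]; group)
  rw [hR] at this
  exact hxn (this ▸ (core_cgen hG P).mem)

theorem mem_coreU_or {z : G} (hz : z ∈ zc (P : Subgroup G)) :
    z ∈ coreU (cx (P : Subgroup G) x) ∨ cgen hG P * z ∈ coreU (cx (P : Subgroup G) x) := by
  obtain ⟨R, hAR, hR⟩ := exists_cgen_eq hG P hx hxn hgx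
  have hpR : cgen hG P ∉ zc (R : Subgroup G) := fun h => by
    have := eq_cgen hG R h (g := g₀⁻¹) (by rw [hR, ← hgx]; group)
    rw [hR] at this
    exact hxn (this ▸ (core_cgen hG P).mem)
  have hcore : ∀ z ∈ zc (P : Subgroup G), z ∈ zc (R : Subgroup G) →
      z ∈ coreU (cx (P : Subgroup G) x) := by
    intro z hz hzR
    refine mem_coreU.2 fun S hS => ?_
    obtain ⟨k, hk⟩ := MulAction.exists_smul_eq G P S
    rcases eq_of_conj_mem hG P hx hxn hgx (cgen_mem_cx hG hx hxn hS) (g := k)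
      (by rw [← hk, cgen_smul]) with e | e | e
    · rw [zc_eq hG hx hxn inf_le_left hS e]
      exact hz
    · rw [zc_eq hG hx hxn hAR hS (e.trans hR.symm)]
      exact hzR
    · -- an element of `P` outside `A` exchanges the two Sylow subgroups
      obtain ⟨r, hr, hrx⟩ : ∃ r ∈ (P : Subgroup G), r * x ≠ x * r := by
        by_contra h
        push Not at h
        exact hxn (mem_zc.2 ⟨hx, h⟩)
      have hrn := le_normalizer_cx hG hx hxn (inf_le_left : cx (P : Subgroup G) x ≤ P) hr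
      have hc : cgen hG (r • R) = cgen hG S := by
        rw [cgen_smul, hR, e, (core_cgen hG P).eq_or_ne hx hr hrx]
      rw [zc_eq hG hx hxn (le_smul_of_normalizer hrn hAR) hS hc.symm,
        ← show r * z * r⁻¹ = z by rw [(mem_zc.1 hz).2 r hr, mul_inv_cancel_right], zc_smul]
      exact hzR
  have hzA : z ∈ cx (P : Subgroup G) x := zc_le_cx hx hz
  by_cases hzR : z ∈ zc (R : Subgroup G)
  · exact Or.inl (hcore z hz hzR)
  refine Or.inr (hcore _ (mul_mem (core_cgen hG P).mem hz) ?_)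
  have hpA : cgen hG P ∈ cx (P : Subgroup G) x := zc_le_cx hx (core_cgen hG P).mem
  have h1 : z ∈ cx (R : Subgroup G) (cgen hG P) := by
    rw [cx_eq hG hx hxn hAR hpA hpR]
    exact hzA
  rcases (((core_cgen hG R).mem_cx_iff (hAR hpA) hpR).1 h1).2 with h | h
  · exact absurd h hzR
  · rwa [(core_cgen hG P).inv_eq] at h

/-- An element of the normalizer of `A` moves `x` to the commutator element. -/
theorem exists_normalizer_conj :
    ∃ h ∈ Subgroup.normalizer (cx (P : Subgroup G) x : Set G), h * x * h⁻¹ = cgen hG P := by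
  obtain ⟨R, hAR, hR⟩ := exists_cgen_eq hG P hx hxn hgx
  obtain ⟨h, hh, e⟩ := exists_smul_eq_in (le_normalizer_cx hG hx hxn hAR)
    (le_normalizer_cx hG hx hxn (inf_le_left : cx (P : Subgroup G) x ≤ P))
  refine ⟨h, hh, ?_⟩
  rw [← hR, ← cgen_smul hG R h, e]

end CfsgLib.CentralFour
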