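import Cfsg.Agent.Lib.BlockStar.Elementary
import Cfsg.Agent.Lib.Brauer.Induction
import Cfsg.Agent.Lib.CharTheory.Decomp
import Cfsg.Agent.Lib.Brauer.CharRing

/-!
# Class functions depending on the 2-part only

A class function depending only on the 2-part whose restriction to a Sylow 2-subgroup is a
generalized character is a generalized character; the 2-part of a product of an involution with an
involution central in each 2-subgroup containing it.
-/

set_option autoImplicit false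
set_option linter.unusedSectionVars false
set_option linter.style.haveILetI false

open Cfsg CfsgLib.BlockStar CfsgLib.Blocks

namespace CfsgLib.CentralFour

variable {G : Type*} [Group G] [Finite G]

local notation "π" => CfsgLib.BlockStar.ppart 2

theorem exists_orderOf_twoPart (g : G) : ∃ k : ℕ, orderOf (π g) = 2 ^ k := by
  obtain ⟨y, -, -, hk, -⟩ := ppart_spec (p := 2) g
  exact hk

theorem twoPart_of_twoElement {g : G} (h : ∃ k : ℕ, orderOf g = 2 ^ k) : π g = g :=
  ppart_eq ⟨1, mul_one g, Commute.one_right g, h, by simp⟩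

theorem twoPart_twoPart (g : G) : π (π g) = π g := twoPart_of_twoElement (exists_orderOf_twoPart g)

theorem twoPart_mem {H : Subgroup G} {g : G} (hg : g ∈ H) : π g ∈ H :=
  (Subgroup.zpowers_le.2 hg) (mem_zpowers_of_isPPart (ppart_spec g))

theorem twoPart_one : π (1 : G) = 1 := twoPart_of_twoElement ⟨0, by simp⟩

theorem exists_twoPow_of_mem {Q : Subgroup G} (hQ : IsPGroup 2 Q) {x : G} (hx : x ∈ Q) :
    ∃ k : ℕ, orderOf x = 2 ^ k := by
  haveI : Fact (Nat.Prime 2) := ⟨Nat.prime_two⟩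
  obtain ⟨k, hk⟩ := IsPGroup.iff_orderOf.1 hQ ⟨x, hx⟩
  exact ⟨k, by rwa [← Subgroup.orderOf_mk x hx] ⟩

theorem isPGroup_zpowers' {x : G} (h : ∃ k : ℕ, orderOf x = 2 ^ k) :
    IsPGroup 2 (Subgroup.zpowers x) := by
  obtain ⟨k, hk⟩ := h
  exact IsPGroup.of_card (n := k) (by rw [Nat.card_zpowers, hk])

theorem exists_conj_mem_sylow (P : Sylow 2 G) {Q : Subgroup G} (hQ : IsPGroup 2 Q) :
    ∃ c : G, ∀ x ∈ Q, c * x * c⁻¹ ∈ (P : Subgroup G) := by
  obtain ⟨R, hR⟩ := hQ.exists_le_sylow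
  obtain ⟨c, hc⟩ := MulAction.exists_smul_eq G R P
  refine ⟨c, fun x hx => ?_⟩
  rw [← hc, Sylow.coe_subgroup_smul]
  exact ⟨x, hR hx, rfl⟩

/-- A class function of the 2-part that is a generalized character on a Sylow 2-subgroup is a
generalized character. -/
theorem isGeneralizedCharacter_of_twoPart [Fintype G] (P : Sylow 2 G) {θ : G → ℂ}
    (hc : IsClassFunction G θ) (hθ : ∀ g, θ g = θ (π g))
    (hP : IsGeneralizedCharacter (P : Subgroup G) (fun x => θ x)) :
    IsGeneralizedCharacter G θ := by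
  refine CfsgLib.Brauer.isGeneralizedCharacter_of_elementary hc fun E ℓ hℓ hE => ?_
  obtain ⟨T, R, hT, hRT, hR, rfl⟩ := exists_decomp_of_isElementary (p := 2) hℓ hE
  obtain ⟨c, hcP⟩ := exists_conj_mem_sylow P hT
  let f : (T ⊔ R : Subgroup G) →* (P : Subgroup G) :=
    MonoidHom.mk' (fun e => ⟨c * π (e : G) * c⁻¹, hcP _ (ppart_mem hT hRT hR e.2)⟩) fun a b =>
      Subtype.ext (by
        simp only [Subgroup.coe_mul]
        rw [ppart_mul_mul hT hRT hR a.2 b.2]
        group)
  obtain ⟨α, β, hα, hβ, hab⟩ := hP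
  refine ⟨fun e => α (f e), fun e => β (f e), CfsgLib.Coherence.isCharacter_comp hα f,
    CfsgLib.Coherence.isCharacter_comp hβ f, funext fun e => ?_⟩
  have h := congrFun hab (f e)
  simp only [Pi.sub_apply] at h ⊢
  rw [← h, hθ, ← hc (π (e : G)) c]
  rfl

/-- If `r` is an involution central in each 2-subgroup containing it and `g r` is an involution,
then the 2-part `x` of `g` is an element of square one centralising `r`, and `g r` is conjugate to
`x r`. -/
theorem twoPart_mul_involution {r d : G} (hr : r * r = 1) (hd : d * d = 1)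
    (hcen : ∀ Q : Subgroup G, IsPGroup 2 Q → r ∈ Q → ∀ y ∈ Q, Commute y r) :
    π (d * r) * π (d * r) = 1 ∧ Commute (π (d * r)) r ∧ IsConj (π (d * r) * r) d := by
  set g := d * r with hg
  have hr' : r⁻¹ = r := inv_eq_of_mul_eq_one_right hr
  have hd' : d⁻¹ = d := inv_eq_of_mul_eq_one_right hd
  have hinv : r * g * r⁻¹ = g⁻¹ := by rw [hg, mul_inv_rev, hr', hd', mul_assoc, mul_assoc, hr, mul_one]
  obtain ⟨y, hxy, hc, ⟨k, hk⟩, hy⟩ := ppart_spec (p := 2) g
  set x := π g
  have hgi : π g⁻¹ = x⁻¹ := ppart_eq ⟨y⁻¹, by rw [← hxy, mul_inv_rev, (hc.inv_inv).eq],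
    hc.inv_inv, ⟨k, by rw [orderOf_inv, hk]⟩, by rwa [orderOf_inv]⟩
  have hxinv : r * x * r⁻¹ = x⁻¹ := by rw [← hgi, ← hinv, ppart_conj]
  -- the 2-group generated by `x` and `r`
  have hrn : r ∈ Subgroup.normalizer (Subgroup.zpowers x : Set G) := by
    have hin : ∀ n ∈ Subgroup.zpowers x, r * n * r⁻¹ ∈ Subgroup.zpowers x := by
      rintro _ ⟨i, rfl⟩
      exact ⟨-i, by rw [← MulAut.conj_apply, map_zpow, MulAut.conj_apply, hxinv, inv_zpow']⟩
    refine Subgroup.mem_normalizer_iff.2 fun n => ⟨hin n, fun hn => ?_⟩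
    have h := hin _ hn
    rw [hr'] at h
    rwa [← mul_assoc, ← mul_assoc, hr, one_mul, mul_assoc, hr, mul_one] at h
  have hQ : IsPGroup 2 (Subgroup.zpowers x ⊔ Subgroup.zpowers r : Subgroup G) := by
    refine IsPGroup.to_sup_of_normal_left' (isPGroup_zpowers' ⟨k, hk⟩) (isPGroup_zpowers' ?_)
      (Subgroup.zpowers_le.2 hrn)
    obtain ⟨j, -, hj⟩ := (Nat.dvd_prime_pow Nat.prime_two).1
      (orderOf_dvd_of_pow_eq_one (show r ^ 2 ^ 1 = 1 by rw [pow_one, pow_two, hr]))
    exact ⟨j, hj⟩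
  have hcx : Commute x r := hcen _ hQ (Subgroup.mem_sup_right (Subgroup.mem_zpowers r)) x
    (Subgroup.mem_sup_left (Subgroup.mem_zpowers x))
  have hx2 : x * x = 1 := by
    have h : x⁻¹ = x := by rw [← hxinv, ← hcx.eq, mul_assoc, mul_inv_cancel, mul_one]
    nth_rewrite 1 [← h]
    exact inv_mul_cancel x
  have hyinv : r * y * r⁻¹ = y⁻¹ := by
    have h1 : y = x⁻¹ * g := by rw [← hxy, inv_mul_cancel_left]
    calc r * y * r⁻¹ = (r * x * r⁻¹)⁻¹ * (r * g * r⁻¹) := by rw [h1]; group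
      _ = x * g⁻¹ := by rw [hxinv, hinv, inv_inv]
      _ = y⁻¹ := by rw [← hxy, mul_inv_rev, hc.inv_inv.symm.eq, mul_inv_cancel_left]
  obtain ⟨m, hm⟩ : Odd (orderOf y) := Nat.not_even_iff_odd.1 fun h => hy (even_iff_two_dvd.1 h)
  set z := y ^ (m + 1)
  have hzz : z * z = y := by
    rw [← pow_add, show m + 1 + (m + 1) = orderOf y + 1 by omega, pow_succ, pow_orderOf_eq_one,
      one_mul]
  have hzinv : r * z⁻¹ = z * r := by
    have h : r * z * r⁻¹ = z⁻¹ := by
      rw [← MulAut.conj_apply, map_pow, MulAut.conj_apply, hyinv, inv_pow]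
    calc r * z⁻¹ = r * (r * z * r⁻¹) := by rw [h]
      _ = r * r * (z * r⁻¹) := by group
      _ = z * r := by rw [hr, one_mul, hr']
  refine ⟨hx2, hcx, isConj_iff.2 ⟨z, ?_⟩⟩
  have hzx : z * x = x * z := (hc.pow_right (m + 1)).eq.symm
  calc z * (x * r) * z⁻¹ = z * x * (r * z⁻¹) := by group
    _ = x * z * (z * r) := by rw [hzinv, hzx]
    _ = x * (z * z) * r := by group
    _ = d := by rw [hzz, hxy, hg, mul_assoc, hr, mul_one]

end CfsgLib.CentralFour
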